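import Cfsg.Agent.Lib.InvChar.AutLinear.Table

/-!
Coordinates in the extraspecial group and the action of the two generators of the quotient, with
derivations of the forty-eight products of a generator and a word of the quotient.
-/

set_option autoImplicit false
set_option maxRecDepth 100000

namespace CfsgLib.InvChar.AutLinear.Norm

/-- Exponents of `p, q, c, d, z`. -/
abbrev V := Bool × Bool × Bool × Bool × Bool

/-- The neutral exponents. -/
def v0 : V := (false, false, false, false, false)

/-- The exponents of `z`. -/
def vz : V := (false, false, false, false, true)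

/-- The exponents of the four generators. -/
def vgen : Fin 4 → V :=
  ![(true, false, false, false, false), (false, true, false, false, false),
    (false, false, true, false, false), (false, false, false, true, false)]

/-- Left multiplication by `p, q, c, d, z`. -/
def eg : Fin 5 → V → V
  | 0, (i, j, k, l, m) => (!i, j, k, l, m)
  | 1, (i, j, k, l, m) => (i, !j, k, l, xor m i)
  | 2, (i, j, k, l, m) => (i, j, !k, l, xor m k)
  | 3, (i, j, k, l, m) => (i, j, k, !l, xor m (xor k l))
  | 4, (i, j, k, l, m) => (i, j, k, l, !m)

/-- The product. -/
def eMul : V → V → V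
  | (i, j, k, l, m), b =>
    let b := bif m then eg 4 b else b
    let b := bif l then eg 3 b else b
    let b := bif k then eg 2 b else b
    let b := bif j then eg 1 b else b
    bif i then eg 0 b else b

/-- The inverse. -/
def eInv (v : V) : V := eMul v (eMul v v)

/-- Multiplication by a power of `z`. -/
def flp (s : Bool) : V → V
  | (i, j, k, l, m) => (i, j, k, l, xor m s)

/-- The homomorphism given by the images of the four generators. -/
def ext (T : Fin 4 → V) : V → V
  | (i, j, k, l, m) =>
    eMul (bif i then T 0 else v0) (eMul (bif j then T 1 else v0) (eMul (bif k then T 2 else v0)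
      (eMul (bif l then T 3 else v0) (bif m then vz else v0))))

/-- The images under `h`. -/
def imH : Fin 4 → V :=
  ![(true, false, false, false, false), (true, true, true, false, false),
    (false, false, true, false, true), (true, false, true, true, false)]

/-- The images under `k`. -/
def imK : Fin 4 → V :=
  ![(true, false, false, false, false), (false, true, false, false, false),
    (false, false, false, true, false), (false, false, true, true, false)]

/-- The action of a letter: `false` is `h`, `true` is `k`. -/
def act (g : Bool) (v : V) : V := ext (bif g then imK else imH) v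

/-- The action of a word. -/
def actW (w : List Bool) (v : V) : V := w.foldr act v

/-- The exponents in an index. -/
def decV (n : ℕ) : V := (n.testBit 0, n.testBit 1, n.testBit 2, n.testBit 3, n.testBit 4)

/-- The index of exponents. -/
def encV : V → ℕ
  | (i, j, k, l, m) => i.toNat + 2 * j.toNat + 4 * k.toNat + 8 * l.toNat + 16 * m.toNat

/-- The three relators: a word and the exponents it is equal to. -/
def rel (t : Tw) : Fin 3 → List Bool × V :=
  ![([false, false], (false, false, false, false, t.val.testBit 0)),
    ([true, true, true], v0),
    ([false, true, false, true, false, true, false, true],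
      (true, false, false, false, t.val.testBit 1))]

/-- A step: a relator removed or inserted at a position. -/
def step (t : Tw) (s : V × List Bool) (mv : Fin 3 × ℕ × Bool) : V × List Bool :=
  let l := (rel t mv.1).1
  let pre := s.2.take mv.2.1
  let post := s.2.drop mv.2.1
  bif mv.2.2 then (eMul s.1 (actW pre (eInv (rel t mv.1).2)), pre ++ (l ++ post))
  else bif post.take l.length == l then
    (eMul s.1 (actW pre (rel t mv.1).2), pre ++ post.drop l.length)
  else s

/-- The derivations. -/
def cert : List (List (Fin 3 × ℕ × Bool)) :=
  [
  [],
  [(0, 0, false)],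
  [],
  [],
  [(0, 0, false)],
  [],
  [(0, 0, false)],
  [],
  [],
  [(0, 0, false)],
  [],
  [(0, 0, false)],
  [(0, 0, false)],
  [],
  [],
  [(0, 0, false)],
  [],
  [],
  [(0, 0, false)],
  [(0, 0, false)],
  [(0, 0, false)],
  [(0, 0, false)],
  [(2, 3, true), (0, 2, false), (1, 8, false), (0, 7, false), (2, 1, true), (1, 8, false), (0, 7, false), (0, 0, false), (2, 7, true), (1, 14, false), (0, 6, false), (1, 4, false), (0, 3, false)],
  [(0, 4, true), (1, 0, true), (0, 2, true), (1, 10, true), (2, 3, false), (0, 1, true), (0, 6, true), (1, 14, true), (2, 7, false), (0, 8, true), (1, 9, true), (2, 2, false)],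
  [],
  [],
  [],
  [],
  [],
  [(1, 0, false)],
  [],
  [(1, 0, false)],
  [],
  [],
  [],
  [],
  [(0, 0, true), (0, 7, true), (1, 8, true), (2, 1, false)],
  [(1, 0, false)],
  [(2, 0, true), (1, 7, false), (0, 6, false), (1, 5, false)],
  [(0, 0, true), (1, 8, true), (2, 1, false)],
  [(1, 0, false)],
  [(2, 0, true), (1, 7, false), (0, 6, false), (1, 5, false), (0, 4, false)],
  [],
  [(0, 5, true), (1, 6, true), (0, 0, true), (2, 1, false)],
  [],
  [(0, 0, true), (0, 7, true), (1, 8, true), (2, 1, false)],
  [(2, 0, true), (1, 7, false), (0, 6, false), (1, 5, false), (0, 4, false)],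
  [(2, 0, true), (1, 7, false), (0, 6, false), (1, 5, false), (0, 4, false)]]

/-- The word of an element of the quotient. -/
def qB (n : ℕ) : List Bool := (qWords.getD n []).map fun g => g.val == 5

theorem cert_check : ([0, 1, 2, 3] : List Tw).all (fun t => [false, true].all fun g =>
    (List.range 24).all fun n =>
      let x := (lm t (bif g then 5 else 4) (fin (32 * n))).val
      (cert.getD ((bif g then 24 else 0) + n) []).foldl (step t) (v0, g :: qB n) ==
        (decV (x % 32), qB (x / 32))) = true := by
  decide +kernel

theorem lm_gen_check : ([0, 1, 2, 3] : List Tw).all (fun t =>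
    ([(0, 0), (1, 1), (2, 2), (3, 3), (6, 4)] : List (Fin 7 × Fin 5)).all fun g => all1 fun i =>
      (lm t g.1 i).val == encV (eg g.2 (decV (i.val % 32))) + 32 * (i.val / 32)) = true := by
  decide +kernel

theorem lm_hk_check : ([0, 1, 2, 3] : List Tw).all (fun t => [false, true].all fun g => all1 fun i =>
      let x := (lm t (bif g then 5 else 4) (fin (32 * (i.val / 32)))).val
      (lm t (bif g then 5 else 4) i).val ==
        encV (eMul (act g (decV (i.val % 32))) (decV (x % 32))) + 32 * (x / 32)) = true := by
  decide +kernel

theorem dec_enc : ∀ v : V, decV (encV v) = v ∧ encV v < 32 := by decide +kernel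

theorem eMul_v0 : ∀ v : V, eMul v0 v = v ∧ eMul v v0 = v ∧ eMul v (eInv v) = v0 ∧ eMul (eInv v) v = v0 := by
  decide +kernel

theorem sep : ∀ v : V, v = v0 ∨ v = vz ∨ ∃ g : Fin 4, eMul (vgen g) v = flp true (eMul v (vgen g)) := by
  decide +kernel

theorem cancel : ∀ a b : V, eMul (eInv a) b = v0 → a = b := by decide +kernel

theorem flp_eq : ∀ v : V, flp false v = v ∧ flp true v = eMul v vz := by decide +kernel

/-- The classes of the twenty-four words are moved differently. -/
theorem actW_sep : (List.range 24).all (fun a => (List.range 24).all fun b => a == b ||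
    ([0, 1, 2, 3] : List (Fin 4)).any fun g =>
      !((encV (actW (qB a) (vgen g)) % 16) == (encV (actW (qB b) (vgen g)) % 16))) = true := by
  decide +kernel

/-- The action of the three relators. -/
theorem rel_act : ∀ t : Tw, ∀ r : Fin 3, ∀ g : Fin 4,
    actW (rel t r).1 (vgen g) = eMul (eMul (rel t r).2 (vgen g)) (eInv (rel t r).2) := by
  decide +kernel

end CfsgLib.InvChar.AutLinear.Norm
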