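import Cfsg.Agent.Lib.InvChar.AutLinear.Table

/-!
Finite checks for the isolation of `z` and the normal subgroups of the centraliser.
-/

set_option autoImplicit false
set_option maxRecDepth 100000

namespace CfsgLib.InvChar.AutLinear

/-- The square roots of `z` commuting with an index. -/
def szf (t : Tw) (i : I) : ℕ := cnt fun s => (mul t s s).val == 16 && com t s i

/-- The square roots of an index commuting with it. -/
def suf (t : Tw) (i : I) : ℕ := cnt fun s => (mul t s s).val == i.val && com t s i

/-- `z` and its class of twenty-four in the first twisted type. -/
def inF (i : I) : Bool := Nat.testBit 0x3300330000000000000000000000000000000000000000000000000000000000000000000000000030303030000000000330033000000000000000000000000000000000000000000000000000000000000000000000000000010000 i.val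

/-- The members `s` of `inF` commuting with an index such that `s z` is one, too. -/
def af (i : I) : ℕ := cnt fun s => inF s && com 1 s i && inF (mul 1 s kz)

/-- The members `s` of `inF` commuting with an index `i` such that `s i` is one, too. -/
def bf (i : I) : ℕ := cnt fun s => inF s && com 1 s i && inF (mul 1 s i)

/-- The possible pairs `(szf, suf)` of an involution other than `z`. -/
def pairs : Tw → List (ℕ × ℕ)
  | 0 => []
  | 1 => [(4, 4), (12, 0), (36, 0), (60, 12)]
  | 2 => [(4, 0), (12, 0), (36, 12)]
  | 3 => [(20, 0), (36, 0), (84, 12)]

/-- The condition on a pair. -/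
def okPair (t : Tw) (a b : ℕ) (f : Bool) : Bool :=
  decide ((a, b) ∈ pairs t) && (!(a == 4 && b == 4) || f)

theorem root_check : ([1, 2, 3] : List Tw).all (fun t => all1 fun i =>
    i.val == 0 || i.val == 16 || !((mul t i i).val == 0) || okPair t (szf t i) (suf t i) (inF i))
      = true := by decide +kernel

theorem pairs_swap : ∀ t ∈ ([1, 2, 3] : List Tw), ∀ p ∈ pairs t, (p.2, p.1) ∈ pairs t →
    t = 1 ∧ p = (4, 4) := by decide +kernel

theorem mark_check : (all1 fun i => !inF i || i.val == 16 || (af i == 12 && bf i == 10)) = true := by
  decide +kernel

theorem orbit_check : (all1 fun i => !inF i || i.val == 16 ||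
    any1 fun g => (cj 1 g (fin 324)).val == i.val) = true := by decide +kernel

theorem kz_sq_check : ([0, 1, 2, 3] : List Tw).all (fun t => (mul t kz kz).val == 0) = true := by
  decide +kernel

/-- The commutator of two indices. -/
def cmt (t : Tw) (i g : I) : I := mul t (cj t i g) (inv t g)

/-- The generators of the normal extraspecial subgroup. -/
def gens : List I := [fin 1, fin 2, fin 4, fin 8, fin 16]

theorem reach_check : ([0, 1, 2, 3] : List Tw).all (fun t => all1 fun i =>
    i.val == 0 || i.val == 16 || gens.any fun g =>
      (cmt t i g).val == 16 || gens.any fun h => (cmt t (cmt t i g) h).val == 16) = true := by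
  decide +kernel

theorem cent_check : ([0, 1, 2, 3] : List Tw).all (fun t => all1 fun i =>
    i.val == 0 || i.val == 16 || gens.any fun e => !com t i e) = true := by decide +kernel

theorem conj_check : ([0, 1, 2, 3] : List Tw).all (fun t => all1 fun g =>
    gens.all fun e => decide ((cj t g e).val < 32)) = true := by decide +kernel

theorem low_check : ([0, 1, 2, 3] : List Tw).all (fun t => (List.range 32).all fun a =>
    (List.range 32).all fun b => decide ((mul t (fin a) (fin b)).val < 32)) = true := by
  decide +kernel

theorem low_count : cnt (fun i => decide (i.val < 32)) = 32 := by decide +kernel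

end CfsgLib.InvChar.AutLinear
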