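import Cfsg.Agent.Lib.InvChar.AutLinear.Setting
import Cfsg.Agent.Lib.InvChar.AutLinear.IsolatedCheck
import Cfsg.Agent.Lib.AEightThreeClasses.Core
import Cfsg.Agent.Lib.Involutions.BrauerSuzuki

/-!
Isolation of `z`, normal subgroups of the centraliser and the odd core.

For a twisted type a conjugate `u = g z g⁻¹` in the centraliser pairs with `g⁻¹ z g` by swapping the
numbers of square roots; for the types `2`, `3` there is no pair, and for the type `1` the one class
left is separated by a second count.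
-/

set_option autoImplicit false
set_option linter.unusedSectionVars false
set_option maxRecDepth 100000

namespace CfsgLib.InvChar.AutLinear

open Subgroup Cfsg CfsgLib.AEightThreeClasses

universe u

variable {G : Type u} [Group G]

/-- `x` is a conjugate of `z`. -/
def IsCj (z x : G) : Prop := ∃ g : G, g * z * g⁻¹ = x

theorem isCj_conj_iff {z : G} (g x : G) : IsCj z (MulAut.conj g x) ↔ IsCj z x := by
  constructor
  · rintro ⟨k, hk⟩
    refine ⟨g⁻¹ * k, ?_⟩
    rw [MulAut.conj_apply] at hk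
    rw [show g⁻¹ * k * z * (g⁻¹ * k)⁻¹ = g⁻¹ * (k * z * k⁻¹) * g by group, hk]
    group
  · rintro ⟨k, hk⟩
    refine ⟨g * k, ?_⟩
    rw [MulAut.conj_apply, ← hk]
    group

/-- The number of square roots of `a` commuting with `b` and `c`. -/
noncomputable def roots (a b c : G) : ℕ :=
  Nat.card {x : G // x * x = a ∧ x * b = b * x ∧ x * c = c * x}

theorem roots_swap (a b c : G) : roots a b c = roots a c b :=
  Nat.card_congr (Equiv.subtypeEquivRight fun _ => and_congr_right fun _ => and_comm)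

theorem roots_map (e : G ≃* G) (a b c : G) : roots a b c = roots (e a) (e b) (e c) :=
  Nat.card_congr (e.toEquiv.subtypeEquiv fun x => by
    simp [← map_mul, e.injective.eq_iff])

/-- The number of conjugates `x` of `z` commuting with `b`, `c` such that `x a` is one, too. -/
noncomputable def marks (z a b c : G) : ℕ :=
  Nat.card {x : G // IsCj z x ∧ x * b = b * x ∧ x * c = c * x ∧ IsCj z (x * a)}

theorem marks_swap (z a b c : G) : marks z a b c = marks z a c b :=
  Nat.card_congr (Equiv.subtypeEquivRight fun _ => and_congr_right fun _ =>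
    ⟨fun ⟨h1, h2, h3⟩ => ⟨h2, h1, h3⟩, fun ⟨h1, h2, h3⟩ => ⟨h2, h1, h3⟩⟩)

theorem marks_conj (z g a b c : G) : marks z a b c =
    marks z (MulAut.conj g a) (MulAut.conj g b) (MulAut.conj g c) :=
  Nat.card_congr ((MulAut.conj g).toEquiv.subtypeEquiv fun x => by
    simp [← map_mul, isCj_conj_iff, (MulAut.conj g).injective.eq_iff, -MulAut.conj_apply])

namespace Ctr

variable [Finite G] {t : Tw} {z : G} (X : Ctr t z)
include X

theorem z_ne_one : z ≠ 1 := by
  intro h
  have h1 : X.φ kz = X.φ (fin 0) := by rw [X.z_eq, X.map_one, h]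
  exact absurd (X.inj h1) (by decide)

theorem z_sq : z * z = 1 := by
  have h := List.all_eq_true.1 kz_sq_check t (X.mem_list t)
  rw [beq_iff_eq] at h
  rw [← X.z_eq, ← X.map_mul, show mul t kz kz = fin 0 from Fin.ext h, X.map_one]

theorem z_inv : z⁻¹ = z := inv_eq_of_mul_eq_one_left X.z_sq

theorem orderOf_z : orderOf z = 2 :=
  orderOf_eq_prime (by rw [pow_two, X.z_sq]) X.z_ne_one

theorem mul_eq_iff (i j k : I) : X.φ i * X.φ j = X.φ k ↔ (mul t i j).val = k.val := by
  rw [← X.map_mul, X.inj.eq_iff, Fin.ext_iff]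

theorem eq_z_iff (i : I) : X.φ i = z ↔ i.val = 16 := by
  refine ⟨fun h => congrArg Fin.val (X.inj (h.trans X.z_eq.symm)), fun h => ?_⟩
  rw [show i = kz from Fin.ext h, X.z_eq]

theorem card_pred (p : I → Bool) (P : G → Prop) (hP : ∀ i, p i = true ↔ P (X.φ i))
    (hC : ∀ x, P x → x * z = z * x) : Nat.card {x : G // P x} = cnt p := by
  rw [cnt_eq]
  refine (Nat.card_eq_of_bijective (fun i : {i : I // p i = true} =>
    (⟨X.φ i, (hP i).1 i.2⟩ : {x : G // P x})) ⟨?_, ?_⟩).symm
  · intro a b e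
    exact Subtype.ext (X.inj (congrArg Subtype.val e))
  · rintro ⟨x, hx⟩
    obtain ⟨i, rfl⟩ := X.surj x (hC x hx)
    exact ⟨⟨i, (hP i).2 hx⟩, rfl⟩

theorem roots_z (i : I) : roots z z (X.φ i) = szf t i := by
  refine X.card_pred _ _ (fun s => ?_) (fun x hx => hx.2.1)
  simp only [Bool.and_eq_true, beq_iff_eq, X.com_iff, and_iff_right (X.comm_z s)]
  rw [← X.map_mul s s, X.eq_z_iff]

theorem roots_self (i : I) : roots (X.φ i) z (X.φ i) = suf t i := by
  refine X.card_pred _ _ (fun s => ?_) (fun x hx => hx.2.1)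
  simp only [Bool.and_eq_true, beq_iff_eq, X.com_iff, and_iff_right (X.comm_z s), X.mul_eq_iff]

/-- A second conjugate of `z` in the centraliser occurs for the first twisted type only and lies in
`inF`. -/
theorem conj_inF (ht : t ≠ 0) (g : G) (hne : g * z * g⁻¹ ≠ z)
    (hcm : g * z * g⁻¹ * z = z * (g * z * g⁻¹)) :
    t = 1 ∧ ∃ i j, inF i = true ∧ i.val ≠ 16 ∧ inF j = true ∧ j.val ≠ 16 ∧
      X.φ i = g * z * g⁻¹ ∧ X.φ j = g⁻¹ * z * g := by
  have htl : t ∈ ([1, 2, 3] : List Tw) := by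
    have : ∀ t : Tw, t ≠ 0 → t ∈ ([1, 2, 3] : List Tw) := by decide
    exact this t ht
  obtain ⟨i, hi⟩ := X.surj _ hcm
  have hcm' : g⁻¹ * z * g * z = z * (g⁻¹ * z * g) := by
    calc g⁻¹ * z * g * z = g⁻¹ * (z * (g * z * g⁻¹)) * g := by group
      _ = g⁻¹ * (g * z * g⁻¹ * z) * g := by rw [hcm]
      _ = _ := by group
  obtain ⟨j, hj⟩ := X.surj _ hcm'
  have hne' : g⁻¹ * z * g ≠ z := by
    intro h
    apply hne
    calc g * z * g⁻¹ = g * (g⁻¹ * z * g) * g⁻¹ := by rw [h]
      _ = z := by group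
  have key : ∀ (k : I) (h : G), X.φ k = h * z * h⁻¹ → h * z * h⁻¹ ≠ z →
      (szf t k, suf t k) ∈ pairs t ∧ ((szf t k = 4 ∧ suf t k = 4) → inF k = true) ∧ k.val ≠ 16 := by
    intro k h hk hn
    have hc := all1_spec (List.all_eq_true.1 root_check t htl) k
    have h16 : k.val ≠ 16 := fun e => hn (by rw [← hk, X.eq_z_iff]; exact e)
    have h0 : k.val ≠ 0 := by
      intro e
      have e1 : X.φ k = 1 := by rw [show k = fin 0 from Fin.ext e, X.map_one]
      rw [hk, conj_eq_one_iff] at e1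
      exact X.z_ne_one e1
    have hsq : (mul t k k).val = 0 := by
      have : X.φ k * X.φ k = X.φ (fin 0) := by
        rw [hk, X.map_one, conj_mul, X.z_sq, mul_one, mul_inv_cancel]
      exact (X.mul_eq_iff _ _ _).1 this
    simp only [okPair, Bool.or_eq_true, Bool.and_eq_true, Bool.not_eq_true', beq_iff_eq, h0, h16,
      hsq, beq_self_eq_true, Bool.true_eq_false, false_or, decide_eq_true_eq] at hc
    refine ⟨hc.1, fun h4 => hc.2.resolve_left ?_, h16⟩
    simp [h4.1, h4.2]
  have ki := key i g hi hne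
  have kj := key j g⁻¹ (by rw [inv_inv]; exact hj) (by rw [inv_inv]; exact hne')
  set e := MulAut.conj g with he
  have e1 : e z = X.φ i := by rw [he, MulAut.conj_apply, hi]
  have e2 : e (X.φ j) = z := by rw [he, MulAut.conj_apply, hj]; group
  have c1 : szf t j = suf t i := by
    rw [← X.roots_z j, ← X.roots_self i, roots_map e, e1, e2, roots_swap]
  have c2 : suf t j = szf t i := by
    rw [← X.roots_self j, ← X.roots_z i, roots_map e, e1, e2, roots_swap]
  have hp := kj.1
  rw [c1, c2] at hp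
  obtain ⟨ht1, hpr⟩ := pairs_swap t htl _ ki.1 hp
  rw [Prod.mk.injEq] at hpr
  exact ⟨ht1, i, j, ki.2.1 hpr, ki.2.2, kj.2.1 ⟨c1.trans hpr.2, c2.trans hpr.1⟩, kj.2.2, hi, hj⟩

/-- `z` is isolated in the twisted types. -/
theorem not_isolated_zero (ht : t ≠ 0) : ¬ NotIsolated z := by
  rintro ⟨g, hne, hcm⟩
  obtain ⟨rfl, i, j, hiF, hi16, hjF, hj16, hi, hj⟩ := X.conj_inF ht g hne hcm
  have horb : ∀ k : I, inF k = true → k.val ≠ 16 → ∃ h, cj 1 h (fin 324) = k := by
    intro k hk hk16
    have h := all1_spec orbit_check k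
    simp only [hk, Bool.or_eq_true, Bool.not_true, Bool.false_eq_true, beq_iff_eq, hk16,
      false_or] at h
    obtain ⟨h', e⟩ := any1_spec h
    exact ⟨h', Fin.ext (by simpa using e)⟩
  have h324 : IsCj z (X.φ (fin 324)) := by
    obtain ⟨h, e⟩ := horb i hiF hi16
    rw [← e, X.map_cj] at hi
    refine ⟨(X.φ h)⁻¹ * g, ?_⟩
    calc (X.φ h)⁻¹ * g * z * ((X.φ h)⁻¹ * g)⁻¹ = (X.φ h)⁻¹ * (g * z * g⁻¹) * X.φ h := by group
      _ = _ := by rw [← hi]; group
  have hcj : ∀ k : I, IsCj z (X.φ k) ↔ inF k = true := by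
    intro k
    constructor
    · rintro ⟨h, hk⟩
      by_cases hkz : X.φ k = z
      · rw [show k = kz from Fin.ext ((X.eq_z_iff k).1 hkz)]
        decide +kernel
      · obtain ⟨-, a, b, ha, -, -, -, ha', -⟩ :=
          X.conj_inF ht h (by rw [hk]; exact hkz) (by rw [hk]; exact X.comm_z k)
        rw [hk] at ha'
        rw [← X.inj ha']
        exact ha
    · intro hk
      by_cases hk16 : k.val = 16
      · exact ⟨1, by rw [(X.eq_z_iff k).2 hk16]; simp⟩
      · obtain ⟨h, e⟩ := horb k hk hk16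
        rw [← e, X.map_cj, ← MulAut.conj_apply, isCj_conj_iff]
        exact h324
  have ha : marks z z z (X.φ j) = af j := by
    refine X.card_pred _ _ (fun s => ?_) (fun x hx => hx.2.1)
    simp only [Bool.and_eq_true, X.com_iff, and_iff_right (X.comm_z s), ← hcj, X.map_mul, X.z_eq,
      and_assoc]
  have hb : marks z (X.φ i) z (X.φ i) = bf i := by
    refine X.card_pred _ _ (fun s => ?_) (fun x hx => hx.2.1)
    simp only [Bool.and_eq_true, X.com_iff, and_iff_right (X.comm_z s), ← hcj, X.map_mul,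
      and_assoc]
  have e1 : MulAut.conj g z = X.φ i := by rw [MulAut.conj_apply, hi]
  have e2 : MulAut.conj g (X.φ j) = z := by rw [MulAut.conj_apply, hj]; group
  have hab : af j = bf i := by
    rw [← ha, ← hb, marks_conj z g, e1, e2, marks_swap]
  have mi := all1_spec mark_check i
  have mj := all1_spec mark_check j
  simp only [hiF, hjF, hi16, hj16, Bool.or_eq_true, Bool.and_eq_true, Bool.not_true,
    Bool.false_eq_true, beq_iff_eq, false_or] at mi mj
  omega

theorem comm_mem {N : Subgroup G}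
    (hn : ∀ g ∈ centralizer ({z} : Set G), ∀ x ∈ N, g * x * g⁻¹ ∈ N) {i g : I}
    (hi : X.φ i ∈ N) : X.φ (cmt t i g) ∈ N := by
  rw [cmt, X.map_mul, X.map_cj, X.map_inv,
    show X.φ i * X.φ g * (X.φ i)⁻¹ * (X.φ g)⁻¹ = X.φ i * (X.φ g * (X.φ i)⁻¹ * (X.φ g)⁻¹) by group]
  exact mul_mem hi (hn _ ((X.mem_C _).2 ⟨g, rfl⟩) _ (inv_mem hi))

/-- A nontrivial normal subgroup of the centraliser contains `z`. -/
theorem normal_subgroup_mem {N : Subgroup G} (hN : N ≤ centralizer ({z} : Set G))
    (hn : ∀ g ∈ centralizer ({z} : Set G), ∀ x ∈ N, g * x * g⁻¹ ∈ N) (hne : N ≠ ⊥) : z ∈ N := by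
  obtain ⟨x, hx, hx1⟩ := (N.bot_or_exists_ne_one).resolve_left hne
  obtain ⟨i, rfl⟩ := (X.mem_C x).1 (hN hx)
  have h0 : i.val ≠ 0 := fun e => hx1 (by rw [show i = fin 0 from Fin.ext e, X.map_one])
  by_cases h16 : i.val = 16
  · rwa [← (X.eq_z_iff i).2 h16]
  have h := all1_spec (List.all_eq_true.1 reach_check t (X.mem_list t)) i
  simp only [Bool.or_eq_true, beq_iff_eq, h0, h16, false_or, List.any_eq_true] at h
  obtain ⟨g, -, hg⟩ := h
  rcases hg with hg | ⟨h', -, hg⟩
  · rw [← (X.eq_z_iff _).2 hg]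
    exact X.comm_mem hn hx
  · rw [← (X.eq_z_iff _).2 hg]
    exact X.comm_mem hn (X.comm_mem hn hx)

theorem eq_one_of_mem_oddCore_cent {y : G} (hy : y ∈ oddCore G) (hc : y * z = z * y) : y = 1 := by
  by_contra hne
  have hbot : oddCore G ⊓ centralizer ({z} : Set G) ≠ ⊥ := fun e => hne <| by
    have : y ∈ oddCore G ⊓ centralizer ({z} : Set G) := ⟨hy, mem_cent.2 hc⟩
    rwa [e, mem_bot] at this
  have hz := X.normal_subgroup_mem (N := oddCore G ⊓ centralizer ({z} : Set G)) inf_le_right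
    (fun g hg x hx => ⟨(inferInstance : (oddCore G).Normal).conj_mem x hx.1 g,
      Subgroup.mul_mem _ (Subgroup.mul_mem _ hg hx.2) (Subgroup.inv_mem _ hg)⟩) hbot
  exact X.z_ne_one (eq_one_of_mem_odd CfsgLib.Cores.odd_card_oddCore X.z_sq hz.1)

/-- `z` inverts the odd core. -/
theorem inverts {y : G} (hy : y ∈ oddCore G) : z * y * z = y⁻¹ := by
  have hn : (oddCore G).Normal := inferInstance
  let f : oddCore G → oddCore G := fun a =>
    ⟨(a : G)⁻¹ * (z * a * z⁻¹), mul_mem (inv_mem a.2) (hn.conj_mem _ a.2 z)⟩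
  have hf : Function.Injective f := by
    intro a b e
    have e' : (a : G)⁻¹ * (z * a * z⁻¹) = (b : G)⁻¹ * (z * b * z⁻¹) := congrArg Subtype.val e
    have h1 : (b : G) * (a : G)⁻¹ * z = z * ((b : G) * (a : G)⁻¹) := by
      calc (b : G) * (a : G)⁻¹ * z = b * ((a : G)⁻¹ * (z * a * z⁻¹)) * z * (a : G)⁻¹ := by group
        _ = b * ((b : G)⁻¹ * (z * b * z⁻¹)) * z * (a : G)⁻¹ := by rw [e']
        _ = _ := by group
    have := X.eq_one_of_mem_oddCore_cent (mul_mem b.2 (inv_mem a.2)) h1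
    exact Subtype.ext (mul_inv_eq_one.1 this).symm
  obtain ⟨a, ha⟩ := Finite.injective_iff_surjective.1 hf ⟨y, hy⟩
  have ha' : (a : G)⁻¹ * (z * a * z⁻¹) = y := congrArg Subtype.val ha
  rw [← ha', X.z_inv]
  calc z * ((a : G)⁻¹ * (z * a * z)) * z = z * (a : G)⁻¹ * (z * a * (z * z)) := by group
    _ = z * (a : G)⁻¹ * (z⁻¹ * a) := by rw [X.z_sq, X.z_inv, mul_one]
    _ = ((a : G)⁻¹ * (z * a * z⁻¹))⁻¹ := by group
    _ = _ := by rw [X.z_inv]

theorem isMulCommutative_oddCore : IsMulCommutative ↥(oddCore G) := by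
  refine ⟨⟨fun a b => Subtype.ext ?_⟩⟩
  have h := X.inverts (mul_mem a.2 b.2)
  rw [show z * ((a : G) * b) * z = z * a * (z * z) * b * z by rw [X.z_sq]; group,
    show z * (a : G) * (z * z) * b * z = (z * a * z) * (z * b * z) by group, X.inverts a.2,
    X.inverts b.2, ← mul_inv_rev, inv_inj] at h
  exact h.symm

/-- Without fusion in its centraliser `z` is in the centre modulo the odd core. -/
theorem solvable_of_isolated (hH : Group.IsSolvable ↥(centralizer ({z} : Set G)))
    (h : ¬ NotIsolated z) : Group.IsSolvable G := by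
  haveI : Fact (Nat.Prime 2) := ⟨Nat.prime_two⟩
  set C := centralizer ({z} : Set G) with hC
  have hlow : ∀ a b : I, decide (a.val < 32) = true → decide (b.val < 32) = true →
      decide ((mul t a b).val < 32) = true := by
    intro a b ha hb
    rw [decide_eq_true_eq] at ha hb
    have h1 := List.all_eq_true.1 (List.all_eq_true.1 (List.all_eq_true.1 low_check t (X.mem_list t))
      a.val (List.mem_range.2 ha)) b.val (List.mem_range.2 hb)
    rwa [fin_val, fin_val] at h1
  set E := X.sub (fun i => decide (i.val < 32)) (by decide) hlow with hE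
  have hEC : E ≤ C := by
    rintro _ ⟨i, -, rfl⟩
    exact (X.mem_C _).2 ⟨i, rfl⟩
  have hE2 : IsPGroup 2 (E.subgroupOf C) := by
    refine IsPGroup.of_card (n := 5) ?_
    rw [Nat.card_congr (subgroupOfEquivOfLe hEC).toEquiv,
      X.card_image _ E (fun g => Iff.rfl), low_count]
    rfl
  let gs : Set C := {c | ∃ e ∈ gens, X.φ e = (c : G)}
  have hM : Subgroup.normalClosure gs ≤ E.subgroupOf C := by
    refine (Subgroup.closure_le _).2 fun c hc => ?_
    obtain ⟨c0, ⟨e, he, hec⟩, hconj⟩ := Group.mem_conjugatesOfSet_iff.1 hc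
    obtain ⟨k, hk⟩ := isConj_iff.1 hconj
    obtain ⟨g, hg⟩ := (X.mem_C (k : G)).1 k.2
    have hlt := List.all_eq_true.1
      (all1_spec (List.all_eq_true.1 conj_check t (X.mem_list t)) g) e he
    refine ⟨cj t g e, hlt, ?_⟩
    rw [X.map_cj, hg, hec]
    exact congrArg Subtype.val hk
  have hM2 : IsPGroup 2 (Subgroup.normalClosure gs) := hE2.to_le hM
  obtain ⟨T⟩ := (inferInstance : Nonempty (Sylow 2 C))
  have hMT : Subgroup.normalClosure gs ≤ (T : Subgroup C) := by
    have hJ : IsPGroup 2 ↥((T : Subgroup C) ⊔ Subgroup.normalClosure gs) :=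
      IsPGroup.to_sup_of_normal_right T.isPGroup' hM2
    rw [← T.is_maximal' hJ le_sup_left]
    exact le_sup_right
  obtain ⟨P, hP⟩ := (T.isPGroup'.map C.subtype).exists_le_sylow
  have hgP : ∀ e ∈ gens, X.φ e ∈ (P : Subgroup G) := fun e he =>
    hP ⟨⟨X.φ e, (X.mem_C _).2 ⟨e, rfl⟩⟩, hMT (Subgroup.subset_normalClosure ⟨e, he, rfl⟩), rfl⟩
  have hzP : z ∈ (P : Subgroup G) := by rw [← X.z_eq]; exact hgP kz (by decide)
  haveI : Nontrivial P := ⟨⟨⟨z, hzP⟩, 1, fun e => X.z_ne_one (congrArg Subtype.val e)⟩⟩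
  haveI : Nontrivial (center P) := P.isPGroup'.center_nontrivial
  obtain ⟨c, hc⟩ := exists_ne (1 : center P)
  have hcc : ∀ x ∈ (P : Subgroup G), x * ((c : P) : G) = ((c : P) : G) * x := fun x hx =>
    congrArg Subtype.val (mem_center_iff.1 c.2 ⟨x, hx⟩)
  obtain ⟨i, hi⟩ := X.surj _ (hcc z hzP).symm
  have hiz : X.φ i = z := by
    rw [X.eq_z_iff]
    by_contra h16
    have h0 : i.val ≠ 0 := fun e => hc (Subtype.ext (Subtype.ext (by
      rw [← hi, show i = fin 0 from Fin.ext e, X.map_one]; rfl)))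
    have hk := all1_spec (List.all_eq_true.1 cent_check t (X.mem_list t)) i
    simp only [Bool.or_eq_true, beq_iff_eq, h0, h16, false_or, List.any_eq_true,
      Bool.not_eq_true'] at hk
    obtain ⟨e, he, hke⟩ := hk
    have := (X.com_iff i e).2 (by rw [hi]; exact (hcc _ (hgP e he)).symm)
    rw [hke] at this
    exact Bool.false_ne_true this
  have hcz : ((c : P) : G) = z := hi.symm.trans hiz
  have hiso : ∀ g : G, g * z * g⁻¹ ∈ P → g * z * g⁻¹ = z := by
    intro g hg
    by_contra hne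
    have := hcc _ hg
    rw [hcz] at this
    exact h ⟨g, hne, this⟩
  have hcov : Function.Surjective
      ((QuotientGroup.mk' (oddCore G)).comp C.subtype) := by
    intro q
    obtain ⟨g, rfl⟩ := QuotientGroup.mk'_surjective (oddCore G) q
    have hw := inv_mem (CfsgLib.Involutions.zstar_isolated P X.orderOf_z hiso g)
    have hdz : (z * g * z⁻¹ * g⁻¹)⁻¹ * z = g * z * g⁻¹ := by
      rw [show (z * g * z⁻¹ * g⁻¹)⁻¹ * z = g * z * g⁻¹ * (z⁻¹ * z) by group, inv_mul_cancel,
        mul_one]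
    obtain ⟨o, ho, hoz⟩ := exists_conj_of_mem_coset CfsgLib.Cores.odd_card_oddCore hw X.z_sq
      (by rw [hdz, conj_mul, X.z_sq, mul_one, mul_inv_cancel])
    rw [hdz] at hoz
    refine ⟨⟨o⁻¹ * g, mem_cent.2 ?_⟩, ?_⟩
    · calc o⁻¹ * g * z = o⁻¹ * (g * z * g⁻¹) * g := by group
        _ = o⁻¹ * (o * z * o⁻¹) * g := by rw [hoz]
        _ = _ := by group
    · change QuotientGroup.mk' (oddCore G) (o⁻¹ * g) = _
      rw [_root_.map_mul, _root_.map_inv, show QuotientGroup.mk' (oddCore G) o = 1 from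
        (QuotientGroup.eq_one_iff o).2 ho, inv_one, one_mul]
  haveI : Group.IsSolvable (G ⧸ oddCore G) := solvable_of_surjective hcov
  haveI : Group.IsSolvable ↥(oddCore G) :=
    isSolvable_of_comm fun a b => X.isMulCommutative_oddCore.is_comm.comm a b
  exact solvable_of_ker_le_range (oddCore G).subtype (QuotientGroup.mk' (oddCore G))
    (by rw [QuotientGroup.ker_mk', Subgroup.range_subtype])

/-- With fusion in its centraliser there is no odd core. -/
theorem oddCore_eq_bot (h : NotIsolated z) : oddCore G = ⊥ := by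
  obtain ⟨g, hne, hcm⟩ := h
  have hn : (oddCore G).Normal := inferInstance
  set K := centralizer (oddCore G : Set G) with hK
  set v := g * z * g⁻¹ with hv
  have hvi : ∀ y ∈ oddCore G, v * y * v = y⁻¹ := by
    intro y hy
    have h1 := X.inverts (by simpa using hn.conj_mem y hy g⁻¹ : g⁻¹ * y * g ∈ oddCore G)
    calc v * y * v = g * (z * (g⁻¹ * y * g) * z) * g⁻¹ := by rw [hv]; group
      _ = y⁻¹ := by rw [h1]; group
  have hv2 : v * v = 1 := by rw [hv, conj_mul, X.z_sq, mul_one, mul_inv_cancel]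
  have hvz : v * z ∈ K := by
    refine mem_centralizer_iff.2 fun y hy => ?_
    have hy' : y ∈ oddCore G := hy
    have h1 : v * z * y * (z * v) = y := by
      calc v * z * y * (z * v) = v * (z * y * z) * v := by group
        _ = y := by rw [X.inverts hy', hvi _ (inv_mem hy'), inv_inv]
    calc y * (v * z) = v * z * y * (z * v) * (v * z) := by rw [h1]
      _ = v * z * y * (z * (v * v) * z) := by group
      _ = v * z * y := by rw [hv2, mul_one, X.z_sq, mul_one]
  have hbot : K ⊓ centralizer ({z} : Set G) ≠ ⊥ := by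
    intro e
    have hm : v * z ∈ K ⊓ centralizer ({z} : Set G) :=
      ⟨hvz, mul_mem (mem_cent.2 hcm) (mem_cent.2 rfl)⟩
    rw [e, mem_bot] at hm
    exact hne ((eq_inv_of_mul_eq_one_left hm).trans X.z_inv)
  have hzK : z ∈ K := by
    refine (X.normal_subgroup_mem (N := K ⊓ centralizer ({z} : Set G)) inf_le_right
      (fun k hk x hx => ⟨?_, Subgroup.mul_mem _ (Subgroup.mul_mem _ hk hx.2) (Subgroup.inv_mem _ hk)⟩) hbot).1
    refine mem_centralizer_iff.2 fun y hy => ?_
    have h1 := mem_centralizer_iff.1 hx.1 (k⁻¹ * y * k) (by simpa using hn.conj_mem y hy k⁻¹)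
    calc y * (k * x * k⁻¹) = k * (k⁻¹ * y * k * x) * k⁻¹ := by group
      _ = k * (x * (k⁻¹ * y * k)) * k⁻¹ := by rw [h1]
      _ = _ := by group
  rw [eq_bot_iff]
  intro y hy
  rw [mem_bot]
  refine eq_one_of_mem_odd CfsgLib.Cores.odd_card_oddCore ?_ hy
  have h1 := X.inverts hy
  rw [← mem_centralizer_iff.1 hzK y hy, mul_assoc, X.z_sq, mul_one] at h1
  rw [mul_eq_one_iff_eq_inv]
  exact h1

end Ctr

end CfsgLib.InvChar.AutLinear
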