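import Cfsg.Agent.Lib.InvChar.AutLinear.Setting
import Cfsg.Agent.Lib.Cores.PCore
import Cfsg.Agent.Lib.BaseThree.Triples

/-!
From the subgroup of index four to the automorphism group: its two-core is trivial, an embedding
into a group of order 60480 becomes onto, and the whole group acts faithfully on it.
-/

set_option autoImplicit false
set_option linter.unusedSectionVars false
set_option linter.style.haveILetI false
set_option maxRecDepth 100000

namespace CfsgLib.InvChar.AutLinear

open Cfsg

/-- The four elements `1`, `p`, `z`, `p z`. -/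
def inFour (i : I) : Bool := i.val == 0 || i.val == 1 || i.val == 16 || i.val == 17

theorem bad_check : (all1 fun i =>
    !inP i || inFour i || any1 fun g => !com 0 i (cj 0 g i)) = true := by decide +kernel

theorem z_mem_inD : inD kz = true := by decide +kernel

theorem cnt_inD : cnt inD = 192 := by decide +kernel

theorem cnt_inFour : cnt inFour = 4 := by decide +kernel

/-- A group of at most four elements has solvable automorphism group. -/
theorem isSolvable_mulAut_of_card_le_four {Z : Type*} [Group Z] [Finite Z]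
    (h : Nat.card Z ≤ 4) : Group.IsSolvable (MulAut Z) := by
  classical
  haveI := Fintype.ofFinite Z
  haveI := CfsgLib.BaseThree.isSolvable_perm_fin_four
  obtain ⟨ι⟩ : Nonempty (Z ↪ Fin 4) := Function.Embedding.nonempty_of_card_le
    (by rwa [Fintype.card_fin, ← Nat.card_eq_fintype_card])
  let f : MulAut Z →* Equiv.Perm Z :=
    { toFun := fun e => e.toEquiv
      map_one' := rfl
      map_mul' := fun _ _ => rfl }
  have hf : Function.Injective f := fun a b hab => MulEquiv.toEquiv_injective hab
  exact Group.isSolvable_of_isSolvable_injective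
    (f := (Equiv.Perm.viaEmbeddingHom ι).comp f)
    ((Equiv.Perm.viaEmbeddingHom_injective ι).comp hf)

/-- A group with a solvable normal subgroup of index four is solvable. -/
theorem isSolvable_of_index_four {G : Type*} [Group G] [Finite G] (L : Subgroup G) [L.Normal]
    (hi : L.index = 4) (hL : Group.IsSolvable ↥L) : Group.IsSolvable G := by
  haveI : Fact (Nat.Prime 2) := ⟨Nat.prime_two⟩
  have hc : Nat.card (G ⧸ L) = 2 ^ 2 := by rw [← Subgroup.index_eq_card, hi]; norm_num
  haveI := (IsPGroup.of_card hc).isNilpotent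
  haveI : Group.IsSolvable (G ⧸ L) := inferInstance
  haveI := hL
  exact Group.isSolvable_of_ker_le_range L.subtype (QuotientGroup.mk' L)
    (by rw [QuotientGroup.ker_mk', Subgroup.range_subtype])

universe u

section
variable {G : Type u} [Group G] [Finite G] {z : G} (X : Ctr 0 z) (Q : Quarter X)
include X

theorem z_mem_quarter : z ∈ Q.L := by
  have := (Q.mem_iff kz).2 z_mem_inD
  rwa [X.z_eq] at this

theorem card_quarter_centralizer :
    Nat.card ↥(Q.L ⊓ Subgroup.centralizer ({z} : Set G)) = 192 := by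
  rw [X.card_image inD _ (fun g => ?_), cnt_inD]
  rw [Subgroup.mem_inf]
  constructor
  · rintro ⟨hL, hC⟩
    obtain ⟨i, rfl⟩ := (X.mem_C g).1 hC
    exact ⟨i, (Q.mem_iff i).1 hL, rfl⟩
  · rintro ⟨i, hi, rfl⟩
    exact ⟨(Q.mem_iff i).2 hi, (X.mem_C _).2 ⟨i, rfl⟩⟩

/-- An abelian normal subgroup inside the Sylow subgroup of the quarter has at most four elements. -/
theorem card_le_four_of_normal (Z : Subgroup G) [Z.Normal]
    (hP : ∀ g ∈ Z, ∃ i, inP i = true ∧ X.φ i = g)
    (hab : ∀ a ∈ Z, ∀ b ∈ Z, a * b = b * a) : Nat.card Z ≤ 4 := by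
  have hW : ∀ g ∈ Z, ∃ i, inFour i = true ∧ X.φ i = g := by
    intro g hg
    obtain ⟨i, hi, rfl⟩ := hP g hg
    refine ⟨i, ?_, rfl⟩
    have h := all1_spec bad_check i
    simp only [hi, Bool.not_true, Bool.false_or, Bool.or_eq_true] at h
    rcases h with h | h
    · exact h
    · obtain ⟨k, hk⟩ := any1_spec h
      exfalso
      simp only [Bool.not_eq_true'] at hk
      have hcj : X.φ (cj 0 k i) ∈ Z := by
        rw [X.map_cj]
        exact Subgroup.Normal.conj_mem inferInstance _ hg _
      have := (X.com_iff i (cj 0 k i)).2 (hab _ hg _ hcj)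
      rw [this] at hk
      exact Bool.noConfusion hk
  rw [← cnt_inFour, cnt_eq]
  refine Nat.card_le_card_of_injective
    (fun g : Z => (⟨(hW g g.2).choose, (hW g g.2).choose_spec.1⟩ : {i : I // inFour i = true})) ?_
  intro a b hab'
  apply Subtype.ext
  rw [← (hW a a.2).choose_spec.2, ← (hW b b.2).choose_spec.2]
  exact congrArg (fun x : {i : I // inFour i = true} => X.φ x.1) hab'

/-- The two-core of the quarter is trivial. -/
theorem pCore_quarter_eq_bot
    (hmem : ∀ N : Subgroup G, N.Normal → N ≤ Subgroup.centralizer ({z} : Set G) → N ≠ ⊥ → z ∈ N)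
    (hH : Group.IsSolvable ↥(Subgroup.centralizer ({z} : Set G)))
    (hns : ¬ Group.IsSolvable G) : Cfsg.pCore 2 ↥Q.L = ⊥ := by
  haveI := Q.normal
  obtain ⟨S, hS⟩ := Q.sylow
  set V : Subgroup G := (Cfsg.pCore 2 ↥Q.L).map Q.L.subtype with hV
  haveI hVn : V.Normal := CfsgLib.Cores.normal_map_subtype Q.L (Cfsg.pCore 2 ↥Q.L)
  have hVP : ∀ g ∈ V, ∃ i, inP i = true ∧ X.φ i = g := by
    rintro g ⟨x, hx, rfl⟩
    exact (hS x).1 (CfsgLib.Cores.pCore_le_sylow S hx)
  have hVC : V ≤ Subgroup.centralizer ({z} : Set G) := by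
    intro g hg
    obtain ⟨i, -, e⟩ := hVP g hg
    exact (X.mem_C g).2 ⟨i, e⟩
  by_contra hne
  have hVne : V ≠ ⊥ := fun h => hne ((Subgroup.map_eq_bot_iff_of_injective _
    Q.L.subtype_injective).1 h)
  have hzV : z ∈ V := hmem V hVn hVC hVne
  set Z : Subgroup G := V ⊓ Subgroup.centralizer (V : Set G) with hZ
  haveI : Z.Normal := Subgroup.normal_inf_normal _ _
  have hzZ : z ∈ Z := ⟨hzV, fun v hv => Subgroup.mem_centralizer_singleton_iff.1 (hVC hv)⟩
  have h4 : Nat.card Z ≤ 4 := card_le_four_of_normal X Z (fun g hg => hVP g hg.1)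
    (fun a ha b hb => hb.2 a ha.1)
  haveI := isSolvable_mulAut_of_card_le_four h4
  haveI := hH
  have hker : (MulAut.conjNormal : G →* MulAut Z).ker ≤
      (Subgroup.centralizer ({z} : Set G)).subtype.range := by
    intro g hg
    rw [Subgroup.range_subtype, Subgroup.mem_centralizer_singleton_iff]
    have h := congrArg Subtype.val (DFunLike.congr_fun (MonoidHom.mem_ker.1 hg) ⟨z, hzZ⟩)
    rw [MulAut.conjNormal_apply] at h
    exact mul_inv_eq_iff_eq_mul.1 h
  exact hns (Group.isSolvable_of_ker_le_range _ _ hker)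

/-- The group acts faithfully on the quarter. -/
theorem centralizer_quarter_eq_bot
    (hmem : ∀ N : Subgroup G, N.Normal → N ≤ Subgroup.centralizer ({z} : Set G) → N ≠ ⊥ → z ∈ N)
    (hH : Group.IsSolvable ↥(Subgroup.centralizer ({z} : Set G)))
    (hns : ¬ Group.IsSolvable G) : Subgroup.centralizer (Q.L : Set G) = ⊥ := by
  haveI := Q.normal
  by_contra hne
  have hK : Subgroup.centralizer (Q.L : Set G) ≤ Subgroup.centralizer ({z} : Set G) :=
    Subgroup.centralizer_le (Set.singleton_subset_iff.2 (z_mem_quarter X Q))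
  have hz := hmem _ inferInstance hK hne
  have hL : Q.L ≤ Subgroup.centralizer ({z} : Set G) := fun x hx =>
    Subgroup.mem_centralizer_singleton_iff.2 (hz x hx)
  haveI := hH
  exact hns (isSolvable_of_index_four Q.L Q.index
    (Group.isSolvable_of_isSolvable_injective (Subgroup.inclusion_injective hL)))

/-- The conclusion: if the quarter embeds in `A`, then `G` is its automorphism group. -/
theorem iso_mulAut (hz : orderOf z = 2)
    (hmem : ∀ N : Subgroup G, N.Normal → N ≤ Subgroup.centralizer ({z} : Set G) → N ≠ ⊥ → z ∈ N)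
    (hH : Group.IsSolvable ↥(Subgroup.centralizer ({z} : Set G)))
    (hns : ¬ Group.IsSolvable G) {A : Type*} [Group A] [Finite A] (hA : Nat.card A = 60480)
    [Finite (MulAut A)] (hAut : Nat.card (MulAut A) ≤ 241920)
    (htop : ∀ (R : Subgroup A) (t : A), t ∈ R → orderOf t = 2 →
      192 ≤ Nat.card ↥(R ⊓ Subgroup.centralizer ({t} : Set A)) →
      (∀ V : Subgroup A, V ≤ R → IsPGroup 2 V → (∀ r ∈ R, ∀ v ∈ V, r * v * r⁻¹ ∈ V) → V = ⊥) →
      R = ⊤)
    (hemb : ∃ f : ↥Q.L ⧸ Cfsg.oddCore ↥Q.L →* A, Function.Injective f) :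
    Nonempty (G ≃* MulAut A) := by
  haveI := Q.normal
  obtain ⟨f, hf⟩ := hemb
  set j : ↥Q.L →* A := f.comp (QuotientGroup.mk' (Cfsg.oddCore ↥Q.L)) with hj
  have hinj : Function.Injective j := by
    rw [← MonoidHom.ker_eq_bot_iff, hj, ← MonoidHom.comap_ker,
      (MonoidHom.ker_eq_bot_iff f).2 hf, MonoidHom.comap_bot, QuotientGroup.ker_mk']
    exact Q.odd_core
  set zL : ↥Q.L := ⟨z, z_mem_quarter X Q⟩ with hzL
  have ht : orderOf (j zL) = 2 := by
    rw [orderOf_injective j hinj, ← Subgroup.orderOf_coe]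
    exact hz
  have hsurj : j.range = ⊤ := by
    refine htop j.range (j zL) ⟨zL, rfl⟩ ht ?_ ?_
    · rw [← card_quarter_centralizer X Q]
      refine Nat.card_le_card_of_injective (fun g => ⟨j ⟨g.1, g.2.1⟩, ⟨⟨g.1, g.2.1⟩, rfl⟩, ?_⟩) ?_
      · refine Subgroup.mem_centralizer_singleton_iff.2 ?_
        rw [← map_mul, ← map_mul]
        exact congrArg j (Subtype.ext (Subgroup.mem_centralizer_singleton_iff.1 g.2.2))
      · intro a b hab
        exact Subtype.ext (congrArg (fun x : ↥Q.L => (x : G)) (hinj (congrArg Subtype.val hab)))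
    · intro V hVR hV2 hnorm
      have hn : (V.comap j).Normal := ⟨fun v hv r => by
        show j (r * v * r⁻¹) ∈ V
        rw [map_mul, map_mul, map_inv]
        exact hnorm _ ⟨r, rfl⟩ _ hv⟩
      have h := CfsgLib.Cores.le_pCore (hN := hn) (hV2.comap_of_injective j hinj)
      rw [pCore_quarter_eq_bot X Q hmem hH hns] at h
      rw [← Subgroup.map_comap_eq_self hVR, le_bot_iff.1 h, Subgroup.map_bot]
  let e : ↥Q.L ≃* A := MulEquiv.ofBijective j ⟨hinj, MonoidHom.range_eq_top.1 hsurj⟩
  let ψ : G →* MulAut A := (MulAut.congr e).toMonoidHom.comp MulAut.conjNormal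
  have hψ : Function.Injective ψ := by
    refine (MulAut.congr e).injective.comp ?_
    rw [injective_iff_map_eq_one]
    intro g hg
    have : g ∈ Subgroup.centralizer (Q.L : Set G) := fun x hx => by
      have h := congrArg Subtype.val (DFunLike.congr_fun hg ⟨x, hx⟩)
      rw [MulAut.conjNormal_apply] at h
      exact (mul_inv_eq_iff_eq_mul.1 h).symm
    rwa [centralizer_quarter_eq_bot X Q hmem hH hns, Subgroup.mem_bot] at this
  have hG : Nat.card G = 241920 := by
    rw [← Subgroup.card_mul_index Q.L, Q.index, Nat.card_congr e.toEquiv, hA]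
  refine ⟨MulEquiv.ofBijective ψ ((Nat.bijective_iff_injective_and_card ψ).2 ⟨hψ, ?_⟩)⟩
  exact le_antisymm (Nat.card_le_card_of_injective ψ hψ) (hAut.trans hG.ge)

end

end CfsgLib.InvChar.AutLinear
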