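import Cfsg.Agent.Lib.InvChar.AutLinear.NormalPerm

/-!
The centraliser of the involution has one of the four tables.
-/

set_option autoImplicit false
set_option linter.unusedSectionVars false

namespace CfsgLib.InvChar.AutLinear

universe u

/-- The centraliser is parametrised by one of the four tables. -/
theorem exists_ctr {G : Type u} [Group G] [Finite G] (z : G) (hz : orderOf z = 2)
    (E : Subgroup ↥(Subgroup.centralizer ({z} : Set G))) [E.Normal]
    (hE : Cfsg.IsExtraspecial 2 ↥E) (hE32 : Nat.card ↥E = 32)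
    (hEminus : ∀ A : Subgroup ↥E, Cfsg.IsElementaryAbelian 2 A → Nat.card ↥A ≠ 8)
    (hCE : Subgroup.centralizer (E : Set ↥(Subgroup.centralizer ({z} : Set G))) ≤ E)
    (e : (↥(Subgroup.centralizer ({z} : Set G)) ⧸ E) ≃* Equiv.Perm (Fin 4)) :
    ∃ t : Tw, Nonempty (Ctr t z) := by
  let z' : ↥(Subgroup.centralizer ({z} : Set G)) := ⟨z, Subgroup.mem_centralizer_singleton_iff.2 rfl⟩
  have hzz : z' * z' = 1 := Subtype.ext (by
    have := pow_orderOf_eq_one z
    rw [hz, pow_two] at this
    exact this)
  have hz1 : z' ≠ 1 := fun h => by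
    have h' : z = 1 := congrArg Subtype.val h
    rw [h', orderOf_one] at hz
    exact absurd hz (by norm_num)
  have hzc : ∀ g : ↥(Subgroup.centralizer ({z} : Set G)), g * z' = z' * g := fun g =>
    Subtype.ext (Subgroup.mem_centralizer_singleton_iff.1 g.2)
  have hH : Nat.card ↥(Subgroup.centralizer ({z} : Set G)) = 768 := by
    have h := E.card_mul_index
    rw [hE32, Subgroup.index_eq_card, Nat.card_congr e.toEquiv, Nat.card_perm] at h
    simp [Nat.factorial] at h
    exact h.symm
  obtain ⟨t, p, q, c, d, h, k, K⟩ :=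
    Norm.exists_hk (Norm.edata z' hzz hz1 hzc E hE hE32 hEminus hCE) hH
  let f : I → ↥(Subgroup.centralizer ({z} : Set G)) := Norm.par z' p q c d h k
  have hb : Function.Bijective f :=
    (Nat.bijective_iff_injective_and_card f).2 ⟨Norm.par_injective K, by rw [hH]; simp⟩
  refine ⟨t, ⟨⟨fun i => (f i : G), fun a b e => hb.1 (Subtype.ext e), fun i j => ?_, ?_, ?_⟩⟩⟩
  · exact congrArg Subtype.val (Norm.par_mul K i j)
  · exact congrArg Subtype.val (Norm.par_z K)
  · intro g hg
    obtain ⟨i, hi⟩ := hb.2 ⟨g, Subgroup.mem_centralizer_singleton_iff.2 hg⟩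
    exact ⟨i, congrArg Subtype.val hi⟩

end CfsgLib.InvChar.AutLinear
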