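import Cfsg.Agent.Lib.InvChar.AutLinear.NormalMap
import Cfsg.Agent.Lib.PGroups.Extraspecial

/-!
Generators of the extraspecial group and of the quotient.
-/

set_option autoImplicit false
set_option linter.unusedSectionVars false
set_option maxRecDepth 100000

namespace CfsgLib.InvChar.AutLinear.Norm

open Subgroup

universe u

/-- The five classes of non-central involutions. -/
def five : Fin 5 → V :=
  ![(true, false, false, false, false), (false, true, false, false, false),
    (true, true, true, false, false), (true, true, false, true, false),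
    (true, true, true, true, false)]

/-- The generators after a change of the first class. -/
def newV (m : Fin 5) : Fin 4 → V :=
  let a : Fin 5 := ![1, 0, 0, 0, 0] m
  let b : Fin 5 := ![2, 2, 1, 1, 1] m
  let c : Fin 5 := ![3, 3, 3, 2, 2] m
  ![five m, five a, eMul (five a) (eMul (five m) (five b)), eMul (five a) (eMul (five m) (five c))]

set_option synthInstance.maxSize 4000 in
set_option synthInstance.maxHeartbeats 200000 in
theorem newV_rels : ∀ m : Fin 5, newV m 0 = five m ∧
    eMul (newV m 0) (newV m 0) = v0 ∧ eMul (newV m 1) (newV m 1) = v0 ∧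
    eMul (newV m 2) (newV m 2) = vz ∧ eMul (newV m 3) (newV m 3) = vz ∧
    eMul (newV m 1) (newV m 0) = eMul (eMul (newV m 0) (newV m 1)) vz ∧
    eMul (newV m 2) (newV m 0) = eMul (newV m 0) (newV m 2) ∧
    eMul (newV m 2) (newV m 1) = eMul (newV m 1) (newV m 2) ∧
    eMul (newV m 3) (newV m 0) = eMul (newV m 0) (newV m 3) ∧
    eMul (newV m 3) (newV m 1) = eMul (newV m 1) (newV m 3) ∧
    eMul (newV m 3) (newV m 2) = eMul (eMul (newV m 2) (newV m 3)) vz := by
  decide +kernel

theorem vz_comm : ∀ v : V, eMul vz v = eMul v vz := by decide +kernel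

theorem five_uniq : ∀ i j : Fin 5, ∀ s t : Bool, flp s (five i) = flp t (five j) → i = j := by
  decide +kernel

theorem five_ne : ∀ i : Fin 5, five i ≠ v0 ∧ five i ≠ vz ∧ eMul (five i) (five i) = v0 := by
  decide +kernel

set_option synthInstance.maxSize 4000 in
set_option synthInstance.maxHeartbeats 200000 in
theorem five_cover : ∀ v : V, eMul v v = v0 → v ≠ v0 → v ≠ vz → ∃ i s, v = flp s (five i) := by
  decide +kernel

theorem flp_mul : ∀ v : V, ∀ s t : Bool, flp s (flp t v) = flp (xor s t) v := by decide +kernel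

theorem sign_exists : ∀ a b c d : Bool, ∃ e : V, ∀ g : Fin 4,
    eMul e (vgen g) = eMul (flp (![a, b, c, d] g) (vgen g)) e := by decide +kernel

theorem five_gen : ∀ a b c d : Bool, ∀ g : Fin 4, ∃ ε : Bool,
    ![flp a (five 0), flp b (five 1), eMul (flp b (five 1)) (eMul (flp a (five 0)) (flp c (five 2))),
      eMul (flp b (five 1)) (eMul (flp a (five 0)) (flp d (five 3)))] g = flp ε (vgen g) := by
  decide +kernel

theorem gen_five : ∀ g : Fin 4, vgen g = ![five 0, five 1, eMul (five 1) (eMul (five 0) (five 2)),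
      eMul (five 1) (eMul (five 0) (five 3))] g := by decide +kernel

theorem imH_five : ∀ a b c d : Bool, ∀ g : Fin 4, ∃ ε : Bool,
    ![flp a (five 0), flp b (five 2), eMul (flp b (five 2)) (eMul (flp a (five 0)) (flp c (five 1))),
      eMul (flp b (five 2)) (eMul (flp a (five 0)) (flp d (five 3)))] g = flp ε (imH g) := by
  decide +kernel

theorem imK_five : ∀ a b c d : Bool, ∀ g : Fin 4, ∃ ε : Bool,
    ![flp a (five 0), flp b (five 1), eMul (flp b (five 1)) (eMul (flp a (five 0)) (flp c (five 3))),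
      eMul (flp b (five 1)) (eMul (flp a (five 0)) (flp d (five 4)))] g = flp ε (imK g) := by
  decide +kernel

theorem conj_five : ∀ v : V, ∀ i : Fin 5, ∃ s : Bool, eMul (eMul v (five i)) (eInv v) = flp s (five i) := by
  decide +kernel

/-- A set of two or three points is stabilised by at most twelve permutations. -/
theorem card_stab_le : ∀ O : Finset (Fin 5), O.card = 2 ∨ O.card = 3 →
    (Finset.univ.filter fun σ : Equiv.Perm (Fin 5) => ∀ x ∈ O, σ x ∈ O).card ≤ 12 := by
  decide +kernel

theorem card_fix : ∀ m : Fin 5,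
    (Finset.univ.filter fun σ : Equiv.Perm (Fin 5) => σ m = m).card = 24 := by
  decide +kernel

/-- A subgroup of order twenty-four of the permutations of five points is a point stabiliser. -/
theorem exists_fixed (K : Subgroup (Equiv.Perm (Fin 5))) (hK : Nat.card K = 24) :
    ∃ m : Fin 5, ∀ σ : Equiv.Perm (Fin 5), σ ∈ K ↔ σ m = m := by
  classical
  have hfix : ∃ m : Fin 5, ∀ σ ∈ K, σ m = m := by
    let O : Finset (Fin 5) := Finset.univ.filter fun x => ∃ σ ∈ K, σ 0 = x
    have hOmem : ∀ x, x ∈ O ↔ ∃ σ ∈ K, σ 0 = x := fun x => by simp [O]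
    have hinv : ∀ σ ∈ K, ∀ x ∈ O, σ x ∈ O := by
      intro σ hσ x hx
      obtain ⟨τ, hτ, rfl⟩ := (hOmem x).1 hx
      exact (hOmem _).2 ⟨σ * τ, mul_mem hσ hτ, rfl⟩
    have horb : Nat.card (MulAction.orbit K (0 : Fin 5)) = O.card := by
      rw [← Nat.card_eq_finsetCard O]
      refine Nat.card_congr (Equiv.subtypeEquivRight fun x => ?_)
      rw [hOmem, MulAction.mem_orbit_iff]
      constructor
      · rintro ⟨⟨σ, hσ⟩, e⟩
        exact ⟨σ, hσ, e⟩
      · rintro ⟨σ, hσ, e⟩
        exact ⟨⟨σ, hσ⟩, e⟩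
    have hdvd : O.card ∣ 24 := by
      rw [← horb, ← hK]
      exact ⟨Nat.card (MulAction.stabilizer K (0 : Fin 5)), by
        rw [Subgroup.card_eq_card_quotient_mul_card_subgroup (MulAction.stabilizer K (0 : Fin 5)),
          Nat.card_congr (MulAction.orbitEquivQuotientStabilizer K (0 : Fin 5))]⟩
    have h0 : (0 : Fin 5) ∈ O := (hOmem 0).2 ⟨1, one_mem _, rfl⟩
    have hle : O.card ≤ 5 := (Finset.card_le_univ O).trans_eq (Fintype.card_fin 5)
    have hpos : 0 < O.card := Finset.card_pos.2 ⟨0, h0⟩
    have hsmall : O.card ≠ 2 ∧ O.card ≠ 3 := by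
      refine not_or.1 fun h23 => ?_
      have h := card_stab_le O h23
      have hle' : Nat.card K ≤
          Nat.card {σ : Equiv.Perm (Fin 5) // σ ∈ Finset.univ.filter
            fun σ : Equiv.Perm (Fin 5) => ∀ x ∈ O, σ x ∈ O} :=
        Nat.card_le_card_of_injective
          (fun σ : K => ⟨σ.1, Finset.mem_filter.2 ⟨Finset.mem_univ _, fun x hx => hinv _ σ.2 x hx⟩⟩)
          fun a b e => Subtype.ext (congrArg Subtype.val e :)
      rw [Nat.card_eq_finsetCard] at hle'
      omega
    rcases (show O.card = 1 ∨ O.card = 4 ∨ O.card = 5 by omega) with h | h | h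
    · refine ⟨0, fun σ hσ => ?_⟩
      obtain ⟨a, ha⟩ := Finset.card_eq_one.1 h
      have h1 := hinv σ hσ 0 h0
      rw [ha, Finset.mem_singleton] at h1 h0
      rw [h1, ← h0]
    · obtain ⟨m, hm⟩ : ∃ m, Oᶜ = {m} := Finset.card_eq_one.1 (by rw [Finset.card_compl, h]; rfl)
      refine ⟨m, fun σ hσ => ?_⟩
      have hmO : m ∉ O := by
        have : m ∈ Oᶜ := by rw [hm]; exact Finset.mem_singleton_self m
        exact Finset.mem_compl.1 this
      have h1 : σ m ∉ O := fun h' => hmO (by
        have := hinv σ⁻¹ (inv_mem hσ) _ h'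
        simpa using this)
      have h2 : σ m ∈ Oᶜ := Finset.mem_compl.2 h1
      rwa [hm, Finset.mem_singleton] at h2
    · rw [h] at hdvd
      omega
  obtain ⟨m, hm⟩ := hfix
  refine ⟨m, fun σ => ⟨hm σ, fun hσ => ?_⟩⟩
  set S := Finset.univ.filter fun σ : Equiv.Perm (Fin 5) => σ m = m with hS
  have hsub : (Finset.univ.filter fun σ => σ ∈ K) ⊆ S := fun τ hτ =>
    Finset.mem_filter.2 ⟨Finset.mem_univ _, hm τ (Finset.mem_filter.1 hτ).2⟩
  have hc : (Finset.univ.filter fun σ => σ ∈ K).card = 24 := by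
    rw [← hK, Nat.card_eq_fintype_card, Fintype.card_subtype]
  have heq := Finset.eq_of_subset_of_card_le hsub (by rw [hc, hS, card_fix])
  have : σ ∈ S := Finset.mem_filter.2 ⟨Finset.mem_univ _, hσ⟩
  rw [← heq] at this
  exact (Finset.mem_filter.1 this).2

variable {H : Type u} [Group H] [Finite H]

/-- The hypotheses on the extraspecial group, on elements. -/
structure EData (z : H) (E : Subgroup H) : Prop where
  zz : z * z = 1
  zne : z ≠ 1
  zE : z ∈ E
  zc : ∀ g : H, g * z = z * g
  card : Nat.card E = 32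
  sq : ∀ x ∈ E, x * x = 1 ∨ x * x = z
  comm : ∀ x ∈ E, ∀ y ∈ E, y * x = x * y ∨ y * x = x * y * z
  cen : ∀ x ∈ E, (∀ y ∈ E, x * y = y * x) → x = 1 ∨ x = z
  minus : ∀ u ∈ E, ∀ v ∈ E, u * u = 1 → v * v = 1 → u * v = v * u →
    u ≠ 1 → u ≠ z → v ≠ 1 → v ≠ z → v = u ∨ v = u * z
  norm : ∀ g : H, ∀ x ∈ E, g * x * g⁻¹ ∈ E
  cent : ∀ g : H, (∀ x ∈ E, g * x = x * g) → g ∈ E

theorem edata (z : H) (hzz : z * z = 1) (hz1 : z ≠ 1) (hzc : ∀ g : H, g * z = z * g)
    (E : Subgroup H) [E.Normal] (hE : Cfsg.IsExtraspecial 2 E) (h32 : Nat.card E = 32)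
    (hminus : ∀ A : Subgroup E, Cfsg.IsElementaryAbelian 2 A → Nat.card A ≠ 8)
    (hCE : Subgroup.centralizer (E : Set H) ≤ E) : EData z E := by
  have hcent : ∀ g : H, (∀ x ∈ E, g * x = x * g) → g ∈ E := fun g h =>
    hCE (Subgroup.mem_centralizer_iff.2 fun x hx => (h x hx).symm)
  have hzE : z ∈ E := hcent z fun x _ => (hzc x).symm
  have hz' : (⟨z, hzE⟩ : E) ∈ Subgroup.center E :=
    Subgroup.mem_center_iff.2 fun x => Subtype.ext (hzc x)
  have hcen : ∀ w : E, w ∈ Subgroup.center E → w = 1 ∨ w = ⟨z, hzE⟩ := by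
    intro w hw
    obtain ⟨a, -, hab⟩ := (Nat.card_eq_two_iff' (1 : Subgroup.center E)).1 hE.2
    · by_cases hw1 : w = 1
      · exact Or.inl hw1
      right
      have h1 := hab ⟨w, hw⟩ (fun e => hw1 (congrArg Subtype.val e))
      have h2 := hab ⟨⟨z, hzE⟩, hz'⟩ (fun e => hz1 (congrArg (fun u => (u : E).1) (congrArg Subtype.val e)))
      exact congrArg Subtype.val (h1.trans h2.symm)
  refine ⟨hzz, hz1, hzE, hzc, h32, ?_, ?_, ?_, ?_, ?_, hcent⟩
  · intro x hx
    have h := PGroups.IsExtraspecial.pow_mem_center hE (⟨x, hx⟩ : E)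
    rcases hcen _ h with e | e
    · exact Or.inl (by simpa [pow_two] using congrArg Subtype.val e)
    · exact Or.inr (by simpa [pow_two] using congrArg Subtype.val e)
  · intro x hx y hy
    rcases hcen _ (PGroups.IsExtraspecial.commutator_mem_center hE (⟨y, hy⟩ : E) ⟨x, hx⟩) with e | e
    · left
      have h := congrArg Subtype.val e
      simp only [commutatorElement_def, Subgroup.coe_mul, InvMemClass.coe_inv, OneMemClass.coe_one] at h
      calc y * x = y * x * y⁻¹ * x⁻¹ * (x * y) := by group
        _ = x * y := by rw [h, one_mul]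
    · right
      have h := congrArg Subtype.val e
      simp only [commutatorElement_def, Subgroup.coe_mul, InvMemClass.coe_inv] at h
      calc y * x = y * x * y⁻¹ * x⁻¹ * (x * y) := by group
        _ = x * y * z := by rw [h, hzc]
  · intro x hx h
    rcases hcen ⟨x, hx⟩ (Subgroup.mem_center_iff.2 fun y => Subtype.ext (h y y.2).symm) with e | e
    · exact Or.inl (congrArg Subtype.val e)
    · exact Or.inr (congrArg Subtype.val e)
  · intro u hu v hv huu hvv huv hu1 huz hv1 hvz
    by_contra hne
    rw [not_or] at hne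
    let f : Bool × Bool × Bool → E := fun w =>
      ⟨(bif w.1 then u else 1) * ((bif w.2.1 then v else 1) * (bif w.2.2 then z else 1)), by
        obtain ⟨a, b, c⟩ := w
        cases a <;> cases b <;> cases c <;> simp [mul_mem hu hv, mul_mem hu hzE, mul_mem hv hzE,
          mul_mem hu (mul_mem hv hzE), hu, hv, hzE, one_mem]⟩
    have huu' : ∀ g, u * (u * g) = g := fun g => by rw [← mul_assoc, huu, one_mul]
    have hvv' : ∀ g, v * (v * g) = g := fun g => by rw [← mul_assoc, hvv, one_mul]
    have hzz' : ∀ g, z * (z * g) = g := fun g => by rw [← mul_assoc, hzz, one_mul]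
    have hvu' : ∀ g, v * (u * g) = u * (v * g) := fun g => by rw [← mul_assoc, ← huv, mul_assoc]
    have hzu' : ∀ g, z * (u * g) = u * (z * g) := fun g => by rw [← mul_assoc, ← hzc, mul_assoc]
    have hzv' : ∀ g, z * (v * g) = v * (z * g) := fun g => by rw [← mul_assoc, ← hzc, mul_assoc]
    have hmul : ∀ a b, f a * f b = f (xor a.1 b.1, xor a.2.1 b.2.1, xor a.2.2 b.2.2) := by
      rintro ⟨a, b, c⟩ ⟨a', b', c'⟩
      refine Subtype.ext ?_
      cases a <;> cases b <;> cases c <;> cases a' <;> cases b' <;> cases c' <;>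
        simp [f, mul_assoc, huu, hvv, hzz, huu', hvv', hzz', hvu', hzu', hzv', huv.symm,
          (hzc u).symm, (hzc v).symm]
    have hone : f (false, false, false) = 1 := Subtype.ext (by simp [f])
    let A : Subgroup E :=
      { carrier := Set.range f
        one_mem' := ⟨_, hone⟩
        mul_mem' := by
          rintro _ _ ⟨a, rfl⟩ ⟨b, rfl⟩
          exact ⟨_, (hmul a b).symm⟩
        inv_mem' := by
          rintro _ ⟨a, rfl⟩
          refine ⟨a, ?_⟩
          have h := hmul a a
          simp only [Bool.xor_self, hone] at h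
          exact (inv_eq_of_mul_eq_one_right h).symm }
    have hker : ∀ a, f a = 1 → a = (false, false, false) := by
      rintro ⟨a, b, c⟩ h
      have h' := congrArg Subtype.val h
      cases a <;> cases b <;> cases c <;> simp [f] at h' ⊢
      · exact absurd h' hz1
      · exact absurd h' hv1
      · exact absurd (by simpa [mul_assoc, hzz] using congrArg (· * z) h') hvz
      · exact absurd h' hu1
      · exact absurd (by simpa [mul_assoc, hzz] using congrArg (· * z) h') huz
      · refine hne.1 ?_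
        calc v = u * (u * v) := (huu' v).symm
          _ = u := by rw [h', mul_one]
      · refine hne.2 ?_
        calc v = u * (u * (v * z)) * z := by rw [huu', mul_assoc, hzz, mul_one]
          _ = u * z := by rw [h', mul_one]
    have hinj : Function.Injective f := by
      intro a b h
      have h1 := hker _ ((hmul a b).symm.trans (by
        rw [h]
        have h2 := hmul b b
        simpa only [Bool.xor_self, hone] using h2))
      obtain ⟨a1, a2, a3⟩ := a
      obtain ⟨b1, b2, b3⟩ := b
      revert h1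
      cases a1 <;> cases a2 <;> cases a3 <;> cases b1 <;> cases b2 <;> cases b3 <;> simp
    refine hminus A ⟨⟨⟨?_⟩⟩, ?_⟩ ?_
    · rintro ⟨_, a, rfl⟩ ⟨_, b, rfl⟩
      refine Subtype.ext (show f a * f b = f b * f a from ?_)
      rw [hmul, hmul]
      simp [Bool.xor_comm]
    · rintro _ ⟨a, rfl⟩
      rw [pow_two, hmul]
      simp [hone]
    · show Nat.card (Set.range f) = 8
      rw [Nat.card_range_of_injective hinj]
      simp
  · exact fun g x hx => ‹E.Normal›.conj_mem x hx g

theorem EData.exists_egens {z : H} {E : Subgroup H} (D : EData z E) :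
    ∃ p q c d, EGens z p q c d ∧ p ∈ E ∧ q ∈ E ∧ c ∈ E ∧ d ∈ E := by
  have hzc := D.zc
  have hinv : ∀ x ∈ E, x * x = 1 → x⁻¹ = x := fun x _ h => inv_eq_of_mul_eq_one_right h
  obtain ⟨x, hx, hx'⟩ : ∃ x ∈ E, ¬ (x = 1 ∨ x = z) := by
    by_contra hne
    push Not at hne
    let f : E → Bool := fun x => by classical exact decide ((x : H) = z)
    have hf : Function.Injective f := by
      intro a b h
      refine Subtype.ext ?_
      rcases hne a a.2 with e | e <;> rcases hne b b.2 with e' | e' <;>
        simp [f, e, e', D.zne, Ne.symm D.zne] at h ⊢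
    have := Nat.card_le_card_of_injective f hf
    simp [D.card] at this
  obtain ⟨p, hp, hpp, hp1, hpz⟩ : ∃ p ∈ E, p * p = 1 ∧ p ≠ 1 ∧ p ≠ z := by
    rw [not_or] at hx'
    rcases D.sq x hx with e | e
    · exact ⟨x, hx, e, hx'.1, hx'.2⟩
    by_contra hne
    push Not at hne
    have hall : ∀ y ∈ E, y * x = x * y → y = 1 ∨ y = z ∨ y = x ∨ y = x * z := by
      intro y hy hyx
      rcases D.sq y hy with e' | e'
      · rcases eq_or_ne y 1 with h | h
        · exact Or.inl h
        · exact Or.inr (Or.inl (hne y hy e' h))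
      · have h2 : x * y * (x * y) = 1 := by
          rw [mul_assoc, ← mul_assoc y, hyx, mul_assoc x, e', ← mul_assoc, e, D.zz]
        have hy' : y = x⁻¹ * (x * y) := by group
        have hxi : x⁻¹ = x * z :=
          inv_eq_of_mul_eq_one_right (by rw [← mul_assoc, e, D.zz])
        rcases eq_or_ne (x * y) 1 with h | h
        · right; right; right
          rw [hy', h, mul_one, hxi]
        · right; right; left
          rw [hy', hne _ (mul_mem hx hy) h2 h, hxi, mul_assoc, D.zz, mul_one]
    obtain ⟨w, hw, hxw⟩ : ∃ w ∈ E, x * w ≠ w * x := by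
      by_contra h
      push Not at h
      exact not_or.2 hx' (D.cen x hx h)
    have key : ∀ y ∈ E, ¬ y * x = x * y → w⁻¹ * y * x = x * (w⁻¹ * y) := by
      intro y hy hyx
      have e1 := (D.comm x hx y hy).resolve_left hyx
      have e2 := (D.comm x hx w hw).resolve_left (fun e => hxw e.symm)
      have e3 : w⁻¹ * x = x * w⁻¹ * z := by
        calc w⁻¹ * x = w⁻¹ * (x * w * z) * z * w⁻¹ := by
              rw [mul_assoc w⁻¹ _ z, mul_assoc (x * w) z z, D.zz]; group
          _ = x * (z * w⁻¹) := by rw [← e2]; group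
          _ = x * w⁻¹ * z := by rw [← hzc, mul_assoc]
      calc w⁻¹ * y * x = w⁻¹ * x * y * z := by rw [mul_assoc, e1]; group
        _ = x * w⁻¹ * (z * y) * z := by rw [e3]; group
        _ = x * (w⁻¹ * y) := by rw [← hzc y, mul_assoc _ _ z, mul_assoc y, D.zz]; group
    have hcov : ∀ y ∈ E, ∃ u : Fin 4 × Bool,
        (bif u.2 then w else 1) * ![1, z, x, x * z] u.1 = y := by
      intro y hy
      by_cases hyx : y * x = x * y
      · rcases hall y hy hyx with rfl | rfl | rfl | rfl
        exacts [⟨(0, false), by simp⟩, ⟨(1, false), by simp⟩, ⟨(2, false), by simp⟩,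
          ⟨(3, false), by simp⟩]
      · have hy' : y = w * (w⁻¹ * y) := by group
        rcases hall _ (mul_mem (inv_mem hw) hy) (key y hy hyx) with e' | e' | e' | e' <;> rw [hy', e']
        exacts [⟨(0, true), by simp⟩, ⟨(1, true), by simp⟩, ⟨(2, true), by simp⟩, ⟨(3, true), by simp⟩]
    choose g hg using hcov
    have hle := Nat.card_le_card_of_injective (fun y : E => g y.1 y.2) fun a b h =>
      Subtype.ext (by rw [← hg a.1 a.2, ← hg b.1 b.2, show g a.1 a.2 = g b.1 b.2 from h])
    simp [D.card] at hle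
  obtain ⟨q, hq, hqq, hqp⟩ : ∃ q ∈ E, q * q = 1 ∧ q * p = p * q * z := by
    obtain ⟨w, hw, hpw⟩ : ∃ w ∈ E, p * w ≠ w * p := by
      by_contra h
      push Not at h
      exact not_or.2 ⟨hp1, hpz⟩ (D.cen p hp h)
    have e := (D.comm p hp w hw).resolve_left (fun e => hpw e.symm)
    rcases D.sq w hw with e' | e'
    · exact ⟨w, hw, e', e⟩
    · refine ⟨p * w, mul_mem hp hw, ?_, ?_⟩
      · calc p * w * (p * w) = p * (w * p) * w := by group
          _ = p * p * w * (z * w) := by rw [e]; group
          _ = p * p * (w * w) * z := by rw [← hzc w]; group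
          _ = 1 := by rw [hpp, e', one_mul, D.zz]
      · calc p * w * p = p * (w * p) := by group
          _ = p * (p * w) * z := by rw [e]; group
  have hq1 : q ≠ 1 := fun e => D.zne (by simpa [e, hpp] using hqp.symm)
  have hqz : q ≠ z := fun e => D.zne (by
    rw [e, ← hzc] at hqp
    exact left_eq_mul.1 hqp)
  -- the common centraliser
  have hdec : ∀ y ∈ E, ∃ u ∈ E, (u = 1 ∨ u = p ∨ u = q ∨ u = q * p) ∧
      (u * y) * p = p * (u * y) ∧ (u * y) * q = q * (u * y) := by
    intro y hy
    have hpq : p * q = q * p * z := by rw [hqp, mul_assoc (p * q), D.zz, mul_one]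
    rcases D.comm p hp y hy with e1 | e1 <;> rcases D.comm q hq y hy with e2 | e2
    · exact ⟨1, one_mem _, Or.inl rfl, by simpa using e1, by simpa using e2⟩
    · refine ⟨p, hp, Or.inr (Or.inl rfl), by rw [mul_assoc, e1], ?_⟩
      calc p * y * q = p * (y * q) := by group
        _ = p * q * y * z := by rw [e2]; group
        _ = q * p * (z * y) * z := by rw [hpq]; group
        _ = q * (p * y) := by rw [← hzc y, mul_assoc _ _ z, mul_assoc y, D.zz]; group
    · refine ⟨q, hq, Or.inr (Or.inr (Or.inl rfl)), ?_, by rw [mul_assoc, e2]⟩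
      calc q * y * p = q * (y * p) := by group
        _ = q * p * y * z := by rw [e1]; group
        _ = p * q * (z * y) * z := by rw [hqp]; group
        _ = p * (q * y) := by rw [← hzc y, mul_assoc _ _ z, mul_assoc y, D.zz]; group
    · refine ⟨q * p, mul_mem hq hp, Or.inr (Or.inr (Or.inr rfl)), ?_, ?_⟩
      · calc q * p * y * p = q * p * (y * p) := by group
          _ = q * p * p * y * z := by rw [e1]; group
          _ = p * q * (z * p) * y * z := by rw [hqp]; group
          _ = p * q * p * (z * y) * z := by rw [← hzc p]; group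
          _ = p * (q * p * y) := by rw [← hzc y, mul_assoc _ _ z, mul_assoc y, D.zz]; group
      · calc q * p * y * q = q * p * (y * q) := by group
          _ = q * (p * q) * y * z := by rw [e2]; group
          _ = q * (q * p) * (z * y) * z := by rw [hpq]; group
          _ = q * (q * p * y) := by rw [← hzc y, mul_assoc _ _ z, mul_assoc y, D.zz]; group
  have hsqz : ∀ y ∈ E, y * p = p * y → y * q = q * y → y ≠ 1 → y ≠ z → y * y = z := by
    intro y hy h1 h2 h3 h4
    refine (D.sq y hy).resolve_left fun e => ?_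
    have hne : ¬ (p * q = q * p) := fun e' => D.zne (left_eq_mul.1 (e'.trans hqp))
    rcases D.minus p hp y hy hpp e h1.symm hp1 hpz h3 h4 with e' | e' <;> rw [e'] at h2
    · exact hne h2
    · refine hne (mul_right_cancel (b := z) ?_)
      rw [mul_assoc p q z, hzc q, ← mul_assoc, h2, mul_assoc]
  obtain ⟨c, hc, hcp, hcq, hc1, hcz⟩ : ∃ c ∈ E, c * p = p * c ∧ c * q = q * c ∧ c ≠ 1 ∧ c ≠ z := by
    by_contra hne
    push Not at hne
    have hcov : ∀ y ∈ E, ∃ u : Fin 4 × Bool,
        (![1, p⁻¹, q⁻¹, (q * p)⁻¹] u.1) * (bif u.2 then z else 1) = y := by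
      intro y hy
      obtain ⟨u, huE, hu, h1, h2⟩ := hdec y hy
      have hy' : y = u⁻¹ * (u * y) := by group
      have hcase : u * y = 1 ∨ u * y = z := by
        rcases eq_or_ne (u * y) 1 with h | h
        · exact Or.inl h
        · exact Or.inr (hne _ (mul_mem huE hy) h1 h2 h)
      rcases hu with rfl | rfl | rfl | rfl <;> rcases hcase with e | e <;> rw [hy', e]
      exacts [⟨(0, false), by simp⟩, ⟨(0, true), by simp⟩, ⟨(1, false), by simp⟩, ⟨(1, true), by simp⟩,
        ⟨(2, false), by simp⟩, ⟨(2, true), by simp⟩, ⟨(3, false), by simp⟩, ⟨(3, true), by simp⟩]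
    choose g hg using hcov
    have hle := Nat.card_le_card_of_injective (fun y : E => g y.1 y.2) fun a b h =>
      Subtype.ext (by rw [← hg a.1 a.2, ← hg b.1 b.2, show g a.1 a.2 = g b.1 b.2 from h])
    simp [D.card] at hle
  obtain ⟨y, hy, hcy⟩ : ∃ y ∈ E, c * y ≠ y * c := by
    by_contra h
    push Not at h
    exact not_or.2 ⟨hc1, hcz⟩ (D.cen c hc h)
  obtain ⟨u, huE, hu, h1, h2⟩ := hdec y hy
  have hdc : ¬ c * (u * y) = u * y * c := by
    intro e
    have hcu : c * u = u * c := by
      rcases hu with rfl | rfl | rfl | rfl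
      exacts [by simp, hcp, hcq, by rw [← mul_assoc, hcq, mul_assoc, hcp, ← mul_assoc]]
    refine hcy (mul_left_cancel (a := u) ?_)
    rw [← mul_assoc, ← hcu, mul_assoc, e, mul_assoc]
  have hd1 : u * y ≠ 1 := fun e => hdc (by rw [e]; simp)
  have hdz : u * y ≠ z := fun e => hdc (by rw [e, hzc])
  exact ⟨p, q, c, u * y, ⟨D.zz, D.zne, hpp, hqq, hsqz c hc hcp hcq hc1 hcz,
    hsqz _ (mul_mem huE hy) h1 h2 hd1 hdz, hqp, hcp, hcq, h1, h2,
    (D.comm c hc _ (mul_mem huE hy)).resolve_left (fun e => hdc e.symm),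
    (hzc p).symm, (hzc q).symm, (hzc c).symm, (hzc _).symm⟩, hp, hq, hc, mul_mem huE hy⟩

end CfsgLib.InvChar.AutLinear.Norm
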