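import Cfsg.Agent.Lib.InvChar.AutLinear.Table
import Cfsg.Prelude.Def_CaseTheorems

/-!
Groups with an involution whose centraliser has one of the four tables, and the data passed between
the parts of the proof.
-/

set_option autoImplicit false
set_option linter.unusedSectionVars false
set_option maxRecDepth 100000

namespace CfsgLib.InvChar.AutLinear

theorem right_one_check : ([0, 1, 2, 3] : List Tw).all (fun t =>
    all1 fun i => (mul t i (fin 0)).val == i.val) = true := by decide +kernel

theorem inv_check : ([0, 1, 2, 3] : List Tw).all (fun t =>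
    all1 fun i => (mul t i (inv t i)).val == 0 && com t i kz) = true := by decide +kernel

theorem lab_check : (all1 fun i =>
    ((lab i == 0) == ((i.val == 0) || !((mul 0 i i).val == 0))) && (lab i ≤ 6 : Bool)) = true := by
  decide +kernel

universe u

/-- A parametrisation of the centraliser of `z` by the table of type `t`. -/
structure Ctr {G : Type u} [Group G] (t : Tw) (z : G) where
  φ : I → G
  inj : Function.Injective φ
  map_mul : ∀ i j, φ (mul t i j) = φ i * φ j
  z_eq : φ kz = z
  surj : ∀ g, g * z = z * g → ∃ i, φ i = g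

namespace Ctr

variable {G : Type u} [Group G] [Finite G] {t : Tw} {z : G} (X : Ctr t z)
include X

theorem mem_list (t : Tw) : t ∈ ([0, 1, 2, 3] : List Tw) := by revert t; decide

theorem map_one : X.φ (fin 0) = 1 := by
  have h := all1_spec (List.all_eq_true.1 right_one_check t (X.mem_list t)) (fin 0)
  rw [beq_iff_eq, ← Fin.ext_iff] at h
  have h' := X.map_mul (fin 0) (fin 0)
  rw [h] at h'
  exact left_eq_mul.1 h'

theorem map_inv (i : I) : X.φ (inv t i) = (X.φ i)⁻¹ := by
  have h := all1_spec (List.all_eq_true.1 inv_check t (X.mem_list t)) i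
  simp only [Bool.and_eq_true, beq_iff_eq] at h
  refine (inv_eq_of_mul_eq_one_right ?_).symm
  rw [← X.map_mul, show mul t i (inv t i) = fin 0 from Fin.ext h.1, X.map_one]

theorem map_cj (g i : I) : X.φ (cj t g i) = X.φ g * X.φ i * (X.φ g)⁻¹ := by
  rw [cj, X.map_mul, X.map_mul, X.map_inv]

theorem com_iff (i j : I) : com t i j = true ↔ X.φ i * X.φ j = X.φ j * X.φ i := by
  rw [com, beq_iff_eq, ← Fin.ext_iff, ← X.map_mul, ← X.map_mul, X.inj.eq_iff]

theorem comm_z (i : I) : X.φ i * z = z * X.φ i := by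
  have h := all1_spec (List.all_eq_true.1 inv_check t (X.mem_list t)) i
  simp only [Bool.and_eq_true] at h
  have h2 := (X.com_iff i kz).1 h.2
  rwa [X.z_eq] at h2

theorem mem_C (g : G) : g ∈ Subgroup.centralizer ({z} : Set G) ↔ ∃ i, X.φ i = g :=
  ⟨fun h => X.surj g (Subgroup.mem_centralizer_singleton_iff.1 h),
    fun ⟨i, e⟩ => e ▸ Subgroup.mem_centralizer_singleton_iff.2 (X.comm_z i)⟩

/-- The subgroup of a closed set of indices. -/
def sub (p : I → Bool) (h0 : p (fin 0) = true)
    (hm : ∀ i j, p i = true → p j = true → p (mul t i j) = true) : Subgroup G where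
  carrier := {g | ∃ i, p i = true ∧ X.φ i = g}
  one_mem' := ⟨fin 0, h0, X.map_one⟩
  mul_mem' := by
    rintro _ _ ⟨i, hi, rfl⟩ ⟨j, hj, rfl⟩
    exact ⟨mul t i j, hm i j hi hj, X.map_mul i j⟩
  inv_mem' := by
    rintro _ ⟨i, hi, rfl⟩
    have hpow : ∀ n : ℕ, ∃ j, p j = true ∧ X.φ j = X.φ i ^ n := by
      intro n
      induction n with
      | zero => exact ⟨fin 0, h0, by rw [pow_zero, X.map_one]⟩
      | succ n ih =>
        obtain ⟨j, hj, e⟩ := ih
        exact ⟨mul t j i, hm j i hj hi, by rw [X.map_mul, e, pow_succ]⟩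
    obtain ⟨j, hj, e⟩ := hpow (orderOf (X.φ i) - 1)
    refine ⟨j, hj, ?_⟩
    rw [e]
    refine (inv_eq_of_mul_eq_one_right ?_).symm
    rw [← pow_succ', Nat.sub_add_cancel (orderOf_pos _), pow_orderOf_eq_one]

theorem card_image (p : I → Bool) (S : Subgroup G)
    (hS : ∀ g, g ∈ S ↔ ∃ i, p i = true ∧ X.φ i = g) : Nat.card S = cnt p := by
  rw [cnt_eq]
  refine (Nat.card_eq_of_bijective (fun i : {i : I // p i = true} =>
    (⟨X.φ i, (hS _).2 ⟨i, i.2, rfl⟩⟩ : S)) ⟨?_, ?_⟩).symm
  · intro a b e
    exact Subtype.ext (X.inj (congrArg Subtype.val e))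
  · rintro ⟨g, hg⟩
    obtain ⟨i, hi, rfl⟩ := (hS g).1 hg
    exact ⟨⟨i, hi⟩, rfl⟩

theorem card_C : Nat.card (Subgroup.centralizer ({z} : Set G)) = 768 := by
  have h := X.card_image (fun _ => true) _ (fun g => (X.mem_C g).trans (by simp))
  rw [h]
  decide +kernel

end Ctr

/-- `z` is conjugate to another element commuting with it. -/
def NotIsolated {G : Type u} [Group G] (z : G) : Prop :=
  ∃ g : G, g * z * g⁻¹ ≠ z ∧ g * z * g⁻¹ * z = z * (g * z * g⁻¹)

/-- The normal subgroup of index four meeting the centraliser in its derived group. -/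
structure Quarter {G : Type u} [Group G] [Finite G] {z : G} (X : Ctr 0 z) where
  L : Subgroup G
  normal : L.Normal
  index : L.index = 4
  mem_iff : ∀ i, X.φ i ∈ L ↔ inD i = true
  odd_core : Cfsg.oddCore L = ⊥
  sylow : ∃ S : Sylow 2 L, ∀ x : L, x ∈ (S : Subgroup L) ↔ ∃ i, inP i = true ∧ X.φ i = x

end CfsgLib.InvChar.AutLinear
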