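import Cfsg.Agent.Lib.InvChar.AutLinear.Coords
import Cfsg.Agent.Lib.InvChar.AutLinear.Setting

/-!
The generators and relations give a parametrisation.
-/

set_option autoImplicit false
set_option linter.unusedSectionVars false
set_option linter.unusedSimpArgs false
set_option maxRecDepth 100000

namespace CfsgLib.InvChar.AutLinear.Norm

universe u

variable {G : Type u} [Group G]

/-- Four generators of the extraspecial group. -/
structure EGens (z p q c d : G) : Prop where
  zz : z * z = 1
  zne : z ≠ 1
  pp : p * p = 1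
  qq : q * q = 1
  cc : c * c = z
  dd : d * d = z
  qp : q * p = p * q * z
  cp : c * p = p * c
  cq : c * q = q * c
  dp : d * p = p * d
  dq : d * q = q * d
  dc : d * c = c * d * z
  zp : z * p = p * z
  zq : z * q = q * z
  zc : z * c = c * z
  zd : z * d = d * z

/-- The element of given exponents. -/
def qv (z p q c d : G) : V → G
  | (i, j, k, l, m) => (bif i then p else 1) * ((bif j then q else 1) * ((bif k then c else 1) *
      ((bif l then d else 1) * (bif m then z else 1))))

/-- A generator, or `z`. -/
def egen (z p q c d : G) : Fin 5 → G := ![p, q, c, d, z]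

section

variable {z p q c d : G} (F : EGens z p q c d)
include F

local notation "Q" => qv z p q c d

theorem qv_v0 : Q v0 = 1 := by simp [qv, v0]

theorem qv_vz : Q vz = z := by simp [qv, vz]

theorem qv_vgen (g : Fin 4) : Q (vgen g) = ![p, q, c, d] g := by
  fin_cases g <;> simp [qv, vgen]

theorem assoc_rels (g : G) : z * (z * g) = g ∧ p * (p * g) = g ∧ q * (q * g) = g ∧
    c * (c * g) = z * g ∧ d * (d * g) = z * g ∧ q * (p * g) = p * (q * (z * g)) ∧
    c * (p * g) = p * (c * g) ∧ c * (q * g) = q * (c * g) ∧ d * (p * g) = p * (d * g) ∧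
    d * (q * g) = q * (d * g) ∧ d * (c * g) = c * (d * (z * g)) ∧ z * (p * g) = p * (z * g) ∧
    z * (q * g) = q * (z * g) ∧ z * (c * g) = c * (z * g) ∧ z * (d * g) = d * (z * g) := by
  simp only [← mul_assoc]
  simp [F.zz, F.pp, F.qq, F.cc, F.dd, F.qp, F.cp, F.cq, F.dp, F.dq, F.dc, F.zp, F.zq, F.zc, F.zd]

theorem qv_eg (g : Fin 5) (v : V) : egen z p q c d g * Q v = Q (eg g v) := by
  have R := assoc_rels F
  obtain ⟨i, j, k, l, m⟩ := v
  fin_cases g <;> cases i <;> cases j <;> cases k <;> cases l <;> cases m <;>
    simp [egen, eg, qv, (R _).1, (R _).2.1, (R _).2.2.1, (R _).2.2.2.1, (R _).2.2.2.2.1,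
      (R _).2.2.2.2.2.1, (R _).2.2.2.2.2.2.1, (R _).2.2.2.2.2.2.2.1, (R _).2.2.2.2.2.2.2.2.1,
      (R _).2.2.2.2.2.2.2.2.2.1, (R _).2.2.2.2.2.2.2.2.2.2.1, (R _).2.2.2.2.2.2.2.2.2.2.2.1,
      (R _).2.2.2.2.2.2.2.2.2.2.2.2.1, (R _).2.2.2.2.2.2.2.2.2.2.2.2.2.1,
      (R _).2.2.2.2.2.2.2.2.2.2.2.2.2.2, F.zz, F.pp, F.qq, F.cc, F.dd, F.qp, F.cp, F.cq, F.dp,
      F.dq, F.dc, F.zp, F.zq, F.zc, F.zd, mul_assoc]

theorem qv_mul (a b : V) : Q a * Q b = Q (eMul a b) := by
  have h : ∀ (e : Bool) (g : Fin 5) (v : V),
      (bif e then egen z p q c d g else 1) * Q v = Q (bif e then eg g v else v) := by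
    intro e g v
    cases e
    · simp
    · simpa using qv_eg F g v
  obtain ⟨i, j, k, l, m⟩ := a
  show (bif i then egen z p q c d 0 else 1) * ((bif j then egen z p q c d 1 else 1) *
    ((bif k then egen z p q c d 2 else 1) * ((bif l then egen z p q c d 3 else 1) *
    (bif m then egen z p q c d 4 else 1)))) * Q b = _
  rw [mul_assoc, mul_assoc, mul_assoc, mul_assoc, h, h, h, h, h]
  rfl

theorem qv_inv (a : V) : Q (eInv a) = (Q a)⁻¹ := by
  refine (inv_eq_of_mul_eq_one_right ?_).symm
  rw [qv_mul F, (eMul_v0 a).2.2.1, qv_v0 F]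

theorem qv_flp (s : Bool) (v : V) : Q (flp s v) = Q v * bif s then z else 1 := by
  cases s
  · simp [(flp_eq v).1]
  · rw [(flp_eq v).2, ← qv_mul F, qv_vz F]; rfl

theorem qv_eq_one {v : V} (h : Q v = 1) : v = v0 := by
  rcases sep v with e | e | ⟨g, e⟩
  · exact e
  · rw [e, qv_vz F] at h
    exact absurd h F.zne
  · exfalso
    have h2 := congrArg (qv z p q c d) e
    rw [qv_flp F, ← qv_mul F, ← qv_mul F, h, mul_one, one_mul] at h2
    exact F.zne (left_eq_mul.1 h2)

theorem qv_injective : Function.Injective (qv z p q c d) := by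
  intro a b h
  refine cancel a b (qv_eq_one F ?_)
  rw [← qv_mul F, qv_inv F, h, inv_mul_cancel]

theorem central_eq {v : V} (h : ∀ g : Fin 4, Q v * Q (vgen g) = Q (vgen g) * Q v) :
    Q v = 1 ∨ Q v = z := by
  rcases sep v with e | e | ⟨g, e⟩
  · exact Or.inl (by rw [e, qv_v0 F])
  · exact Or.inr (by rw [e, qv_vz F])
  · exfalso
    have h2 := congrArg (qv z p q c d) e
    rw [qv_flp F, ← qv_mul F, ← qv_mul F, ← h g] at h2
    exact F.zne (left_eq_mul.1 h2)

/-- An element that moves the generators by given exponents moves every element so. -/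
theorem move_ext {x : G} {T : Fin 4 → V} (hT : ∀ g, x * Q (vgen g) = Q (T g) * x)
    (hz : x * z = z * x) (v : V) : x * Q v = Q (ext T v) * x := by
  obtain ⟨i, j, k, l, m⟩ := v
  have hb : ∀ (e : Bool) (g : Fin 4),
      x * (bif e then ![p, q, c, d] g else 1) = Q (bif e then T g else v0) * x := by
    intro e g
    cases e
    · simp [qv_v0 F]
    · simpa [qv_vgen F] using hT g
  have hm : x * (bif m then z else 1) = Q (bif m then vz else v0) * x := by
    cases m
    · simp [qv_v0 F]
    · simp [qv_vz F, hz]
  show x * ((bif i then ![p, q, c, d] 0 else 1) * ((bif j then ![p, q, c, d] 1 else 1) *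
    ((bif k then ![p, q, c, d] 2 else 1) * ((bif l then ![p, q, c, d] 3 else 1) *
      (bif m then z else 1))))) = _
  rw [ext, ← qv_mul F, ← qv_mul F, ← qv_mul F, ← qv_mul F, ← mul_assoc, hb, mul_assoc, ← mul_assoc x,
    hb, mul_assoc (Q _) x, ← mul_assoc x, hb, mul_assoc (Q _) x, ← mul_assoc x, hb,
    mul_assoc (Q _) x, hm]
  simp only [mul_assoc]

end

/-- The product of a word of the quotient. -/
def wv (h k : G) (w : List Bool) : G := (w.map fun b => bif b then k else h).prod

theorem wv_append (h k : G) (a b : List Bool) : wv h k (a ++ b) = wv h k a * wv h k b := by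
  simp [wv]

theorem wv_cons (h k : G) (g : Bool) (w : List Bool) :
    wv h k (g :: w) = (bif g then k else h) * wv h k w := rfl

theorem tw_mem : ∀ t : Tw, t ∈ ([0, 1, 2, 3] : List Tw) := by decide

/-- The action of the two generators of the quotient. -/
structure HKAct (z p q c d h k : G) : Prop where
  e : EGens z p q c d
  hz : h * z = z * h
  kz : k * z = z * k
  hact : ∀ g, h * qv z p q c d (vgen g) = qv z p q c d (imH g) * h
  kact : ∀ g, k * qv z p q c d (vgen g) = qv z p q c d (imK g) * k

/-- The two generators of the quotient with their relations. -/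
structure HKGens (t : Tw) (z p q c d h k : G) : Prop extends HKAct z p q c d h k where
  rels : ∀ r, wv h k (rel t r).1 = qv z p q c d (rel t r).2

section

variable {z p q c d h k : G} (K : HKAct z p q c d h k)
include K

local notation "Q" => qv z p q c d
local notation "W" => wv h k

theorem move (g : Bool) (v : V) : (bif g then k else h) * Q v = Q (act g v) * bif g then k else h := by
  cases g
  · exact move_ext K.e K.hact K.hz v
  · exact move_ext K.e K.kact K.kz v

theorem moveW (w : List Bool) (v : V) : W w * Q v = Q (actW w v) * W w := by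
  induction w with
  | nil => simp [actW, wv]
  | cons g w ih =>
    show W (g :: w) * _ = Q (act g (actW w v)) * W (g :: w)
    rw [wv_cons, mul_assoc, ih, ← mul_assoc, move K, mul_assoc]

end

section

variable {t : Tw} {z p q c d h k : G} (K : HKGens t z p q c d h k)
include K

local notation "Q" => qv z p q c d
local notation "W" => wv h k

theorem step_eq (s : V × List Bool) (mv : Fin 3 × ℕ × Bool) :
    Q (step t s mv).1 * W (step t s mv).2 = Q s.1 * W s.2 := by
  obtain ⟨r, n, ins⟩ := mv
  obtain ⟨v, w⟩ := s
  have hW := wv_append h k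
  have hr := K.rels r
  have hw : W w = W (w.take n) * W (w.drop n) := by rw [← hW, List.take_append_drop]
  cases ins
  · simp only [step, cond_false]
    cases hl : (w.drop n).take (rel t r).1.length == (rel t r).1
    · rfl
    · simp only [cond_true]
      have hl' := eq_of_beq hl
      have hd : W (w.drop n) = W (rel t r).1 * W ((w.drop n).drop (rel t r).1.length) := by
        conv_lhs => rw [← List.take_append_drop (rel t r).1.length (w.drop n)]
        rw [hl', hW]
      rw [hW, ← qv_mul K.e, hw, hd]
      simp only [hr]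
      rw [← mul_assoc (W _) (Q _), moveW K.toHKAct]
      simp only [mul_assoc]
  · simp only [step, cond_true]
    rw [hW, hW, ← qv_mul K.e, hw]
    have h1 := moveW K.toHKAct (w.take n) (eInv (rel t r).2)
    rw [mul_assoc, ← mul_assoc (Q _) (W _), ← h1, qv_inv K.e, hr]
    simp [mul_assoc]

theorem steps_eq (l : List (Fin 3 × ℕ × Bool)) : ∀ s : V × List Bool,
    Q (l.foldl (step t) s).1 * W (l.foldl (step t) s).2 = Q s.1 * W s.2 := by
  induction l with
  | nil => intro s; rfl
  | cons a l ih => intro s; rw [List.foldl_cons, ih, step_eq K]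

/-- The element of an index. -/
def par (z p q c d h k : G) (i : I) : G :=
  qv z p q c d (decV (i.val % 32)) * wv h k (qB (i.val / 32))

theorem par_one : par z p q c d h k (fin 0) = 1 := by
  simp [par, wv, qB, qWords, fin, decV, qv]

theorem dec_index (v : V) (n : ℕ) : decV ((encV v + 32 * n) % 32) = v ∧ (encV v + 32 * n) / 32 = n := by
  have h := dec_enc v
  constructor
  · rw [show (encV v + 32 * n) % 32 = encV v by omega]
    exact h.1
  · omega

theorem par_step (g : Fin 7) (i : I) :
    par z p q c d h k (lm t g i) = ![p, q, c, d, h, k, z] g * par z p q c d h k i := by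
  have ht := tw_mem t
  have hE : ∀ (g' : Fin 7) (g5 : Fin 5),
      (g', g5) ∈ ([(0, 0), (1, 1), (2, 2), (3, 3), (6, 4)] : List (Fin 7 × Fin 5)) →
      par z p q c d h k (lm t g' i) = egen z p q c d g5 * par z p q c d h k i := by
    intro g' g5 hg
    have h1 := all1_spec (List.all_eq_true.1 (List.all_eq_true.1 lm_gen_check t ht) _ hg) i
    rw [beq_iff_eq] at h1
    obtain ⟨e1, e2⟩ := dec_index K (eg g5 (decV (i.val % 32))) (i.val / 32)
    rw [par, par, h1, e1, e2, ← mul_assoc, qv_eg K.e]
  have hQ : ∀ b : Bool, par z p q c d h k (lm t (bif b then 5 else 4) i) =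
      (bif b then k else h) * par z p q c d h k i := by
    intro b
    have hb : b ∈ ([false, true] : List Bool) := by cases b <;> simp
    have h1 := all1_spec (List.all_eq_true.1 (List.all_eq_true.1 lm_hk_check t ht) _ hb) i
    have hn : i.val / 32 < 24 := by have := i.2; omega
    have h2 := List.all_eq_true.1 (List.all_eq_true.1 (List.all_eq_true.1 cert_check t ht) _ hb)
      (i.val / 32) (List.mem_range.2 hn)
    rw [beq_iff_eq] at h1 h2
    set x := (lm t (bif b then 5 else 4) (fin (32 * (i.val / 32)))).val with hx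
    obtain ⟨e1, e2⟩ := dec_index K (eMul (act b (decV (i.val % 32))) (decV (x % 32))) (x / 32)
    have h3 := steps_eq K (cert.getD ((bif b then 24 else 0) + i.val / 32) []) (v0, b :: qB (i.val / 32))
    rw [h2] at h3
    simp only [qv_v0 K.e, one_mul, wv_cons] at h3
    rw [par, par, h1, e1, e2, ← qv_mul K.e, mul_assoc, h3, ← mul_assoc, ← move K.toHKAct, mul_assoc]
  fin_cases g
  exacts [hE 0 0 (by simp), hE 1 1 (by simp), hE 2 2 (by simp), hE 3 3 (by simp), hQ false, hQ true,
    hE 6 4 (by simp)]

theorem par_mul (i j : I) :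
    par z p q c d h k (mul t i j) = par z p q c d h k i * par z p q c d h k j := by
  have h1 : ∀ (l : List (Fin 7)) (j : I), par z p q c d h k (l.foldr (fun g x => lm t g x) j) =
      (l.map ![p, q, c, d, h, k, z]).prod * par z p q c d h k j := by
    intro l j
    induction l with
    | nil => simp
    | cons g l ih => rw [List.foldr_cons, par_step K, ih, List.map_cons, List.prod_cons, mul_assoc]
  have ht := tw_mem t
  have h0 := all1_spec (List.all_eq_true.1 right_one_check t ht) i
  rw [beq_iff_eq, ← Fin.ext_iff] at h0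
  have h2 := h1 (word i) (fin 0)
  rw [par_one K, mul_one, show (word i).foldr (fun g x => lm t g x) (fin 0) = i from h0] at h2
  rw [h2]
  exact h1 (word i) j

theorem par_z : par z p q c d h k kz = z := by
  rw [par, show decV (kz.val % 32) = vz by decide, show qB (kz.val / 32) = [] by decide]
  simp [qv_vz K.e, wv]

theorem par_comm (i : I) : par z p q c d h k i * z = z * par z p q c d h k i := by
  have hq : ∀ v : V, Commute (Q v) z := by
    intro v
    have e1 := qv_mul K.e v vz
    have e2 := qv_mul K.e vz v
    have e3 : ∀ v : V, eMul v vz = eMul vz v := by decide +kernel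
    rw [qv_vz K.e] at e1 e2
    exact e1.trans ((congrArg (qv z p q c d) (e3 v)).trans e2.symm)
  refine ((hq _).mul_left (Commute.list_prod_left _ _ ?_)).eq
  intro x hx
  obtain ⟨b, -, rfl⟩ := List.mem_map.1 hx
  cases b
  exacts [K.hz, K.kz]

theorem par_injective : Function.Injective (par z p q c d h k) := by
  intro i j e
  have hi : i.val / 32 < 24 := by have := i.2; omega
  have hj : j.val / 32 < 24 := by have := j.2; omega
  set a := decV (i.val % 32) with ha
  set b := decV (j.val % 32) with hb
  have e0 : W (qB (i.val / 32)) = Q (eMul (eInv a) b) * W (qB (j.val / 32)) := by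
    rw [← qv_mul K.e, qv_inv K.e, mul_assoc]
    exact eq_inv_mul_of_mul_eq e
  set u := eMul (eInv a) b with hu
  have hab : i.val / 32 = j.val / 32 := by
    have h1 := List.all_eq_true.1 (List.all_eq_true.1 actW_sep _ (List.mem_range.2 hi)) _
      (List.mem_range.2 hj)
    rcases Bool.or_eq_true_iff.1 h1 with h1 | h1
    · exact eq_of_beq h1
    exfalso
    obtain ⟨g, -, hg⟩ := List.any_eq_true.1 h1
    simp only [Bool.not_eq_true', beq_eq_false_iff_ne] at hg
    refine hg ?_
    have e1 := moveW K.toHKAct (qB (i.val / 32)) (vgen g)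
    rw [e0, mul_assoc, moveW K.toHKAct, ← mul_assoc, ← mul_assoc, qv_mul K.e, qv_mul K.e] at e1
    have e2 := qv_injective K.e (mul_right_cancel e1)
    have key : ∀ u x y : V, eMul u x = eMul y u → encV x % 16 = encV y % 16 := by decide +kernel
    exact (key _ _ _ e2).symm
  have e3 : Q a = Q b := by
    have := e
    rw [par, par, hab] at this
    exact mul_right_cancel this
  have e4 := congrArg encV (qv_injective K.e e3)
  have key : ∀ n < 32, encV (decV n) = n := by decide +kernel
  rw [key _ (Nat.mod_lt _ (by norm_num)), key _ (Nat.mod_lt _ (by norm_num))] at e4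
  exact Fin.ext (by omega)

end

end CfsgLib.InvChar.AutLinear.Norm
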