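import Cfsg.Agent.Lib.InvChar.AutLinear.NormalFrame

/-!
The action on the five classes of involutions and the generators of the quotient.
-/

set_option autoImplicit false
set_option linter.unusedSectionVars false
set_option maxRecDepth 100000

namespace CfsgLib.InvChar.AutLinear.Norm

open Subgroup

universe u

variable {H : Type u} [Group H] [Finite H]

/-- Generators inside the extraspecial group. -/
structure Fr (z : H) (E : Subgroup H) (p q c d : H) : Prop where
  data : EData z E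
  gens : EGens z p q c d
  mem : ∀ g, qv z p q c d (vgen g) ∈ E

section

variable {z : H} {E : Subgroup H} {p q c d : H} (F : Fr z E p q c d)
include F

local notation "Q" => qv z p q c d

theorem Fr.qv_mem (v : V) : Q v ∈ E := by
  have hm := F.mem
  have h0 := hm 0
  have h1 := hm 1
  have h2 := hm 2
  have h3 := hm 3
  simp only [qv_vgen F.gens] at h0 h1 h2 h3
  obtain ⟨i, j, k, l, m⟩ := v
  refine mul_mem ?_ (mul_mem ?_ (mul_mem ?_ (mul_mem ?_ ?_)))
  · cases i; exacts [one_mem _, h0]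
  · cases j; exacts [one_mem _, h1]
  · cases k; exacts [one_mem _, h2]
  · cases l; exacts [one_mem _, h3]
  · cases m; exacts [one_mem _, F.data.zE]

theorem Fr.exists_qv {x : H} (hx : x ∈ E) : ∃ v, Q v = x := by
  classical
  let f : V → E := fun v => ⟨Q v, F.qv_mem v⟩
  have hf : Function.Injective f := fun a b h => qv_injective F.gens (congrArg Subtype.val h)
  have hb : Function.Bijective f := (Nat.bijective_iff_injective_and_card f).2
    ⟨hf, by rw [F.data.card]; simp⟩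
  obtain ⟨v, hv⟩ := hb.2 ⟨x, hx⟩
  exact ⟨v, congrArg Subtype.val hv⟩

theorem Fr.qv_flp' (s : Bool) (v : V) : Q (flp s v) = Q v * bif s then z else 1 :=
  qv_flp F.gens s v

theorem Fr.image_class (g : H) (i : Fin 5) :
    ∃ j s, g * Q (five i) * g⁻¹ = Q (flp s (five j)) := by
  obtain ⟨v, hv⟩ := F.exists_qv (F.data.norm g _ (F.qv_mem (five i)))
  obtain ⟨h0, h1, h2⟩ := five_ne i
  have hvv : eMul v v = v0 := by
    apply qv_injective F.gens
    rw [← qv_mul F.gens, hv, qv_v0 F.gens]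
    calc g * Q (five i) * g⁻¹ * (g * Q (five i) * g⁻¹) = g * (Q (five i) * Q (five i)) * g⁻¹ := by
          group
      _ = 1 := by rw [qv_mul F.gens, h2, qv_v0 F.gens]; group
  have hv0 : v ≠ v0 := by
    rintro rfl
    rw [qv_v0 F.gens] at hv
    refine h0 (qv_injective F.gens ?_)
    rw [qv_v0 F.gens]
    calc Q (five i) = g⁻¹ * (g * Q (five i) * g⁻¹) * g := by group
      _ = 1 := by rw [← hv]; group
  have hvz : v ≠ vz := by
    rintro rfl
    rw [qv_vz F.gens] at hv
    refine h1 (qv_injective F.gens ?_)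
    rw [qv_vz F.gens]
    calc Q (five i) = g⁻¹ * (g * Q (five i) * g⁻¹) * g := by group
      _ = g⁻¹ * (g * z) := by rw [← hv, F.data.zc g, mul_assoc]
      _ = z := by group
  obtain ⟨j, s, rfl⟩ := five_cover v hvv hv0 hvz
  exact ⟨j, s, hv.symm⟩

/-- The image of a class. -/
noncomputable def Fr.pi (g : H) (i : Fin 5) : Fin 5 := (F.image_class g i).choose

theorem Fr.pi_spec (g : H) (i : Fin 5) :
    ∃ s, g * Q (five i) * g⁻¹ = Q (flp s (five (F.pi g i))) := (F.image_class g i).choose_spec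

theorem Fr.pi_eq {g : H} {i j : Fin 5} {s : Bool}
    (h : g * Q (five i) * g⁻¹ = Q (flp s (five j))) : F.pi g i = j := by
  obtain ⟨t, ht⟩ := F.pi_spec g i
  exact five_uniq _ _ _ _ (qv_injective F.gens (ht.symm.trans h))

theorem Fr.pi_mul (g g' : H) (i : Fin 5) : F.pi (g * g') i = F.pi g (F.pi g' i) := by
  obtain ⟨s, hs⟩ := F.pi_spec g' i
  obtain ⟨t, ht⟩ := F.pi_spec g (F.pi g' i)
  refine F.pi_eq (s := xor s t) ?_
  rw [← flp_mul, F.qv_flp', ← ht]
  calc g * g' * Q (five i) * (g * g')⁻¹ = g * (g' * Q (five i) * g'⁻¹) * g⁻¹ := by group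
    _ = g * Q (five (F.pi g' i)) * g⁻¹ * bif s then z else 1 := by
      rw [hs, F.qv_flp']
      cases s
      · simp
      · simp only [cond_true]
        rw [← mul_assoc, mul_assoc _ z, ← F.data.zc g⁻¹, ← mul_assoc]

theorem Fr.pi_one (i : Fin 5) : F.pi 1 i = i :=
  F.pi_eq (s := false) (by simp [(flp_eq (five i)).1])

/-- The permutation of the five classes. -/
noncomputable def Fr.perm : H →* Equiv.Perm (Fin 5) where
  toFun g := ⟨F.pi g, F.pi g⁻¹, fun i => by rw [← F.pi_mul, inv_mul_cancel, F.pi_one],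
    fun i => by rw [← F.pi_mul, mul_inv_cancel, F.pi_one]⟩
  map_one' := Equiv.ext F.pi_one
  map_mul' g g' := Equiv.ext (F.pi_mul g g')

theorem Fr.perm_apply (g : H) (i : Fin 5) : F.perm g i = F.pi g i := rfl

theorem Fr.eq_of_gens {x : H} (h : ∀ g, x * Q (vgen g) = Q (vgen g) * x) : x = 1 ∨ x = z := by
  have hT : ∀ v : V, ext vgen v = v := by decide +kernel
  have hxE : x ∈ E := F.data.cent x fun y hy => by
    obtain ⟨v, rfl⟩ := F.exists_qv hy
    rw [move_ext F.gens h (F.data.zc x) v, hT]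
  obtain ⟨v, rfl⟩ := F.exists_qv hxE
  exact central_eq F.gens h

/-- Signs on the four generators are given by an element of the extraspecial group. -/
theorem Fr.exists_sign (ε : Fin 4 → Bool) :
    ∃ e ∈ E, ∀ g, e * Q (vgen g) = Q (flp (ε g) (vgen g)) * e := by
  obtain ⟨e, he⟩ := sign_exists (ε 0) (ε 1) (ε 2) (ε 3)
  refine ⟨Q e, F.qv_mem e, fun g => ?_⟩
  rw [qv_mul F.gens, qv_mul F.gens, he g]
  fin_cases g <;> rfl

theorem Fr.mem_of_fixed {g : H} (hg : F.perm g = 1) : g ∈ E := by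
  have hfix : ∀ i, ∃ s, g * Q (five i) * g⁻¹ = Q (flp s (five i)) := fun i => by
    obtain ⟨s, hs⟩ := F.pi_spec g i
    exact ⟨s, by rwa [← F.perm_apply, hg] at hs⟩
  obtain ⟨a, ha⟩ := hfix 0
  obtain ⟨b, hb⟩ := hfix 1
  obtain ⟨c', hc⟩ := hfix 2
  obtain ⟨d', hd⟩ := hfix 3
  have hcj : ∀ x y : H, g * (x * y) * g⁻¹ = g * x * g⁻¹ * (g * y * g⁻¹) := fun x y => by group
  have hgen : ∀ n : Fin 4, ∃ ε, g * Q (vgen n) * g⁻¹ = Q (flp ε (vgen n)) := by
    intro n
    obtain ⟨ε, hε⟩ := five_gen a b c' d' n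
    refine ⟨ε, ?_⟩
    rw [← hε, gen_five n]
    fin_cases n
    · simpa using ha
    · simpa using hb
    · simp only [Fin.reduceFinMk, Matrix.cons_val]
      rw [← qv_mul F.gens, ← qv_mul F.gens, hcj, hcj, ha, hb, hc, qv_mul F.gens, qv_mul F.gens]
    · simp only [Fin.reduceFinMk, Matrix.cons_val]
      rw [← qv_mul F.gens, ← qv_mul F.gens, hcj, hcj, ha, hb, hd, qv_mul F.gens, qv_mul F.gens]
  choose ε hε using hgen
  obtain ⟨e, heE, he⟩ := F.exists_sign ε
  have h1 : ∀ n, e⁻¹ * g * Q (vgen n) = Q (vgen n) * (e⁻¹ * g) := by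
    intro n
    calc e⁻¹ * g * Q (vgen n) = e⁻¹ * (g * Q (vgen n) * g⁻¹) * g := by group
      _ = e⁻¹ * (Q (flp (ε n) (vgen n)) * e) * e⁻¹ * g := by rw [hε]; group
      _ = Q (vgen n) * (e⁻¹ * g) := by rw [← he]; group
  have h2 : e⁻¹ * g ∈ E := by
    rcases F.eq_of_gens h1 with h | h <;> rw [h]
    exacts [one_mem _, F.data.zE]
  simpa using mul_mem heE h2

theorem Fr.ker_eq : F.perm.ker = E := by
  ext g
  rw [MonoidHom.mem_ker]
  refine ⟨F.mem_of_fixed, fun hg => Equiv.ext fun i => ?_⟩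
  obtain ⟨v, rfl⟩ := F.exists_qv hg
  obtain ⟨s, hs⟩ := conj_five v i
  refine F.pi_eq (s := s) ?_
  rw [Equiv.Perm.one_apply, ← hs, ← qv_mul F.gens, ← qv_mul F.gens, qv_inv F.gens]

theorem Fr.card_range (hH : Nat.card H = 768) : Nat.card F.perm.range = 24 := by
  rw [← Nat.card_congr (QuotientGroup.quotientKerEquivRange F.perm).toEquiv,
    ← Subgroup.index_eq_card, F.ker_eq]
  have h := E.card_mul_index
  rw [F.data.card, hH] at h
  omega

end

/-- A second frame, in which the fixed class is the first. -/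
theorem exists_fixed_frame {z : H} {E : Subgroup H} (D : EData z E) (hH : Nat.card H = 768) :
    ∃ p q c d, ∃ F : Fr z E p q c d, ∀ σ : Equiv.Perm (Fin 5), σ ∈ F.perm.range ↔ σ 0 = 0 := by
  obtain ⟨p, q, c, d, G0, hp, hq, hc, hd⟩ := D.exists_egens
  have F0 : Fr z E p q c d := ⟨D, G0, fun g => by
    rw [qv_vgen G0]; fin_cases g <;> simp [hp, hq, hc, hd]⟩
  obtain ⟨m, hm⟩ := exists_fixed F0.perm.range (F0.card_range hH)
  obtain ⟨r0, r1, r2, r3, r4, r5, r6, r7, r8, r9, r10⟩ := newV_rels m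
  let P : Fin 4 → H := fun g => qv z p q c d (newV m g)
  have hR : ∀ a b a' b' : Fin 4, eMul (newV m a) (newV m b) = eMul (newV m a') (newV m b') →
      P a * P b = P a' * P b' := fun a b a' b' h => by
    show qv z p q c d _ * qv z p q c d _ = qv z p q c d _ * qv z p q c d _
    rw [qv_mul G0, qv_mul G0, h]
  have hRz : ∀ a b a' b' : Fin 4,
      eMul (newV m a) (newV m b) = eMul (eMul (newV m a') (newV m b')) vz →
      P a * P b = P a' * P b' * z := fun a b a' b' h => by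
    show qv z p q c d _ * qv z p q c d _ = qv z p q c d _ * qv z p q c d _ * z
    rw [qv_mul G0, qv_mul G0, h, ← qv_mul G0, qv_vz G0]
  have hsq : ∀ (a : Fin 4) (v : V), eMul (newV m a) (newV m a) = v →
      P a * P a = qv z p q c d v := fun a v h => by
    show qv z p q c d _ * qv z p q c d _ = _
    rw [qv_mul G0, h]
  have G1 : EGens z (P 0) (P 1) (P 2) (P 3) := ⟨D.zz, D.zne, (hsq 0 _ r1).trans (qv_v0 G0),
    (hsq 1 _ r2).trans (qv_v0 G0), (hsq 2 _ r3).trans (qv_vz G0), (hsq 3 _ r4).trans (qv_vz G0),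
    hRz 1 0 0 1 r5, hR 2 0 0 2 r6, hR 2 1 1 2 r7, hR 3 0 0 3 r8, hR 3 1 1 3 r9, hRz 3 2 2 3 r10,
    (D.zc _).symm, (D.zc _).symm, (D.zc _).symm, (D.zc _).symm⟩
  have F1 : Fr z E (P 0) (P 1) (P 2) (P 3) := ⟨D, G1, fun g => by
    rw [qv_vgen G1]; fin_cases g <;> exact F0.qv_mem _⟩
  refine ⟨_, _, _, _, F1, ?_⟩
  have h0 : qv z (P 0) (P 1) (P 2) (P 3) (five 0) = qv z p q c d (five m) :=
    (qv_vgen G1 0).trans (congrArg (qv z p q c d) r0)
  have hfix : ∀ g : H, F1.perm g 0 = 0 := by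
    intro g
    obtain ⟨s, hs⟩ := F0.pi_spec g m
    rw [show F0.pi g m = m from (hm (F0.perm g)).1 ⟨g, rfl⟩] at hs
    refine F1.pi_eq (s := s) ?_
    rw [h0, hs, F0.qv_flp', F1.qv_flp', h0]
  obtain ⟨m', hm'⟩ := exists_fixed F1.perm.range (F1.card_range hH)
  have hm0 : m' = 0 := by
    by_contra hne
    classical
    set S := Finset.univ.filter fun σ : Equiv.Perm (Fin 5) => σ m' = m'
    have key : ∀ m' : Fin 5, m' ≠ 0 → ∃ σ : Equiv.Perm (Fin 5), σ m' = m' ∧ σ 0 ≠ 0 := by
      decide +kernel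
    obtain ⟨σ, h1, h2⟩ := key m' hne
    obtain ⟨g, hg⟩ := (hm' σ).2 h1
    exact h2 (hg ▸ hfix g)
  subst hm0
  exact hm'

/-- The generators of the centraliser. -/
theorem exists_hk {z : H} {E : Subgroup H} (D : EData z E) (hH : Nat.card H = 768) :
    ∃ t p q c d h k, HKGens t z p q c d (h : H) k := by
  obtain ⟨p, q, c, d, F, hF⟩ := exists_fixed_frame D hH
  have hact : ∀ (σ : Equiv.Perm (Fin 5)) (im : Fin 4 → V), σ 0 = 0 →
      (∀ a b c d : Bool, ∀ g : Fin 4, ∃ ε : Bool,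
        ![flp a (five (σ 0)), flp b (five (σ 1)),
          eMul (flp b (five (σ 1))) (eMul (flp a (five (σ 0))) (flp c (five (σ 2)))),
          eMul (flp b (five (σ 1))) (eMul (flp a (five (σ 0))) (flp d (five (σ 3))))] g = flp ε (im g)) →
      ∃ h : H, ∀ g, h * qv z p q c d (vgen g) = qv z p q c d (im g) * h := by
    intro σ im h0 hcheck
    obtain ⟨g0, hg0⟩ := (hF σ).2 h0
    have hs : ∀ i, ∃ s, g0 * qv z p q c d (five i) * g0⁻¹ = qv z p q c d (flp s (five (σ i))) :=
      fun i => by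
        obtain ⟨s, hs⟩ := F.pi_spec g0 i
        exact ⟨s, by rwa [← F.perm_apply, hg0] at hs⟩
    obtain ⟨a, ha⟩ := hs 0
    obtain ⟨b, hb⟩ := hs 1
    obtain ⟨c', hc⟩ := hs 2
    obtain ⟨d', hd⟩ := hs 3
    have hcj : ∀ x y : H, g0 * (x * y) * g0⁻¹ = g0 * x * g0⁻¹ * (g0 * y * g0⁻¹) := fun x y => by
      group
    have hgen : ∀ n : Fin 4, ∃ ε,
        g0 * qv z p q c d (vgen n) * g0⁻¹ = qv z p q c d (flp ε (im n)) := by
      intro n
      obtain ⟨ε, hε⟩ := hcheck a b c' d' n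
      refine ⟨ε, ?_⟩
      rw [← hε, gen_five n]
      fin_cases n
      · simpa using ha
      · simpa using hb
      · simp only [Fin.reduceFinMk, Matrix.cons_val]
        rw [← qv_mul F.gens, ← qv_mul F.gens, hcj, hcj, ha, hb, hc, qv_mul F.gens, qv_mul F.gens]
      · simp only [Fin.reduceFinMk, Matrix.cons_val]
        rw [← qv_mul F.gens, ← qv_mul F.gens, hcj, hcj, ha, hb, hd, qv_mul F.gens, qv_mul F.gens]
    choose ε hε using hgen
    obtain ⟨e, -, he⟩ := F.exists_sign ε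
    refine ⟨g0 * e, fun n => ?_⟩
    calc g0 * e * qv z p q c d (vgen n) = g0 * (qv z p q c d (flp (ε n) (vgen n)) * e) := by
          rw [mul_assoc, he]
      _ = g0 * qv z p q c d (vgen n) * g0⁻¹ * g0 * (bif ε n then z else 1) * e := by
          rw [F.qv_flp']; group
      _ = qv z p q c d (im n) * (g0 * e) := by
          rw [hε, F.qv_flp']
          cases ε n
          · simp [mul_assoc]
          · simp only [cond_true]
            rw [mul_assoc (qv z p q c d (im n)) z g0, ← D.zc g0, ← mul_assoc,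
              mul_assoc _ z z, D.zz, mul_one, mul_assoc]
  obtain ⟨h, hh⟩ := hact (Equiv.swap 1 2) imH (by decide) (by
    intro a b c d g
    have e0 : (Equiv.swap (1 : Fin 5) 2) 0 = 0 := by decide
    have e1 : (Equiv.swap (1 : Fin 5) 2) 1 = 2 := by decide
    have e2 : (Equiv.swap (1 : Fin 5) 2) 2 = 1 := by decide
    have e3 : (Equiv.swap (1 : Fin 5) 2) 3 = 3 := by decide
    rw [e0, e1, e2, e3]
    exact imH_five a b c d g)
  obtain ⟨k, hk⟩ := hact (Equiv.swap 2 3 * Equiv.swap 3 4) imK (by decide) (by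
    intro a b c d g
    have e0 : (Equiv.swap (2 : Fin 5) 3 * Equiv.swap 3 4 : Equiv.Perm (Fin 5)) 0 = 0 := by decide
    have e1 : (Equiv.swap (2 : Fin 5) 3 * Equiv.swap 3 4 : Equiv.Perm (Fin 5)) 1 = 1 := by decide
    have e2 : (Equiv.swap (2 : Fin 5) 3 * Equiv.swap 3 4 : Equiv.Perm (Fin 5)) 2 = 3 := by decide
    have e3 : (Equiv.swap (2 : Fin 5) 3 * Equiv.swap 3 4 : Equiv.Perm (Fin 5)) 3 = 4 := by decide
    rw [e0, e1, e2, e3]
    exact imK_five a b c d g)
  have hrel : ∀ k' : H, (∀ g, k' * qv z p q c d (vgen g) = qv z p q c d (imK g) * k') →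
      ∀ r, ∃ b : Bool, wv h k' (rel 0 r).1 = qv z p q c d (flp b (rel 0 r).2) := by
    intro k' hk' r
    have A : HKAct z p q c d h k' := ⟨F.gens, D.zc h, D.zc k', hh, hk'⟩
    have h1 : ∀ g, (qv z p q c d (rel 0 r).2)⁻¹ * wv h k' (rel 0 r).1 * qv z p q c d (vgen g) =
        qv z p q c d (vgen g) * ((qv z p q c d (rel 0 r).2)⁻¹ * wv h k' (rel 0 r).1) := by
      intro g
      rw [mul_assoc _ (wv h k' _), moveW A, rel_act, ← qv_mul F.gens, ← qv_mul F.gens, qv_inv F.gens]
      group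
    rcases F.eq_of_gens h1 with e | e
    · refine ⟨false, ?_⟩
      rw [(flp_eq _).1]
      exact (eq_inv_mul_iff_mul_eq.1 e.symm).symm.trans (mul_one _)
    · refine ⟨true, ?_⟩
      rw [F.qv_flp', cond_true]
      exact (eq_inv_mul_iff_mul_eq.1 e.symm).symm
  obtain ⟨b1, hb1⟩ := hrel k hk 1
  have hex : ∃ k' : H, (∀ g, k' * qv z p q c d (vgen g) = qv z p q c d (imK g) * k') ∧
      wv h k' (rel 0 1).1 = 1 := by
    cases b1
    · exact ⟨k, hk, by rw [hb1]; simp [rel, (flp_eq v0).1, qv_v0 F.gens]⟩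
    · refine ⟨k * z, fun g => ?_, ?_⟩
      · rw [mul_assoc, ← D.zc, ← mul_assoc, hk, mul_assoc]
      · have h3 : k * (k * k) = z := by
          have := hb1
          simpa [wv, rel, F.qv_flp', qv_v0 F.gens] using this
        calc wv h (k * z) (rel 0 1).1 = k * z * (k * z * (k * z)) := by simp [wv, rel]
          _ = k * (k * k) * (z * z) * z := by
            rw [show k * z * (k * z * (k * z)) = k * (z * k) * (z * k) * z by group, ← D.zc k,
              show k * (k * z) * (k * z) * z = k * k * (z * k) * z * z by group, ← D.zc k]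
            group
          _ = 1 := by rw [h3, D.zz, mul_one, D.zz]
  obtain ⟨k', hk', hk3⟩ := hex
  obtain ⟨a, ha⟩ := hrel k' hk' 0
  obtain ⟨b, hb⟩ := hrel k' hk' 2
  refine ⟨(bif a then 1 else 0) + (bif b then 2 else 0), p, q, c, d, h, k',
    ⟨⟨F.gens, D.zc h, D.zc k', hh, hk'⟩, fun r => ?_⟩⟩
  fin_cases r
  · cases a <;> cases b <;>
      exact ha.trans (congrArg (qv z p q c d) (by decide))
  · cases a <;> cases b <;> exact hk3.trans (qv_v0 F.gens).symm
  · cases a <;> cases b <;>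
      exact hb.trans (congrArg (qv z p q c d) (by decide))

end CfsgLib.InvChar.AutLinear.Norm
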