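import Cfsg.Agent.Lib.ClassicalLinear.Card
import Cfsg.Agent.Lib.Geometric.Basic
import Cfsg.Agent.S0813

/-!
# `PGL₃(4)`: order, automorphisms, and the subgroups containing an involution centraliser
-/

set_option autoImplicit false
set_option linter.style.haveILetI false
set_option linter.unusedSectionVars false
set_option linter.unusedSimpArgs false

namespace CfsgLib.InvChar.AutLinear.PGL

open Matrix CfsgLib.Geometric
open scoped MatrixGroups commutatorElement

variable {F : Type*} [Field F] [Fintype F]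

local notation "GL₃" => GL (Fin 3) F
local notation "PGL₃" => GL (Fin 3) F ⧸ Subgroup.center (GL (Fin 3) F)

/-- The transvection matrix `1 + x E₀₂`. -/
def top (x : F) : Matrix (Fin 3) (Fin 3) F := !![1, 0, x; 0, 1, 0; 0, 0, 1]

theorem card_units_four (hF : Fintype.card F = 4) : Nat.card Fˣ = 3 := by
  rw [CfsgLib.ClassicalLinear.card_units, hF]

theorem two_eq_zero (hF : Fintype.card F = 4) : (2 : F) = 0 := by
  have h := FiniteField.cast_card_eq_zero F
  rw [hF] at h
  have h' : (2 : F) * 2 = 0 := by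
    norm_num at h ⊢
    exact h
  exact mul_self_eq_zero.mp h'

theorem card_center (hF : Fintype.card F = 4) : Nat.card (Subgroup.center GL₃) = 3 := by
  rw [CfsgLib.ClassicalLinear.card_center_GL, card_units_four hF]

theorem card_pgl (hF : Fintype.card F = 4) : Nat.card PGL₃ = 60480 := by
  have h := Subgroup.card_eq_card_quotient_mul_card_subgroup (Subgroup.center GL₃)
  rw [card_center hF, CfsgLib.ClassicalLinear.card_GL, hF, Fintype.card_fin, Fin.prod_univ_three] at h
  norm_num at h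
  omega

theorem mk_eq_mk {g h : GL₃} :
    (QuotientGroup.mk g : PGL₃) = QuotientGroup.mk h ↔ ∃ c : Fˣ, (h : Matrix (Fin 3) (Fin 3) F) = (c : F) • g.1 := by
  rw [QuotientGroup.eq, Matrix.GeneralLinearGroup.center_eq_range_scalar]
  constructor
  · rintro ⟨c, hc⟩
    refine ⟨c, ?_⟩
    have h1 : h = g * Matrix.GeneralLinearGroup.scalar (Fin 3) c := by rw [hc, mul_inv_cancel_left]
    rw [h1, Units.val_mul]
    ext i j
    simp [Matrix.mul_diagonal, mul_comm]
  · rintro ⟨c, hc⟩
    refine ⟨c, ?_⟩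
    rw [eq_inv_mul_iff_mul_eq]
    refine Units.ext ?_
    rw [Units.val_mul, hc]
    ext i j
    simp [Matrix.mul_diagonal, mul_comm]

theorem top_entries {g : GL₃} (hg : g.1 * top 1 = top 1 * g.1) :
    g.1 1 0 = 0 ∧ g.1 2 0 = 0 ∧ g.1 2 1 = 0 ∧ g.1 0 0 = g.1 2 2 := by
  have e := fun i j => congrFun (congrFun hg i) j
  refine ⟨?_, ?_, ?_, ?_⟩
  · simpa [top, Matrix.mul_apply, Fin.sum_univ_three] using e 1 2
  · simpa [top, Matrix.mul_apply, Fin.sum_univ_three] using (e 0 0).symm
  · simpa [top, Matrix.mul_apply, Fin.sum_univ_three] using (e 0 1).symm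
  · have := e 0 2
    simp [top, Matrix.mul_apply, Fin.sum_univ_three] at this
    linear_combination this

theorem top_commute {g : GL₃} (h10 : g.1 1 0 = 0) (h20 : g.1 2 0 = 0) (h21 : g.1 2 1 = 0)
    (h00 : g.1 0 0 = g.1 2 2) : g.1 * top 1 = top 1 * g.1 := by
  ext i j
  fin_cases i <;> fin_cases j <;> simp [top, Matrix.mul_apply, Fin.sum_univ_three, h10, h20, h21, h00, add_comm]

/-- An element commuting with a unipotent of non-zero trace modulo scalars commutes with it. -/
theorem commute_of_projective {g T : GL₃} (htr : Matrix.trace T.1 ≠ 0)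
    (h : (QuotientGroup.mk (g * T) : PGL₃) = QuotientGroup.mk (T * g)) : g.1 * T.1 = T.1 * g.1 := by
  obtain ⟨c, hc⟩ := mk_eq_mk.mp h
  rw [Units.val_mul, Units.val_mul] at hc
  have h1 : (g⁻¹ : GL₃).1 * (T.1 * g.1) = (c : F) • T.1 := by
    rw [hc, Matrix.mul_smul, ← Matrix.mul_assoc, Units.inv_mul, Matrix.one_mul]
  have h2 := congrArg Matrix.trace h1
  rw [← Matrix.mul_assoc, Matrix.trace_mul_comm, ← Matrix.mul_assoc, Units.mul_inv, Matrix.one_mul,
    Matrix.trace_smul, smul_eq_mul] at h2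
  have hc1 : (c : F) = 1 := mul_right_cancel₀ htr ((one_mul _).trans h2).symm
  rw [hc1, one_smul] at hc
  exact hc.symm

theorem trace_top (hF : Fintype.card F = 4) (x : F) : Matrix.trace (top x) ≠ 0 := by
  have : Matrix.trace (top x) = 1 := by
    simp [top, Matrix.trace, Fin.sum_univ_three]
    linear_combination two_eq_zero hF
  rw [this]
  exact one_ne_zero

/-- The centraliser of a transvection has at most 192 elements. -/
theorem card_centralizer_le (hF : Fintype.card F = 4) {T : GL₃} (hT : T.1 = top 1) :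
    Nat.card ↥(Subgroup.centralizer ({QuotientGroup.mk T} : Set PGL₃)) ≤ 192 := by
  classical
  set C := Subgroup.centralizer ({QuotientGroup.mk T} : Set PGL₃)
  have hmem : ∀ g : GL₃, g ∈ C.comap (QuotientGroup.mk' _) → g.1 * top 1 = top 1 * g.1 := by
    intro g hg
    rw [Subgroup.mem_comap, QuotientGroup.mk'_apply, Subgroup.mem_centralizer_singleton_iff] at hg
    rw [← hT]
    refine commute_of_projective (by rw [hT]; exact trace_top hF 1) ?_
    rw [QuotientGroup.mk_mul, QuotientGroup.mk_mul]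
    exact hg
  let f : ↥(C.comap (QuotientGroup.mk' _)) → Fˣ × Fˣ × F × F × F := fun g =>
    (Units.mk0 (g.1.1 0 0) (by
        obtain ⟨a, b, _, -⟩ := top_entries (hmem _ g.2)
        intro h0
        have hd : g.1.1.det = 0 := by rw [Matrix.det_fin_three, h0, a, b]; ring
        exact (Matrix.GeneralLinearGroup.det_ne_zero g.1) hd),
      Units.mk0 (g.1.1 1 1) (by
        obtain ⟨a, b, c, -⟩ := top_entries (hmem _ g.2)
        intro h0
        have hd : g.1.1.det = 0 := by rw [Matrix.det_fin_three, h0, a, b, c]; ring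
        exact (Matrix.GeneralLinearGroup.det_ne_zero g.1) hd),
      g.1.1 0 1, g.1.1 0 2, g.1.1 1 2)
  have hf : Function.Injective f := by
    intro g g' h
    simp only [f, Prod.mk.injEq, Units.ext_iff, Units.val_mk0] at h
    obtain ⟨a, b, c, d⟩ := top_entries (hmem _ g.2)
    obtain ⟨a', b', c', d'⟩ := top_entries (hmem _ g'.2)
    obtain ⟨h0, h1, h01, h02, h12⟩ := h
    refine Subtype.ext (Units.ext (Matrix.ext fun i j => ?_))
    fin_cases i <;> fin_cases j <;>
      first
        | assumption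
        | exact a.trans a'.symm
        | exact b.trans b'.symm
        | exact c.trans c'.symm
        | exact (d.symm.trans h0).trans d'
  have h1 := Nat.card_le_card_of_injective f hf
  simp only [Nat.card_prod, card_units_four hF, Nat.card_eq_fintype_card (α := F), hF] at h1
  have h2 : Nat.card ↥(C.comap (QuotientGroup.mk' (Subgroup.center GL₃))) = 3 * Nat.card C := by
    have h3 := Subgroup.index_comap_of_surjective C (QuotientGroup.mk'_surjective (Subgroup.center GL₃))
    have h4 := Subgroup.card_mul_index (C.comap (QuotientGroup.mk' (Subgroup.center GL₃)))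
    have h5 := Subgroup.card_mul_index C
    rw [h3] at h4
    rw [card_pgl hF] at h5
    have h6 : Nat.card GL₃ = 60480 * 3 := by
      rw [Subgroup.card_eq_card_quotient_mul_card_subgroup (Subgroup.center GL₃), card_pgl hF, card_center hF]
    rw [h6] at h4
    exact Nat.eq_of_mul_eq_mul_right (Nat.pos_of_ne_zero C.index_ne_zero_of_finite)
      (h4.trans (by rw [mul_assoc, h5, Nat.mul_comm]))
  omega

/-- An involution is conjugate to a transvection. -/
theorem exists_conj_top (hF : Fintype.card F = 4) {t : PGL₃} (ht : orderOf t = 2) :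
    ∃ (B : PGL₃) (T : GL₃), T.1 = top 1 ∧ B * QuotientGroup.mk T * B⁻¹ = t := by
  classical
  obtain ⟨g, rfl⟩ := QuotientGroup.mk_surjective t
  have h2 : (QuotientGroup.mk (g * g) : PGL₃) = QuotientGroup.mk (1 : GL₃) := by
    rw [QuotientGroup.mk_mul, QuotientGroup.mk_one, ← pow_two, ← ht, pow_orderOf_eq_one]
  obtain ⟨c, hc⟩ := mk_eq_mk.mp h2.symm
  rw [Units.val_mul, Units.val_one] at hc
  have hc4 : (c : F) ^ 4 = (c : F) := by
    have := FiniteField.pow_card (c : F)
    rwa [hF] at this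
  set s : Fˣ := (c ^ 2)⁻¹ with hs
  set M : Matrix (Fin 3) (Fin 3) F := (s : F) • g.1 with hM
  have hM2 : M * M = 1 := by
    rw [hM, Matrix.smul_mul, Matrix.mul_smul, hc, smul_smul, smul_smul]
    have : (s : F) * (s : F) * (c : F) = 1 := by
      rw [hs, Units.val_inv_eq_inv_val, Units.val_pow_eq_pow_val, ← mul_inv,
        show (c : F) ^ 2 * (c : F) ^ 2 = (c : F) ^ 4 by ring, hc4, inv_mul_cancel₀ c.ne_zero]
    rw [this, one_smul]
  set N : Matrix (Fin 3) (Fin 3) F := M + 1 with hN
  have h2F := two_eq_zero hF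
  have hN2 : N * N = 0 := by
    rw [hN, Matrix.add_mul, Matrix.mul_add, hM2, Matrix.mul_one, Matrix.one_mul]
    ext i j
    simp only [Matrix.add_apply, Matrix.zero_apply]
    linear_combination ((1 : Matrix (Fin 3) (Fin 3) F) i j + M i j) * h2F
  have hN0 : N ≠ 0 := by
    intro h0
    have hM1 : M = 1 := by
      ext i j
      have := congrFun (congrFun h0 i) j
      simp only [hN, Matrix.add_apply, Matrix.zero_apply] at this
      linear_combination this - (1 : Matrix (Fin 3) (Fin 3) F) i j * h2F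
    have h1 : (QuotientGroup.mk g : PGL₃) = 1 := by
      rw [← QuotientGroup.mk_one]
      refine mk_eq_mk.mpr ⟨s, ?_⟩
      rw [Units.val_one]
      exact hM1.symm
    rw [h1, orderOf_one] at ht
    exact absurd ht (by norm_num)
  obtain ⟨v, hv⟩ : ∃ v, N *ᵥ v ≠ 0 := by
    by_contra hall
    push Not at hall
    exact hN0 (Matrix.ext_of_mulVec_single fun i => by rw [hall, Matrix.zero_mulVec])
  set L := Matrix.toLin' N
  have hrk : LinearMap.range L ≤ LinearMap.ker L := by
    rintro _ ⟨x, rfl⟩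
    rw [LinearMap.mem_ker, Matrix.toLin'_apply, Matrix.toLin'_apply, Matrix.mulVec_mulVec, hN2,
      Matrix.zero_mulVec]
  obtain ⟨w, hw, hwv⟩ : ∃ w, N *ᵥ w = 0 ∧ w ∉ Submodule.span F {N *ᵥ v} := by
    by_contra hall
    push Not at hall
    have hker : LinearMap.ker L ≤ Submodule.span F {N *ᵥ v} := fun w hw => hall w (by
      rwa [LinearMap.mem_ker, Matrix.toLin'_apply] at hw)
    have h1 := L.finrank_range_add_finrank_ker
    have h3 := Submodule.finrank_mono hrk
    have h4 := Submodule.finrank_mono hker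
    rw [finrank_span_singleton hv] at h4
    rw [Module.finrank_fin_fun] at h1
    omega
  set A : Matrix (Fin 3) (Fin 3) F := Matrix.of fun i j => ![N *ᵥ v, w, v] j i with hA
  have hAv : ∀ x : Fin 3 → F, A *ᵥ x = x 0 • (N *ᵥ v) + x 1 • w + x 2 • v := by
    intro x
    funext i
    show ∑ j, A i j * x j = _
    rw [Fin.sum_univ_three]
    simp [hA, mul_comm]
  have hAu : IsUnit A := by
    refine Matrix.mulVec_injective_iff_isUnit.mp fun x y hxy => ?_
    have h0 : A *ᵥ (x - y) = 0 := by rw [Matrix.mulVec_sub, hxy, sub_self]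
    rw [hAv] at h0
    set d := x - y
    have h1 := congrArg (N *ᵥ ·) h0
    simp only [Matrix.mulVec_add, Matrix.mulVec_smul, Matrix.mulVec_mulVec, hN2, Matrix.zero_mulVec,
      hw, smul_zero, zero_add, Matrix.mulVec_zero] at h1
    have d2 : d 2 = 0 := (smul_eq_zero.mp h1).resolve_right hv
    rw [d2, zero_smul, add_zero] at h0
    have d1 : d 1 = 0 := by
      by_contra hne
      refine hwv (Submodule.mem_span_singleton.mpr ⟨-(d 1)⁻¹ * d 0, ?_⟩)
      rw [mul_smul, eq_neg_of_add_eq_zero_left h0, smul_neg, neg_smul, neg_neg, inv_smul_smul₀ hne]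
    rw [d1, zero_smul, add_zero] at h0
    have d0 : d 0 = 0 := (smul_eq_zero.mp h0).resolve_right hv
    refine sub_eq_zero.mp (funext fun i => ?_)
    fin_cases i <;> assumption
  have hTdet : (top (1 : F)).det ≠ 0 := by simp [top, Matrix.det_fin_three]
  set T : GL₃ := Matrix.GeneralLinearGroup.mkOfDetNeZero (top 1) hTdet with hT
  have hMA : M * A = A * (top 1) := by
    refine Matrix.ext_of_mulVec_single fun i => ?_
    rw [← Matrix.mulVec_mulVec, ← Matrix.mulVec_mulVec]
    have hMN : ∀ x, M *ᵥ x = N *ᵥ x + x := by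
      intro x
      rw [hN, Matrix.add_mulVec, Matrix.one_mulVec, add_assoc]
      have : x + x = 0 := funext fun k => by
        show x k + x k = 0
        linear_combination x k * h2F
      rw [this, add_zero]
    rw [hMN]
    simp only [hAv, Matrix.mulVec_add, Matrix.mulVec_smul, Matrix.mulVec_mulVec, hN2,
      Matrix.zero_mulVec, hw, smul_zero, zero_add, top, Matrix.mulVec_single_one]
    fin_cases i <;> simp [Pi.single_apply, add_comm]
  refine ⟨QuotientGroup.mk hAu.unit, T, rfl, ?_⟩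
  rw [← QuotientGroup.mk_inv, ← QuotientGroup.mk_mul, ← QuotientGroup.mk_mul]
  refine mk_eq_mk.mpr ⟨s⁻¹, ?_⟩
  have h1 : (hAu.unit * T * hAu.unit⁻¹ : GL₃).1 = M := by
    rw [Units.val_mul, Units.val_mul, IsUnit.unit_spec, show T.1 = top 1 from rfl, ← hMA, Matrix.mul_assoc]
    rw [show A * (hAu.unit⁻¹ : GL₃).1 = 1 from by
      have := hAu.unit.mul_inv
      rwa [IsUnit.unit_spec] at this, Matrix.mul_one]
  rw [h1, hM, smul_smul, ← Units.val_mul, inv_mul_cancel, Units.val_one, one_smul]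

/-- The unipotent group fixing the line `x₂ = 0` pointwise. -/
def lineGroup : Subgroup GL₃ where
  carrier := {g | ∃ x y : F, g.1 = !![1, 0, x; 0, 1, y; 0, 0, 1]}
  one_mem' := ⟨0, 0, by rw [Units.val_one]; exact Matrix.one_fin_three⟩
  mul_mem' := by
    rintro a b ⟨x, y, ha⟩ ⟨x', y', hb⟩
    refine ⟨x + x', y + y', ?_⟩
    rw [Units.val_mul, ha, hb, Matrix.mul_fin_three]
    simp [add_comm]
  inv_mem' := by
    rintro a ⟨x, y, ha⟩
    refine ⟨-x, -y, ?_⟩
    have h : a.1 * !![1, 0, -x; 0, 1, -y; 0, 0, 1] = 1 := by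
      rw [ha, Matrix.mul_fin_three, Matrix.one_fin_three]
      simp
    calc (a⁻¹ : GL₃).1 = (a⁻¹ : GL₃).1 * (a.1 * !![1, 0, -x; 0, 1, -y; 0, 0, 1]) := by rw [h, Matrix.mul_one]
      _ = _ := by rw [← Matrix.mul_assoc, Units.inv_mul, Matrix.one_mul]

/-- The unipotent group fixing every line through `e₀`. -/
def pointGroup : Subgroup GL₃ where
  carrier := {g | ∃ x y : F, g.1 = !![1, y, x; 0, 1, 0; 0, 0, 1]}
  one_mem' := ⟨0, 0, by rw [Units.val_one]; exact Matrix.one_fin_three⟩
  mul_mem' := by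
    rintro a b ⟨x, y, ha⟩ ⟨x', y', hb⟩
    refine ⟨x + x', y + y', ?_⟩
    rw [Units.val_mul, ha, hb, Matrix.mul_fin_three]
    simp [add_comm]
  inv_mem' := by
    rintro a ⟨x, y, ha⟩
    refine ⟨-x, -y, ?_⟩
    have h : a.1 * !![1, -y, -x; 0, 1, 0; 0, 0, 1] = 1 := by
      rw [ha, Matrix.mul_fin_three, Matrix.one_fin_three]
      simp
    calc (a⁻¹ : GL₃).1 = (a⁻¹ : GL₃).1 * (a.1 * !![1, -y, -x; 0, 1, 0; 0, 0, 1]) := by rw [h, Matrix.mul_one]
      _ = _ := by rw [← Matrix.mul_assoc, Units.inv_mul, Matrix.one_mul]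

theorem tv_val (v : Fin 3 → F) (φ : (Fin 3 → F) →ₗ[F] F) (h : φ v = 0) (i j : Fin 3) :
    (tv v φ h).1 i j = (1 : Matrix (Fin 3) (Fin 3) F) i j + φ (Pi.single j 1) * v i := by
  have := congrFun (ap_tv v φ h (Pi.single j 1)) i
  rw [ap_def, Matrix.mulVec_single_one] at this
  simpa [Matrix.one_apply, Pi.single_apply] using this

theorem isPGroup_map {V : Subgroup GL₃} (hF : Fintype.card F = 4) (h : ∀ g ∈ V, g * g = 1) :
    IsPGroup 2 (V.map (QuotientGroup.mk' (Subgroup.center GL₃))) := by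
  rintro ⟨_, g, hg, rfl⟩
  refine ⟨1, Subtype.ext ?_⟩
  show (QuotientGroup.mk g : PGL₃) ^ 2 ^ 1 = 1
  rw [pow_one, pow_two, ← QuotientGroup.mk_mul, h g hg, QuotientGroup.mk_one]

theorem conj_pointGroup {r v : GL₃} (a : r.1 1 0 = 0) (b : r.1 2 0 = 0)
    (hv : v ∈ (pointGroup : Subgroup GL₃)) : r * v * r⁻¹ ∈ (pointGroup : Subgroup GL₃) := by
  obtain ⟨x, y, hv⟩ := hv
  let φ₀ : (Fin 3 → F) →ₗ[F] F :=
    y • (LinearMap.proj 1 : (Fin 3 → F) →ₗ[F] F) + x • (LinearMap.proj 2 : (Fin 3 → F) →ₗ[F] F)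
  have hφ : φ₀ (Pi.single 0 1) = 0 := by simp [φ₀]
  have hvtv : v = tv (Pi.single 0 1) φ₀ hφ := by
    refine Units.ext (Matrix.ext fun i j => ?_)
    rw [tv_val, hv]
    fin_cases i <;> fin_cases j <;> simp [φ₀]
  have e2 : ap r (Pi.single 0 1) = r.1 0 0 • (Pi.single 0 1 : Fin 3 → F) := by
    funext i
    rw [ap_def, Matrix.mulVec_single_one]
    fin_cases i <;> simp [a, b]
  set χ : (Fin 3 → F) →ₗ[F] F := φ₀.comp (apEquiv r⁻¹).toLinearMap with hχ
  have h0 : r.1 0 0 * χ (Pi.single 0 1) = 0 := by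
    rw [← smul_eq_mul, ← map_smul, ← e2]
    simp [hχ, ap_inv_ap, hφ]
  refine ⟨χ (Pi.single 2 1) * r.1 0 0, χ (Pi.single 1 1) * r.1 0 0, ?_⟩
  rw [hvtv, conj_tv]
  ext i j
  rw [tv_val, ← hχ, e2]
  fin_cases i <;> fin_cases j <;> simp [mul_comm] <;> first | exact mul_eq_zero.mp h0 | exact (mul_eq_zero.mp h0).symm

theorem conj_lineGroup {r v : GL₃} (a : r.1 2 0 = 0) (b : r.1 2 1 = 0) (a' : r⁻¹.1 2 0 = 0)
    (b' : r⁻¹.1 2 1 = 0) (hv : v ∈ (lineGroup : Subgroup GL₃)) :
    r * v * r⁻¹ ∈ (lineGroup : Subgroup GL₃) := by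
  obtain ⟨x, y, hv⟩ := hv
  set ρ : (Fin 3 → F) →ₗ[F] F := LinearMap.proj 2
  have hρ : ρ ![x, y, 0] = 0 := by simp [ρ]
  have hvtv : v = tv ![x, y, 0] ρ hρ := by
    refine Units.ext (Matrix.ext fun i j => ?_)
    rw [tv_val, hv]
    fin_cases i <;> fin_cases j <;> simp [ρ]
  set w : Fin 3 → F := ap r ![x, y, 0] with hw
  have w2 : w 2 = 0 := by
    simp [hw, ap_def, Matrix.mulVec, dotProduct, Fin.sum_univ_three, a, b]
  have hcol : ∀ j, (ρ.comp (apEquiv r⁻¹).toLinearMap) (Pi.single j 1) = r⁻¹.1 2 j := fun j => by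
    simp [ρ, ap_def, Matrix.mulVec_single_one]
  refine ⟨r⁻¹.1 2 2 * w 0, r⁻¹.1 2 2 * w 1, ?_⟩
  rw [hvtv, conj_tv]
  ext i j
  rw [tv_val, hcol, ← hw]
  fin_cases i <;> fin_cases j <;> simp [a', b', w2]

theorem trv_apply (i j : Fin 3) (hij : i ≠ j) (a : F) (k l : Fin 3) :
    (Matrix.SpecialLinearGroup.toGL (Matrix.SpecialLinearGroup.transvection hij a) : GL₃).1 k l =
      (1 : Matrix (Fin 3) (Fin 3) F) k l + if i = k ∧ j = l then a else 0 := by
  show Matrix.transvection i j a k l = _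
  rw [Matrix.transvection, Matrix.add_apply, Matrix.single_apply]

theorem toGL_mem {R' : Subgroup GL₃}
    (hcent : ∀ g : GL₃, g.1 1 0 = 0 → g.1 2 0 = 0 → g.1 2 1 = 0 → g.1 0 0 = g.1 2 2 → g ∈ R')
    (hlow : ∀ (φ : (Fin 3 → F) →ₗ[F] F) (h : φ (Pi.single 2 1) = 0), tv (Pi.single 2 1) φ h ∈ R')
    (s : Matrix.SpecialLinearGroup (Fin 3) F) : Matrix.SpecialLinearGroup.toGL s ∈ R' := by
  have hup : ∀ (i j : Fin 3) (hij : i ≠ j) (a : F), i.1 < j.1 →
      Matrix.SpecialLinearGroup.toGL (Matrix.SpecialLinearGroup.transvection hij a) ∈ R' := by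
    intro i j hij a hlt
    have hf : ∀ k l : Fin 3, l.1 ≤ k.1 → ¬ (i = k ∧ j = l) := by
      rintro k l hkl ⟨rfl, rfl⟩
      omega
    refine hcent _ ?_ ?_ ?_ ?_ <;>
      simp only [trv_apply, if_neg (hf 1 0 (by decide)), if_neg (hf 2 0 (by decide)),
        if_neg (hf 2 1 (by decide)), if_neg (hf 0 0 (by decide)), if_neg (hf 2 2 (by decide))] <;>
      simp
  have hbot : ∀ (j : Fin 3) (hij : (2 : Fin 3) ≠ j) (a : F),
      Matrix.SpecialLinearGroup.toGL (Matrix.SpecialLinearGroup.transvection hij a) ∈ R' := by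
    intro j hij a
    have h := hlow (a • (LinearMap.proj j : (Fin 3 → F) →ₗ[F] F))
      (by simp [Pi.single_apply, hij.symm])
    convert h using 1
    refine Units.ext (Matrix.ext fun k l => ?_)
    rw [tv_val, trv_apply]
    congr 1
    by_cases hk : k = 2 <;> by_cases hl : j = l <;> simp [hk, hl, Pi.single_apply, Ne.symm, eq_comm]
  refine CfsgLib.ClassicalLinear.transvection_induction
    (P := fun s => Matrix.SpecialLinearGroup.toGL s ∈ R') (by rw [map_one]; exact one_mem _) ?_
    (fun A A' hA hA' => by rw [map_mul]; exact mul_mem hA hA') s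
  intro i j hij a
  by_cases hlt : i.1 < j.1
  · exact hup i j hij a hlt
  by_cases hi : i = 2
  · subst hi; exact hbot j hij a
  · obtain ⟨rfl, rfl⟩ : i = 1 ∧ j = 0 := by
      revert hij hlt hi; revert i j; decide
    have h12 : (1 : Fin 3) ≠ 2 := by decide
    have h20 : (2 : Fin 3) ≠ 0 := by decide
    have h := CfsgLib.ClassicalLinear.commutator_transvection hij h12 h20 a (1 : F)
    rw [mul_one] at h
    rw [← h, map_commutatorElement, commutatorElement_def]
    exact mul_mem (mul_mem (mul_mem (hup _ _ _ _ (by decide)) (hbot 0 h20 1))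
      (inv_mem (hup _ _ _ _ (by decide)))) (inv_mem (hbot 0 h20 1))

/-- A subgroup containing an involution centraliser and without normal 2-subgroup is everything. -/
theorem eq_top (hF : Fintype.card F = 4) (R : Subgroup PGL₃) (t : PGL₃) (ht : t ∈ R)
    (ho : orderOf t = 2) (hC : 192 ≤ Nat.card ↥(R ⊓ Subgroup.centralizer ({t} : Set PGL₃)))
    (hO : ∀ V : Subgroup PGL₃, V ≤ R → IsPGroup 2 V → (∀ r ∈ R, ∀ v ∈ V, r * v * r⁻¹ ∈ V) → V = ⊥) :
    R = ⊤ := by
  classical
  have h2F := two_eq_zero hF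
  obtain ⟨B, T, hT, rfl⟩ := exists_conj_top hF ho
  -- conjugate the situation to the standard transvection
  set R' : Subgroup GL₃ := R.comap ((MulAut.conj B).toMonoidHom.comp (QuotientGroup.mk' _)) with hR'
  have hmem' : ∀ g : GL₃, g ∈ R' ↔ B * QuotientGroup.mk g * B⁻¹ ∈ R := fun g => Iff.rfl
  suffices h : ∀ g : GL₃, g ∈ R' by
    refine eq_top_iff.mpr fun x _ => ?_
    obtain ⟨g, hg⟩ := QuotientGroup.mk_surjective (B⁻¹ * x * B)
    have := (hmem' g).mp (h g)
    rwa [hg, show B * (B⁻¹ * x * B) * B⁻¹ = x by group] at this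
  set z : PGL₃ := B * QuotientGroup.mk T * B⁻¹ with hz
  have hCle : Subgroup.centralizer ({z} : Set PGL₃) ≤ R := by
    have hcard : Nat.card ↥(Subgroup.centralizer ({z} : Set PGL₃)) ≤ 192 := by
      refine le_of_eq_of_le (Nat.card_congr ((MulAut.conj B⁻¹).toEquiv.subtypeEquiv fun x => ?_))
        (card_centralizer_le hF hT)
      simp only [Subgroup.mem_centralizer_singleton_iff, MulEquiv.toEquiv_eq_coe, EquivLike.coe_coe,
        MulAut.conj_apply, inv_inv, hz]
      constructor
      · intro hx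
        calc B⁻¹ * x * B * QuotientGroup.mk T = B⁻¹ * (x * (B * QuotientGroup.mk T * B⁻¹)) * B := by group
          _ = _ := by rw [hx]; group
      · intro hx
        calc x * (B * QuotientGroup.mk T * B⁻¹) = B * (B⁻¹ * x * B * QuotientGroup.mk T) * B⁻¹ := by group
          _ = _ := by rw [hx]; group
    have := Subgroup.eq_of_le_of_card_ge (inf_le_right : R ⊓ Subgroup.centralizer ({z} : Set PGL₃) ≤ _)
      (hcard.trans hC)
    exact inf_eq_right.mp this
  have hcent : ∀ g : GL₃, g.1 1 0 = 0 → g.1 2 0 = 0 → g.1 2 1 = 0 → g.1 0 0 = g.1 2 2 → g ∈ R' := by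
    intro g a b c d
    refine (hmem' g).mpr (hCle ?_)
    have hgT : g * T = T * g := Units.ext (by rw [Units.val_mul, Units.val_mul, hT, top_commute a b c d])
    rw [Subgroup.mem_centralizer_singleton_iff, hz]
    have : (QuotientGroup.mk g : PGL₃) * QuotientGroup.mk T = QuotientGroup.mk T * QuotientGroup.mk g := by
      rw [← QuotientGroup.mk_mul, hgT, QuotientGroup.mk_mul]
    calc B * QuotientGroup.mk g * B⁻¹ * (B * QuotientGroup.mk T * B⁻¹)
        = B * (QuotientGroup.mk g * QuotientGroup.mk T) * B⁻¹ := by group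
      _ = _ := by rw [this]; group
  -- neither unipotent radical is normalised
  have hnn : ∀ V : Subgroup GL₃, V ≤ R' → (∀ g ∈ V, g * g = 1) → (∃ g ∈ V, g ∉ Subgroup.center GL₃) →
      ¬ ∀ r ∈ R', ∀ v ∈ V, r * v * r⁻¹ ∈ V := by
    intro V hV hV2 ⟨g₀, hg₀, hg₀c⟩ hnorm
    set φ : GL₃ →* PGL₃ := (MulAut.conj B).toMonoidHom.comp (QuotientGroup.mk' _)
    have h0 := hO (V.map φ) (Subgroup.map_le_iff_le_comap.mpr hV)
      (by rw [← Subgroup.map_map]; exact (isPGroup_map hF hV2).map _)
      (by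
        rintro x hx _ ⟨v, hv, rfl⟩
        obtain ⟨r, hr⟩ := QuotientGroup.mk_surjective (B⁻¹ * x * B)
        have hφr : φ r = x := by
          show B * (QuotientGroup.mk r : PGL₃) * B⁻¹ = x
          rw [hr]; group
        refine ⟨r * v * r⁻¹, hnorm r (show φ r ∈ R by rw [hφr]; exact hx) v hv, ?_⟩
        rw [map_mul, map_mul, map_inv, hφr])
    have h1 : φ g₀ = 1 := by
      rw [← Subgroup.mem_bot, ← h0]; exact Subgroup.mem_map_of_mem _ hg₀
    refine hg₀c ((QuotientGroup.eq_one_iff g₀).mp ?_)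
    have h2 : B * (QuotientGroup.mk g₀ : PGL₃) * B⁻¹ = 1 := h1
    rwa [conj_eq_one_iff] at h2
  have hnc : ∀ g : GL₃, g.1 0 2 ≠ 0 → g ∉ Subgroup.center GL₃ := by
    intro g hg hc
    rw [Matrix.GeneralLinearGroup.center_eq_range_scalar] at hc
    obtain ⟨c, rfl⟩ := hc
    exact hg (by simp)
  have hTline : T ∈ (lineGroup : Subgroup GL₃) := ⟨1, 0, by rw [hT]; rfl⟩
  have hTpt : T ∈ (pointGroup : Subgroup GL₃) := ⟨1, 0, by rw [hT]; rfl⟩
  have hTnc : T ∉ Subgroup.center GL₃ := hnc T (by simp [hT, top])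
  obtain ⟨r, hr, hr20⟩ : ∃ r ∈ R', r.1 2 0 ≠ 0 := by
    by_contra hall
    push Not at hall
    by_cases hpt : ∀ x ∈ R', x.1 1 0 = 0
    · refine hnn pointGroup ?_ ?_ ⟨T, hTpt, hTnc⟩ ?_
      · rintro g ⟨x, y, hg⟩
        exact hcent g (by simp [hg]) (by simp [hg]) (by simp [hg]) (by simp [hg])
      · rintro g ⟨x, y, hg⟩
        refine Units.ext ?_
        rw [Units.val_mul, hg, Units.val_one, Matrix.mul_fin_three, Matrix.one_fin_three]
        ext i j
        fin_cases i <;> fin_cases j <;> simp <;> ring_nf <;> simp [h2F]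
      · exact fun r hr v hv => conj_pointGroup (hpt r hr) (hall r hr) hv
    · push Not at hpt
      obtain ⟨r', hr', hr'10⟩ := hpt
      refine hnn lineGroup ?_ ?_ ⟨T, hTline, hTnc⟩ ?_
      · rintro g ⟨x, y, hg⟩
        exact hcent g (by simp [hg]) (by simp [hg]) (by simp [hg]) (by simp [hg])
      · rintro g ⟨x, y, hg⟩
        refine Units.ext ?_
        rw [Units.val_mul, hg, Units.val_one, Matrix.mul_fin_three, Matrix.one_fin_three]
        ext i j
        fin_cases i <;> fin_cases j <;> simp <;> ring_nf <;> simp [h2F]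
      · have h21 : ∀ x ∈ R', x.1 2 1 = 0 := by
          intro x hx
          have := hall _ (mul_mem hx hr')
          rw [Units.val_mul, Matrix.mul_apply, Fin.sum_univ_three, hall x hx, hall r' hr', zero_mul,
            mul_zero, zero_add, add_zero] at this
          exact (mul_eq_zero.mp this).resolve_right hr'10
        exact fun r hr v hv => conj_lineGroup (hall r hr) (h21 r hr) (hall _ (inv_mem hr))
          (h21 _ (inv_mem hr)) hv
  -- move the image of `e₀` to the last coordinate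
  set c := r.1 2 0
  set u : Fin 3 → F := ![r.1 0 0, r.1 1 0, 0]
  set ψ : (Fin 3 → F) →ₗ[F] F := (-c⁻¹) • LinearMap.proj 2
  have hψ : ψ u = 0 := by simp [ψ, u]
  set g₁ : GL₃ := tv u ψ hψ * r with hg₁def
  have hg₁ : g₁ ∈ R' := by
    refine mul_mem (hcent _ ?_ ?_ ?_ ?_) hr <;> simp [tv_val, u, ψ]
  have hcol : ap g₁ (Pi.single 0 1) = c • (Pi.single 2 1 : Fin 3 → F) := by
    rw [hg₁def, ap_mul, ap_tv]
    funext i
    have hc : r.1 2 0 ≠ 0 := hr20
    fin_cases i <;> simp [ap_def, Matrix.mulVec_single_one, ψ, u, c, hc] <;> field_simp <;> ring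
  have hlow : ∀ (φ : (Fin 3 → F) →ₗ[F] F) (h : φ (Pi.single 2 1) = 0),
      tv (Pi.single 2 1) φ h ∈ R' := by
    intro φ h
    have hψ0 : (c⁻¹ • φ.comp (apEquiv g₁).toLinearMap : (Fin 3 → F) →ₗ[F] F) (Pi.single 0 1) = 0 := by
      rw [LinearMap.smul_apply, LinearMap.comp_apply]
      show c⁻¹ • φ (ap g₁ (Pi.single 0 1)) = 0
      rw [hcol, map_smul, h, smul_zero, smul_zero]
    have h1 : tv (Pi.single 0 1) _ hψ0 ∈ R' := by
      have h0 : φ (ap g₁ (Pi.single 0 1)) = 0 := by rw [hcol, map_smul, h, smul_zero]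
      refine hcent _ ?_ ?_ ?_ ?_ <;> simp [tv_val, h0]
    have h2 := mul_mem (mul_mem hg₁ h1) (inv_mem hg₁)
    rw [conj_tv] at h2
    convert h2 using 1
    refine tv_eq_tv _ _ fun x => ?_
    simp only [LinearMap.comp_apply, LinearMap.smul_apply, LinearEquiv.coe_coe, apEquiv_apply,
      ap_ap_inv, hcol, smul_eq_mul, smul_smul]
    congr 1
    field_simp
  intro g
  have hsl : ∀ s : Matrix.SpecialLinearGroup (Fin 3) F, Matrix.SpecialLinearGroup.toGL s ∈ R' :=
    toGL_mem hcent hlow
  set d := g.1.det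
  have hd : d ≠ 0 := Matrix.GeneralLinearGroup.det_ne_zero g
  set a := d ^ 2
  have hdd : a * a = d := by
    have := FiniteField.pow_card d
    rw [hF] at this
    rw [← this]; ring
  set D : GL₃ := Matrix.GeneralLinearGroup.mkOfDetNeZero (Matrix.diagonal ![a, 1, a]) (by
    rw [Matrix.det_diagonal, Fin.prod_univ_three]; simp [hdd, hd]) with hD
  have hDR : D ∈ R' := by refine hcent _ ?_ ?_ ?_ ?_ <;> simp [hD]
  have hdet : (D⁻¹ * g).1.det = 1 := by
    have h1 : D.1.det * (D⁻¹ * g).1.det = d := by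
      rw [← Matrix.det_mul, ← Units.val_mul, mul_inv_cancel_left]
    have h2 : D.1.det = d := by
      rw [show D.1 = Matrix.diagonal ![a, 1, a] from rfl, Matrix.det_diagonal, Fin.prod_univ_three]
      simp [hdd]
    rw [h2] at h1
    exact (mul_eq_left₀ hd).mp h1
  have hmain := mul_mem hDR (hsl ⟨(D⁻¹ * g).1, hdet⟩)
  rwa [show Matrix.SpecialLinearGroup.toGL (⟨(D⁻¹ * g).1, hdet⟩ : Matrix.SpecialLinearGroup (Fin 3) F) = D⁻¹ * g
    from Units.ext rfl, mul_inv_cancel_left] at hmain

/-- The embedding of `PSL₃` into `PGL₃`. -/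
def incl : Matrix.ProjectiveSpecialLinearGroup (Fin 3) F →* PGL₃ :=
  QuotientGroup.map _ _ Matrix.SpecialLinearGroup.toGL fun s hs => by
    rw [Subgroup.mem_comap, Matrix.GeneralLinearGroup.center_eq_range_scalar]
    obtain ⟨c, hc, hcs⟩ := Matrix.SpecialLinearGroup.mem_center_iff.mp hs
    have hc0 : c ≠ 0 := fun h0 => by simp [h0] at hc
    refine ⟨Units.mk0 c hc0, Units.ext ?_⟩
    show _ = (s : Matrix (Fin 3) (Fin 3) F)
    rw [← hcs]
    ext i j
    simp [Matrix.scalar_apply, Matrix.diagonal]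

theorem incl_mk (s : Matrix.SpecialLinearGroup (Fin 3) F) :
    incl (QuotientGroup.mk s) = QuotientGroup.mk (Matrix.SpecialLinearGroup.toGL s) := rfl

theorem incl_injective : Function.Injective (incl : _ →* PGL₃) := by
  rw [injective_iff_map_eq_one]
  intro x hx
  obtain ⟨s, rfl⟩ := QuotientGroup.mk_surjective x
  rw [incl_mk, QuotientGroup.eq_one_iff, Subgroup.mem_center_iff] at hx
  rw [QuotientGroup.eq_one_iff, Subgroup.mem_center_iff]
  intro y
  refine Subtype.ext ?_
  exact congrArg Units.val (hx (Matrix.SpecialLinearGroup.toGL y))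

theorem range_incl : (incl : _ →* PGL₃).range = commutator PGL₃ := by
  refine le_antisymm ?_ ?_
  · rintro _ ⟨x, rfl⟩
    obtain ⟨s, rfl⟩ := QuotientGroup.mk_surjective x
    rw [incl_mk]
    refine CfsgLib.ClassicalLinear.transvection_induction
      (P := fun s => (QuotientGroup.mk (Matrix.SpecialLinearGroup.toGL s) : PGL₃) ∈ commutator PGL₃)
      (by rw [map_one, QuotientGroup.mk_one]; exact one_mem _) (fun i j hij c => ?_)
      (fun A A' hA hA' => by rw [map_mul, QuotientGroup.mk_mul]; exact mul_mem hA hA') s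
    obtain ⟨k, hik, hkj⟩ : ∃ k : Fin 3, i ≠ k ∧ k ≠ j := by revert hij; revert i j; decide
    have h := CfsgLib.ClassicalLinear.commutator_transvection hij hik hkj c (1 : F)
    rw [mul_one] at h
    rw [← h, map_commutatorElement, ← QuotientGroup.mk'_apply, map_commutatorElement, commutator_def]
    exact Subgroup.commutator_mem_commutator (Subgroup.mem_top _) (Subgroup.mem_top _)
  · rw [commutator_def, Subgroup.commutator_le]
    intro x _ y _
    obtain ⟨g, rfl⟩ := QuotientGroup.mk_surjective x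
    obtain ⟨h, rfl⟩ := QuotientGroup.mk_surjective y
    have hd : ⁅g, h⁆.1.det = 1 := by
      rw [← coe_det_eq, map_commutatorElement, commutatorElement_eq_one_iff_mul_comm.mpr (mul_comm _ _),
        Units.val_one]
    refine ⟨QuotientGroup.mk (⟨_, hd⟩ : Matrix.SpecialLinearGroup (Fin 3) F), ?_⟩
    refine (incl_mk _).trans (Eq.trans ?_ (map_commutatorElement (QuotientGroup.mk' _) g h))
    exact congrArg _ (Units.ext rfl)

theorem eq_one_of_centralizes (hF : Fintype.card F = 4) {x : PGL₃}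
    (h : ∀ d ∈ commutator PGL₃, x * d = d * x) : x = 1 := by
  obtain ⟨g, rfl⟩ := QuotientGroup.mk_surjective x
  rw [QuotientGroup.eq_one_iff, Matrix.GeneralLinearGroup.center_eq_range_scalar]
  have hcomm : ∀ i j : Fin 3, i ≠ j → Commute (Matrix.single i j (1 : F)) g.1 := by
    intro i j hij
    set T : GL₃ := Matrix.SpecialLinearGroup.toGL (Matrix.SpecialLinearGroup.transvection hij (1 : F))
    have hmem : (QuotientGroup.mk T : PGL₃) ∈ commutator PGL₃ := by
      rw [← range_incl]; exact ⟨QuotientGroup.mk _, incl_mk _⟩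
    have hv : T.1 = 1 + Matrix.single i j (1 : F) := rfl
    have htr : Matrix.trace T.1 ≠ 0 := by
      rw [hv, Matrix.trace_add, Matrix.trace_one, Matrix.trace_single_eq_of_ne _ _ _ hij, add_zero,
        Fintype.card_fin]
      intro h0
      push_cast at h0
      exact one_ne_zero (α := F) (by linear_combination h0 - two_eq_zero hF)
    have h1 := commute_of_projective (g := g) htr (by
      rw [QuotientGroup.mk_mul, QuotientGroup.mk_mul]; exact h _ hmem)
    rw [hv, Matrix.mul_add, Matrix.add_mul, Matrix.mul_one, Matrix.one_mul] at h1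
    exact (add_left_cancel h1).symm
  obtain ⟨c, hc⟩ := Matrix.mem_range_scalar_of_commute_single hcomm
  have hc0 : c ≠ 0 := fun h0 => Units.ne_zero g (by rw [← hc, h0, map_zero])
  exact ⟨Units.mk0 c hc0, Units.ext hc⟩

/-- Restriction to the derived subgroup is injective. -/
theorem exists_mulAut_injective (hF : Fintype.card F = 4) :
    ∃ f : MulAut PGL₃ → MulAut (Matrix.ProjectiveSpecialLinearGroup (Fin 3) F), Function.Injective f := by
  haveI : (commutator PGL₃).Characteristic := inferInstance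
  let e : Matrix.ProjectiveSpecialLinearGroup (Fin 3) F ≃* ↥(commutator PGL₃) :=
    (MonoidHom.ofInjective incl_injective).trans (MulEquiv.subgroupCongr range_incl)
  let res : MulAut PGL₃ → MulAut ↥(commutator PGL₃) := fun φ =>
    (φ.subgroupMap (commutator PGL₃)).trans
      (MulEquiv.subgroupCongr (Subgroup.characteristic_iff_map_eq.mp ‹_› φ))
  refine ⟨fun φ => MulAut.congr e.symm (res φ), (MulAut.congr e.symm).injective.comp ?_⟩
  intro φ ψ hφψ
  have hres : ∀ d ∈ commutator PGL₃, φ d = ψ d := fun d hd => by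
    have h1 := congrArg Subtype.val (DFunLike.congr_fun hφψ ⟨d, hd⟩)
    exact h1
  refine MulEquiv.ext fun x => ?_
  have hkey : (ψ x)⁻¹ * φ x = 1 := by
    refine eq_one_of_centralizes hF fun d hd => ?_
    obtain ⟨e', rfl⟩ := ψ.surjective d
    have he : e' ∈ commutator PGL₃ := by
      rw [← Subgroup.characteristic_iff_comap_eq.mp (inferInstance : (commutator PGL₃).Characteristic) ψ]; exact hd
    have hconj : x * e' * x⁻¹ ∈ commutator PGL₃ :=
      (inferInstance : (commutator PGL₃).Normal).conj_mem e' he x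
    have h1 := hres _ hconj
    rw [map_mul, map_mul, map_inv, map_mul, map_mul, map_inv, hres e' he] at h1
    calc (ψ x)⁻¹ * φ x * ψ e' = (ψ x)⁻¹ * (φ x * ψ e' * (φ x)⁻¹) * φ x := by group
      _ = _ := by rw [h1]; group
  exact (inv_mul_eq_one.mp hkey).symm

theorem finite_mulAut_pgl : Finite (MulAut PGL₃) :=
  Finite.of_injective (fun φ => (φ : PGL₃ → PGL₃)) DFunLike.coe_injective

theorem card_mulAut_le (hF : Fintype.card F = 4) :
    Nat.card (MulAut PGL₃) ≤ 241920 ∧ Finite (MulAut PGL₃) := by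
  refine ⟨?_, finite_mulAut_pgl⟩
  obtain ⟨f, hf⟩ := exists_mulAut_injective hF
  haveI : Fact (Nat.Prime 2) := ⟨Nat.prime_two⟩
  have h := Cfsg.Agent.S0813.result (F := F) 2 2 (by norm_num) (by rw [hF]; norm_num) 3 (by norm_num)
    (by intro h; omega)
  have hp : Nat.card (Matrix.ProjGenLinGroup (Fin 3) F) = 60480 := card_pgl hF
  rw [hp, if_neg (by norm_num)] at h
  haveI : Finite (MulAut (Matrix.ProjectiveSpecialLinearGroup (Fin 3) F)) :=
    Finite.of_injective (fun φ => (φ : _ → _)) DFunLike.coe_injective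
  exact (Nat.card_le_card_of_injective f hf).trans (by rw [h])

end CfsgLib.InvChar.AutLinear.PGL
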