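import Mathlib.GroupTheory.Sylow
import Mathlib.GroupTheory.Nilpotent

/-!
Control of conjugacy by the centraliser of an involution `z`: if a Sylow subgroup `W` of the joint
centraliser of `z` and `x` has no other conjugate of `z` in its centre, then `W` is Sylow in the
centraliser of `x`, and two such elements are conjugate only under the centraliser of `z`.
-/

set_option autoImplicit false

namespace CfsgLib.InvChar.AutLinear

variable {G : Type*} [Group G] [Finite G] {z : G}

/-- A subgroup of a `p`-group containing what normalises it is the whole group. -/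
theorem eq_of_normalizer_le {P T : Subgroup G} {p : ℕ} [Fact p.Prime] (hP : IsPGroup p P)
    (hTP : T ≤ P) (h : ∀ g ∈ P, (∀ t ∈ T, g * t * g⁻¹ ∈ T) → g ∈ T) : P = T := by
  refine le_antisymm ?_ hTP
  by_contra hne
  have : Group.IsNilpotent ↥P := hP.isNilpotent
  have hlt : T.subgroupOf P < ⊤ := lt_top_iff_ne_top.2 fun e =>
    hne (Subgroup.subgroupOf_eq_top.1 e)
  obtain ⟨y, hy, hyT⟩ := SetLike.exists_of_lt (Group.normalizerCondition_of_isNilpotent _ hlt)
  refine hyT (h y y.2 fun t ht => ?_)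
  exact (Subgroup.mem_normalizer_iff.1 hy ⟨t, hTP ht⟩).1 ht

/-- `W` is a Sylow two-subgroup of the joint centraliser of `x` and `z`, and `z` is the only conjugate
of `z` in its centre. -/
structure Anchored (z x : G) (W : Subgroup G) : Prop where
  le_z : W ≤ Subgroup.centralizer ({z} : Set G)
  le_x : W ≤ Subgroup.centralizer ({x} : Set G)
  two : IsPGroup 2 W
  mem_z : z ∈ W
  max : ∀ U : Subgroup G, W ≤ U → IsPGroup 2 U → U ≤ Subgroup.centralizer ({z} : Set G) →
    U ≤ Subgroup.centralizer ({x} : Set G) → U = W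
  only : ∀ g : G, g * z * g⁻¹ ∈ W → (∀ w ∈ W, g * z * g⁻¹ * w = w * (g * z * g⁻¹)) →
    g * z * g⁻¹ = z

namespace Anchored

variable {x y : G} {W V : Subgroup G}

theorem eq_of_le (hW : Anchored z x W) {T : Subgroup G} (hT : IsPGroup 2 T)
    (hTx : T ≤ Subgroup.centralizer ({x} : Set G)) (hWT : W ≤ T) : T = W := by
  have := Fact.mk Nat.prime_two
  refine eq_of_normalizer_le hT hWT fun g hg hn => ?_
  have hcom : ∀ w ∈ W, g * z * g⁻¹ * w = w * (g * z * g⁻¹) := fun w hw => by
    have hmap : W.map (MulAut.conj g).toMonoidHom = W :=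
      Subgroup.eq_of_le_of_card_ge (by rintro _ ⟨t, ht, rfl⟩; exact hn t ht)
        (by rw [Subgroup.card_map_of_injective (MulAut.conj g).injective])
    obtain ⟨t, ht, rfl⟩ := hmap.ge hw
    have hc : t * z = z * t := Subgroup.mem_centralizer_singleton_iff.1 (hW.le_z ht)
    show g * z * g⁻¹ * (g * t * g⁻¹) = g * t * g⁻¹ * (g * z * g⁻¹)
    calc g * z * g⁻¹ * (g * t * g⁻¹) = g * (z * t) * g⁻¹ := by group
      _ = _ := by rw [← hc]; group
  have hgz : g * z * g⁻¹ = z := hW.only g (hn z hW.mem_z) hcom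
  have hU := hW.max (T ⊓ Subgroup.centralizer ({z} : Set G)) (le_inf hWT hW.le_z)
    (hT.to_le inf_le_left) inf_le_right (inf_le_left.trans hTx)
  exact hU ▸ ⟨hg, Subgroup.mem_centralizer_singleton_iff.2 (mul_inv_eq_iff_eq_mul.1 hgz)⟩

/-- An anchored element is conjugate to an element centralised by a two-subgroup at least as large of
the centraliser of `z`, containing `z`, only under that centraliser. -/
theorem exists_conj (hW : Anchored z x W) (hV2 : IsPGroup 2 V)
    (hVz : V ≤ Subgroup.centralizer ({z} : Set G)) (hVy : V ≤ Subgroup.centralizer ({y} : Set G))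
    (hzV : z ∈ V) (hcard : Nat.card W ≤ Nat.card V) (h : IsConj y x) :
    ∃ k : G, k * z = z * k ∧ k * y * k⁻¹ = x := by
  have := Fact.mk Nat.prime_two
  obtain ⟨g, hg⟩ := isConj_iff.1 h
  set C := Subgroup.centralizer ({x} : Set G) with hC
  have hV'C : ∀ v ∈ V, g * v * g⁻¹ ∈ C := by
    intro v hv
    refine Subgroup.mem_centralizer_singleton_iff.2 ?_
    have hc : v * y = y * v := Subgroup.mem_centralizer_singleton_iff.1 (hVy hv)
    rw [← hg]
    calc g * v * g⁻¹ * (g * y * g⁻¹) = g * (v * y) * g⁻¹ := by group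
      _ = _ := by rw [hc]; group
  obtain ⟨P, hP⟩ := (hW.two.comap_of_injective C.subtype C.subtype_injective).exists_le_sylow
  obtain ⟨Q, hQ⟩ := ((hV2.map (MulAut.conj g).toMonoidHom).comap_of_injective C.subtype
    C.subtype_injective).exists_le_sylow
  obtain ⟨c, hc⟩ := MulAction.exists_smul_eq (↥C) Q P
  have hPW : (P : Subgroup ↥C).map C.subtype = W := by
    refine hW.eq_of_le (P.isPGroup'.map _) ?_ ?_
    · rintro _ ⟨p, -, rfl⟩
      exact p.2
    · intro w hw
      exact ⟨⟨w, hW.le_x hw⟩, hP hw, rfl⟩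
  set k : G := (c : G) * g with hk
  have hmem : ∀ v ∈ V, k * v * k⁻¹ ∈ W := by
    intro v hv
    have h1 : (⟨g * v * g⁻¹, hV'C v hv⟩ : ↥C) ∈ Q := hQ ⟨v, hv, rfl⟩
    have h2 : c * ⟨g * v * g⁻¹, hV'C v hv⟩ * c⁻¹ ∈ (P : Subgroup ↥C) := by
      rw [← hc, Sylow.coe_subgroup_smul, Subgroup.mem_smul_pointwise_iff_exists]
      exact ⟨_, h1, rfl⟩
    have h3 : (c : G) * (g * v * g⁻¹) * (c : G)⁻¹ ∈ W := hPW ▸ ⟨_, h2, rfl⟩
    convert h3 using 1
    rw [hk]
    group
  have hmap : V.map (MulAut.conj k).toMonoidHom = W :=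
    Subgroup.eq_of_le_of_card_ge (by rintro _ ⟨v, hv, rfl⟩; exact hmem v hv)
      (by rwa [Subgroup.card_map_of_injective (MulAut.conj k).injective])
  refine ⟨k, ?_, ?_⟩
  · have hkz : k * z * k⁻¹ = z := by
      refine hW.only k (hmem z hzV) fun w hw => ?_
      obtain ⟨v, hv, rfl⟩ := hmap.ge hw
      have hc : v * z = z * v := Subgroup.mem_centralizer_singleton_iff.1 (hVz hv)
      show k * z * k⁻¹ * (k * v * k⁻¹) = k * v * k⁻¹ * (k * z * k⁻¹)
      calc k * z * k⁻¹ * (k * v * k⁻¹) = k * (z * v) * k⁻¹ := by group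
        _ = _ := by rw [← hc]; group
    exact mul_inv_eq_iff_eq_mul.1 hkz
  · have h1 : (c : G) * x = x * c := Subgroup.mem_centralizer_singleton_iff.1 c.2
    rw [hk, mul_inv_rev, show (c : G) * g * y * (g⁻¹ * (c : G)⁻¹) = (c : G) * (g * y * g⁻¹) * (c : G)⁻¹
      by group, hg, h1, mul_inv_cancel_right]

end Anchored

end CfsgLib.InvChar.AutLinear
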