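import Cfsg.Agent.Lib.InvChar.AutLinear.Setting
import Cfsg.Agent.Lib.InvChar.AutLinear.QuarterChecks
import Cfsg.Agent.Lib.InvChar.AutLinear.Separate
import Cfsg.Agent.Lib.InvChar.AEight.Transfer
import Cfsg.Agent.Lib.Cores.PCore

/-!
In the untwisted case the three classes of involutions outside the derived group of the centraliser
are distinct in `G`; two transfers give the normal subgroup of index four.
-/

set_option autoImplicit false
set_option linter.unusedSectionVars false

namespace CfsgLib.InvChar.AutLinear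

universe u

namespace Ctr

variable {G : Type u} [Group G] [Finite G] {z : G} (X : Ctr 0 z)
include X

/-- The subgroup of a checked generated set. -/
theorem gen_closed {p : I → Bool} {gs : List I} {lit : ℕ} (h : genCheck p gs lit = true) (i j : I)
    (hi : p i = true) (hj : p j = true) : p (mul 0 i j) = true := by
  simp only [genCheck, Bool.and_eq_true, List.all_eq_true] at h
  obtain ⟨⟨-, hg⟩, hw⟩ := h
  have key : ∀ (l : List I) (w : ℕ), (∀ g ∈ l, g ∈ gs) →
      p (mul 0 (subProd l w) j) = true := by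
    intro l
    induction l with
    | nil =>
      intro w _
      have : mul 0 (fin 0) j = j := X.inj (by rw [X.map_mul, X.map_one, one_mul])
      show p (mul 0 (fin 0) j) = true
      rw [this]
      exact hj
    | cons g l ih =>
      intro w hl
      have h1 := ih (w / 2) fun a ha => hl a (List.mem_cons_of_mem _ ha)
      show p (mul 0 (bif Nat.testBit w 0 then mul 0 g (subProd l (w / 2)) else subProd l (w / 2)) j) = true
      cases Nat.testBit w 0
      · exact h1
      · have h2 := all1_spec (hg g (hl g List.mem_cons_self)) (mul 0 (subProd l (w / 2)) j)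
        simp only [h1, Bool.not_true, Bool.false_or] at h2
        have : mul 0 (mul 0 g (subProd l (w / 2))) j = mul 0 g (mul 0 (subProd l (w / 2)) j) :=
          X.inj (by simp only [X.map_mul, mul_assoc])
        show p (mul 0 (mul 0 g (subProd l (w / 2))) j) = true
        rw [this]
        exact h2
  have h3 := all1_spec hw i
  simp only [hi, Bool.not_true, Bool.false_or, beq_iff_eq, ← Fin.ext_iff] at h3
  rw [← h3]
  exact key gs _ fun a ha => ha

theorem label_iff {i : I} : lab i ≠ 0 ↔ X.φ i ≠ 1 ∧ X.φ i * X.φ i = 1 := by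
  have h := all1_spec lab_check i
  simp only [Bool.and_eq_true, beq_iff_eq] at h
  have h1 := congrArg (fun b : Bool => b = true) h.1
  simp only [beq_iff_eq, Bool.or_eq_true, Bool.not_eq_true', beq_eq_false_iff_ne, eq_iff_iff] at h1
  rw [← X.map_mul, ← X.map_one, Ne, Ne, X.inj.eq_iff, X.inj.eq_iff, Fin.ext_iff, Fin.ext_iff,
    show ((fin 0 : I) : ℕ) = 0 from rfl, h1]
  tauto

theorem orderOf_phi {i : I} (h : lab i ≠ 0) : orderOf (X.φ i) = 2 := by
  obtain ⟨h1, h2⟩ := X.label_iff.1 h
  exact orderOf_eq_prime (by rw [pow_two, h2]) h1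

theorem z_ne_one_label : z ≠ 1 := by
  have h := (X.label_iff (i := kz)).1 (by rw [rep_lab_check.2.2.2.1]; decide)
  rw [X.z_eq] at h
  exact h.1

theorem label_ne_zero_of_conj {i : I} {g : G} (e : g * z * g⁻¹ = X.φ i) : lab i ≠ 0 := by
  have h := (X.label_iff (i := kz)).1 (by rw [rep_lab_check.2.2.2.1]; decide)
  rw [X.z_eq] at h
  refine X.label_iff.2 ⟨?_, ?_⟩
  · rw [← e]
    exact fun he => h.1 (conj_eq_one_iff.1 he)
  · rw [← e, show g * z * g⁻¹ * (g * z * g⁻¹) = g * (z * z) * g⁻¹ by group, h.2]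
    group

/-- The conjugates of `z` in its centraliser have label at most three. -/
theorem label_le_three {i : I} {g : G} (e : g * z * g⁻¹ = X.φ i) : lab i ≤ 3 := by
  have hcomm : g⁻¹ * z * g * z = z * (g⁻¹ * z * g) := by
    have h := X.comm_z i
    rw [← e] at h
    calc g⁻¹ * z * g * z = g⁻¹ * (z * (g * z * g⁻¹)) * g := by group
      _ = g⁻¹ * (g * z * g⁻¹ * z) * g := by rw [h]
      _ = _ := by group
  obtain ⟨j, hj⟩ := X.surj _ hcomm
  have hjl : lab j ≠ 0 := X.label_ne_zero_of_conj (g := g⁻¹) (by rw [inv_inv, hj])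
  obtain ⟨s, hs⟩ : ∃ s, (sq0 s).val = 16 ∧ com 0 s j = true := by
    have h := all1_spec zRoot_check.2 j
    simp only [Bool.or_eq_true, beq_iff_eq, List.any_eq_true] at h
    obtain ⟨s, hs, hsc⟩ := h.resolve_left hjl
    exact ⟨s, by simpa using List.all_eq_true.1 zRoot_check.1 s hs, hsc⟩
  have hss : X.φ s * X.φ s = z := by
    rw [← X.map_mul, show mul 0 s s = kz from Fin.ext hs.1, X.z_eq]
  have hsj := (X.com_iff s j).1 hs.2
  rw [hj] at hsj
  have hgs : g * X.φ s * g⁻¹ * z = z * (g * X.φ s * g⁻¹) := by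
    calc g * X.φ s * g⁻¹ * z = g * (X.φ s * (g⁻¹ * z * g)) * g⁻¹ := by group
      _ = g * (g⁻¹ * z * g * X.φ s) * g⁻¹ := by rw [hsj]
      _ = _ := by group
  obtain ⟨r, hr⟩ := X.surj _ hgs
  have hi : sq0 r = i := X.inj (by
    show X.φ (mul 0 r r) = X.φ i
    rw [X.map_mul, hr, ← e, ← congrArg (fun a => g * a * g⁻¹) hss]
    group)
  have h := all1_spec sq_label_check r
  rw [hi] at h
  exact of_decide_eq_true h

/-- The Sylow subgroup. -/
def subS : Subgroup G :=
  X.sub inS S_card_check.2.1 (X.gen_closed S_closed_check)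

theorem mem_subS {g : G} : g ∈ X.subS ↔ ∃ i, inS i = true ∧ X.φ i = g := Iff.rfl

theorem card_subS : Nat.card X.subS = 256 :=
  (X.card_image inS X.subS fun _ => X.mem_subS).trans S_card_check.1

theorem exists_sylow : ∃ Q : Sylow 2 G, (Q : Subgroup G) = X.subS := by
  have := Fact.mk Nat.prime_two
  obtain ⟨Q, hQ⟩ := (IsPGroup.of_card (n := 8) (by rw [X.card_subS]; norm_num) :
    IsPGroup 2 X.subS).exists_le_sylow
  refine ⟨Q, eq_of_normalizer_le Q.isPGroup' hQ fun g hg hn => ?_⟩
  have hzS : z ∈ X.subS := ⟨kz, S_card_check.2.2, X.z_eq⟩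
  obtain ⟨i, hi, e⟩ := hn z hzS
  have hc : g * z = z * g := by
    have h := all1_spec S_center_check i
    simp only [hi, Bool.not_true, Bool.false_or, Bool.or_eq_true, beq_iff_eq] at h
    rcases h with (h0 | h1) | hj
    · rw [show i = fin 0 from Fin.ext h0, X.map_one] at e
      exact absurd (conj_eq_one_iff.1 e.symm) X.z_ne_one_label
    · rw [show i = kz from Fin.ext h1, X.z_eq] at e
      exact mul_inv_eq_iff_eq_mul.1 e.symm
    · exfalso
      obtain ⟨j, hj⟩ := any1_spec hj
      simp only [Bool.and_eq_true, Bool.not_eq_true'] at hj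
      have hmap : X.subS.map (MulAut.conj g).toMonoidHom = X.subS :=
        Subgroup.eq_of_le_of_card_ge (by rintro _ ⟨t, ht, rfl⟩; exact hn t ht)
          (by rw [Subgroup.card_map_of_injective (MulAut.conj g).injective])
      obtain ⟨t, ⟨k, -, hk⟩, et⟩ := hmap.ge (X.mem_subS.2 ⟨j, hj.1, rfl⟩)
      have hkc := X.comm_z k
      rw [hk] at hkc
      have het : g * t * g⁻¹ = X.φ j := et
      have : X.φ i * X.φ j = X.φ j * X.φ i := by
        rw [e, ← het]
        calc g * z * g⁻¹ * (g * t * g⁻¹) = g * (z * t) * g⁻¹ := by group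
          _ = _ := by rw [← hkc]; group
      rw [(X.com_iff i j).2 this] at hj
      exact Bool.noConfusion hj.2
  -- `g` centralises `z`, and `S` is a Sylow subgroup of the centraliser
  have hle : X.subS ≤ (Q : Subgroup G) ⊓ Subgroup.centralizer ({z} : Set G) :=
    le_inf hQ fun a ⟨k, _, hk⟩ => (X.mem_C a).2 ⟨k, hk⟩
  have heq : X.subS = (Q : Subgroup G) ⊓ Subgroup.centralizer ({z} : Set G) := by
    refine Subgroup.eq_of_le_of_card_ge hle ?_
    obtain ⟨n, hn⟩ := IsPGroup.iff_card.1 (Q.isPGroup'.to_le (inf_le_left :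
      (Q : Subgroup G) ⊓ Subgroup.centralizer ({z} : Set G) ≤ Q))
    have hd := Subgroup.card_dvd_of_le (inf_le_right :
      (Q : Subgroup G) ⊓ Subgroup.centralizer ({z} : Set G) ≤ _)
    rw [X.card_C, hn] at hd
    rw [X.card_subS, hn]
    refine le_trans (Nat.pow_le_pow_right (by norm_num) ?_) (le_of_eq (by norm_num : 2 ^ 8 = 256))
    by_contra hc
    have : 2 ^ 9 ∣ 768 := (pow_dvd_pow 2 (by omega)).trans hd
    omega
  exact heq ▸ ⟨hg, Subgroup.mem_centralizer_singleton_iff.2 hc⟩

theorem mem_inCS (x : I) (g : G) :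
    g ∈ X.subS ⊓ Subgroup.centralizer ({X.φ x} : Set G) ↔ ∃ i, inCS x i = true ∧ X.φ i = g := by
  rw [Subgroup.mem_inf, X.mem_subS, Subgroup.mem_centralizer_singleton_iff]
  constructor
  · rintro ⟨⟨i, hi, rfl⟩, h⟩
    exact ⟨i, by rw [inCS, hi, (X.com_iff i x).2 h]; rfl, rfl⟩
  · rintro ⟨i, hi, rfl⟩
    obtain ⟨h1, h2⟩ := Bool.and_eq_true_iff.1 hi
    exact ⟨⟨i, h1, rfl⟩, (X.com_iff i x).1 h2⟩

theorem anchored {x : I} (hx : x ∈ reps) :
    ∃ W : Subgroup G, Anchored z (X.φ x) W ∧ Nat.card W ≤ 32 := by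
  have := Fact.mk Nat.prime_two
  have h := List.all_eq_true.1 W_check x hx
  simp only [Bool.and_eq_true, beq_iff_eq] at h
  obtain ⟨⟨⟨⟨-, hz⟩, h0⟩, hcW⟩, hcC⟩ := h
  set W := X.subS ⊓ Subgroup.centralizer ({X.φ x} : Set G) with hW
  have hmem : ∀ g, g ∈ W ↔ ∃ i, inCS x i = true ∧ X.φ i = g := X.mem_inCS x
  have hcard : Nat.card W = bif lab x == 6 then 16 else 32 := (X.card_image _ W hmem).trans hcW
  have hlz : W ≤ Subgroup.centralizer ({z} : Set G) := fun g hg => by
    obtain ⟨i, -, e⟩ := (hmem g).1 hg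
    exact (X.mem_C g).2 ⟨i, e⟩
  have hlx : W ≤ Subgroup.centralizer ({X.φ x} : Set G) := fun g hg => by
    obtain ⟨i, hi, rfl⟩ := (hmem g).1 hg
    simp only [inCS, Bool.and_eq_true] at hi
    exact Subgroup.mem_centralizer_singleton_iff.2 ((X.com_iff i x).1 hi.2)
  have hl : lab x = 4 ∨ lab x = 5 ∨ lab x = 6 := by
    simp only [reps, List.mem_cons, List.not_mem_nil, or_false] at hx
    rcases hx with rfl | rfl | rfl
    · exact Or.inl rep_lab_check.1
    · exact Or.inr (Or.inl rep_lab_check.2.1)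
    · exact Or.inr (Or.inr rep_lab_check.2.2.1)
  refine ⟨W, ⟨hlz, hlx, ?_, (hmem z).2 ⟨kz, hz, X.z_eq⟩, ?_, ?_⟩, ?_⟩
  · rcases hl with e | e | e <;> rw [e] at hcard
    · exact IsPGroup.of_card (n := 5) (by rw [hcard]; rfl)
    · exact IsPGroup.of_card (n := 5) (by rw [hcard]; rfl)
    · exact IsPGroup.of_card (n := 4) (by rw [hcard]; rfl)
  · intro U hWU hU hUz hUx
    refine (Subgroup.eq_of_le_of_card_ge hWU ?_).symm
    obtain ⟨n, hn⟩ := IsPGroup.iff_card.1 hU
    have hd := Subgroup.card_dvd_of_le (le_inf hUz hUx)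
    have hcx : Nat.card ↥(Subgroup.centralizer ({z} : Set G) ⊓
        Subgroup.centralizer ({X.φ x} : Set G)) = cnt fun k => com 0 k x := by
      refine X.card_image _ _ fun g => ?_
      rw [Subgroup.mem_inf, X.mem_C, Subgroup.mem_centralizer_singleton_iff]
      constructor
      · rintro ⟨⟨k, rfl⟩, h⟩
        exact ⟨k, (X.com_iff k x).2 h, rfl⟩
      · rintro ⟨k, hk, rfl⟩
        exact ⟨⟨k, rfl⟩, (X.com_iff k x).1 hk⟩
    rw [hcx, hcC, hn] at hd
    rw [hcard, hn]
    rcases hl with e | e | e <;> rw [e] at hd <;> rw [e]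
    · change 2 ^ n ∣ 96 at hd
      refine le_trans (Nat.pow_le_pow_right (by norm_num) ?_) (le_refl (2 ^ 5))
      by_contra hc
      have : 2 ^ 6 ∣ 96 := (pow_dvd_pow 2 (by omega)).trans hd
      omega
    · exact Nat.le_of_dvd (by decide) hd
    · exact Nat.le_of_dvd (by decide) hd
  · intro g hg hc
    obtain ⟨i, hi, e⟩ := (hmem _).1 hg
    have h := all1_spec (List.all_eq_true.1 W_center_check x hx) i
    simp only [hi, Bool.not_true, Bool.false_or, Bool.or_eq_true, beq_iff_eq, Nat.ble_eq] at h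
    rcases h with ((h0 | h4) | h16) | hj
    · exact absurd h0 (X.label_ne_zero_of_conj e.symm)
    · exact absurd (X.label_le_three e.symm) (by omega)
    · rw [← e, show i = kz from Fin.ext h16, X.z_eq]
    · exfalso
      obtain ⟨j, hj⟩ := any1_spec hj
      simp only [Bool.and_eq_true, Bool.not_eq_true'] at hj
      have := hc _ ((hmem _).2 ⟨j, hj.1, rfl⟩)
      rw [← e] at this
      rw [(X.com_iff i j).2 this] at hj
      exact Bool.noConfusion hj.2
  · rcases hl with e | e | e <;> rw [e] at hcard <;> rw [hcard] <;> decide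

theorem label_le_six (i : I) : lab i ≤ 6 := by
  have h := all1_spec lab_check i
  simp only [Bool.and_eq_true, decide_eq_true_eq] at h
  exact h.2

theorem exists_rep {k : I} (hk : 4 ≤ lab k) :
    ∃ x ∈ reps, lab x = lab k ∧ IsConj (X.φ x) (X.φ k) := by
  have hk6 := X.label_le_six k
  have h := all1_spec rep_check k
  simp only [Bool.and_eq_true, Bool.or_eq_true, Bool.not_eq_true', beq_eq_false_iff_ne] at h
  obtain ⟨⟨h4, h5⟩, h6⟩ := h
  have step : ∀ (x : I) (l : List I), (l.any fun g => (cj 0 g x).val == k.val) = true →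
      IsConj (X.φ x) (X.φ k) := fun x l hx => by
    obtain ⟨g, -, hg⟩ := List.any_eq_true.1 hx
    rw [beq_iff_eq, ← Fin.ext_iff] at hg
    exact isConj_iff.2 ⟨X.φ g, by rw [← X.map_cj, hg]⟩
  rcases (by omega : lab k = 4 ∨ lab k = 5 ∨ lab k = 6) with e | e | e
  · exact ⟨fin 2, by simp [reps], by rw [rep_lab_check.1, e], step _ _ (h4.resolve_left (· e))⟩
  · exact ⟨kx, by simp [reps], by rw [rep_lab_check.2.1, e], step _ _ (h5.resolve_left (· e))⟩
  · exact ⟨ky, by simp [reps], by rw [rep_lab_check.2.2.1, e], step _ _ (h6.resolve_left (· e))⟩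

/-- The labels `4`, `5`, `6` separate the classes in `G`. -/
theorem label_eq_of_conj {i j : I} (hi : 4 ≤ lab i) (hj : 4 ≤ lab j)
    (h : IsConj (X.φ i) (X.φ j)) : lab i = lab j := by
  obtain ⟨x, hx, exl, hxi⟩ := X.exists_rep hi
  obtain ⟨y, hy, eyl, hyj⟩ := X.exists_rep hj
  obtain ⟨W, hW, -⟩ := X.anchored hx
  obtain ⟨V, hV, -⟩ := X.anchored hy
  have hxy : IsConj (X.φ x) (X.φ y) := (hxi.trans h).trans hyj.symm
  rw [← exl, ← eyl]
  rcases le_total (Nat.card W) (Nat.card V) with hle | hle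
  · obtain ⟨k, hk, e⟩ := hW.exists_conj hV.two hV.le_z hV.le_x hV.mem_z hle hxy.symm
    obtain ⟨g, rfl⟩ := X.surj k hk
    rw [← X.map_cj] at e
    have hl := all1_spec (List.all_eq_true.1 lab_cj_check y hy) g
    rw [X.inj e, beq_iff_eq] at hl
    exact hl
  · obtain ⟨k, hk, e⟩ := hV.exists_conj hW.two hW.le_z hW.le_x hW.mem_z hle hxy
    obtain ⟨g, rfl⟩ := X.surj k hk
    rw [← X.map_cj] at e
    have hl := all1_spec (List.all_eq_true.1 lab_cj_check x hx) g
    rw [X.inj e, beq_iff_eq] at hl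
    exact hl.symm

/-- An element of label at least four is conjugate to no involution of label at most three. -/
theorem label_small {i j : I} (hi : 4 ≤ lab i) (hj : 1 ≤ lab j ∧ lab j ≤ 3) :
    ¬ IsConj (X.φ i) (X.φ j) := by
  intro h
  obtain ⟨x, hx, exl, hxi⟩ := X.exists_rep hi
  have hs := all1_spec small_conj_check j
  simp only [Bool.or_eq_true, beq_iff_eq, Nat.ble_eq, List.any_eq_true] at hs
  obtain ⟨y, hy, g, hg⟩ : ∃ y ∈ small, ∃ g, (cj 0 g y).val = j.val := by
    rcases hs with (((h0 | h4) | h16) | ⟨g, -, hg⟩) | ⟨g, -, hg⟩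
    · omega
    · omega
    · rw [show j = kz from Fin.ext h16, X.z_eq] at h
      obtain ⟨g, hg⟩ := isConj_iff.1 h.symm
      exact absurd (X.label_le_three hg) (by omega)
    · exact ⟨fin 1, by simp [small], g, hg⟩
    · exact ⟨fin 712, by simp [small], g, hg⟩
  rw [← Fin.ext_iff] at hg
  have hyx : IsConj (X.φ y) (X.φ x) :=
    ((isConj_iff.2 ⟨X.φ g, by rw [← X.map_cj, hg]⟩ : IsConj (X.φ y) (X.φ j)).trans h.symm).trans
      hxi.symm
  obtain ⟨W, hW, hWc⟩ := X.anchored hx
  have hc := List.all_eq_true.1 small_check y hy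
  simp only [Bool.and_eq_true, beq_iff_eq] at hc
  obtain ⟨hz, hcard⟩ := hc
  set V := X.subS ⊓ Subgroup.centralizer ({X.φ y} : Set G) with hV
  have hmem : ∀ g, g ∈ V ↔ ∃ i, inCS y i = true ∧ X.φ i = g := X.mem_inCS y
  have hVc : 32 ≤ Nat.card V ∧ IsPGroup 2 V := by
    rw [← X.card_image _ V hmem] at hcard
    rcases Bool.eq_false_or_eq_true (lab y == 2) with e' | e' <;>
      simp only [e', cond_true, cond_false] at hcard <;> refine ⟨by omega, ?_⟩
    · exact IsPGroup.of_card (n := 7) (by rw [hcard]; rfl)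
    · exact IsPGroup.of_card (n := 5) (by rw [hcard]; rfl)
  obtain ⟨k, hk, hkxy⟩ := hW.exists_conj hVc.2 (fun g hg => by
      obtain ⟨i, -, e⟩ := (hmem g).1 hg
      exact (X.mem_C g).2 ⟨i, e⟩) (fun g hg => by
      obtain ⟨i, hi, rfl⟩ := (hmem g).1 hg
      simp only [inCS, Bool.and_eq_true] at hi
      exact Subgroup.mem_centralizer_singleton_iff.2 ((X.com_iff i y).1 hi.2))
    ((hmem z).2 ⟨kz, hz, X.z_eq⟩) (le_trans hWc hVc.1) hyx
  obtain ⟨r, rfl⟩ := X.surj k hk
  rw [← X.map_cj] at hkxy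
  have hl := all1_spec (List.all_eq_true.1 lab_cj_check x hx) (inv 0 r)
  rw [beq_iff_eq] at hl
  have hy' : cj 0 (inv 0 r) x = y := X.inj (by
    rw [X.map_cj, X.map_inv, inv_inv, ← hkxy, X.map_cj]
    group)
  rw [hy'] at hl
  have : lab y ≤ 3 := small_lab_check y hy
  omega

/-- A subgroup of index two avoiding `φ a` and containing `φ b`. -/
theorem exists_half {a b : I} (ha : a ∈ ([fin 2, kx] : List I)) (hb : 4 ≤ lab b)
    (hab : lab b ≠ lab a) :
    ∃ K : Subgroup G, K.index = 2 ∧ X.φ b ∉ K ∧ X.φ a ∈ K := by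
  have hc : ∀ i j, inM a i = true → inM a j = true → inM a (mul 0 i j) = true := by
    simp only [List.mem_cons, List.not_mem_nil, or_false] at ha
    rcases ha with rfl | rfl
    · exact X.gen_closed MA_closed_check
    · exact X.gen_closed MB_closed_check
  have hm := List.all_eq_true.1 M_check a ha
  simp only [Bool.and_eq_true, beq_iff_eq] at hm
  obtain ⟨⟨h0, hcard⟩, hall⟩ := hm
  set M := X.sub (inM a) h0 hc with hM
  have hmem : ∀ g, g ∈ M ↔ ∃ i, inM a i = true ∧ X.φ i = g := fun g => Iff.rfl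
  have hla : lab a = 4 ∨ lab a = 5 := by
    simp only [List.mem_cons, List.not_mem_nil, or_false] at ha
    rcases ha with rfl | rfl
    · exact Or.inl rep_lab_check.1
    · exact Or.inr rep_lab_check.2.1
  have hM_S : M ≤ X.subS := fun g hg => by
    obtain ⟨i, hi, rfl⟩ := (hmem g).1 hg
    have h := all1_spec hall i
    simp only [hi, Bool.not_true, Bool.false_or, Bool.and_eq_true] at h
    exact X.mem_subS.2 ⟨i, h.1.1, rfl⟩
  obtain ⟨Q, hQ⟩ := X.exists_sylow
  have hodd : X.subS.index % 2 = 1 := by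
    have := Fact.mk Nat.prime_two
    rw [← hQ]
    have := Q.not_dvd_index
    omega
  obtain ⟨K, hK, hbK, hin⟩ := AEight.exists_index_two_avoiding (x := X.φ b) hodd hM_S
    (by rw [X.card_image _ M hmem, hcard, X.card_subS]) (X.orderOf_phi (by omega))
    (fun g hg => by
      obtain ⟨j, hj, e⟩ := (hmem _).1 hg
      have h := all1_spec hall j
      simp only [hj, Bool.not_true, Bool.false_or, Bool.and_eq_true, decide_eq_true_eq,
        Bool.or_eq_true, beq_iff_eq] at h
      have hconj : IsConj (X.φ b) (X.φ j) := isConj_iff.2 ⟨g, e.symm⟩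
      have hj0 : lab j ≠ 0 := by
        refine X.label_iff.2 ?_
        obtain ⟨u1, u2⟩ := X.label_iff.1 (show lab b ≠ 0 by omega)
        rw [e]
        exact ⟨fun he => u1 (conj_eq_one_iff.1 he),
          by rw [show g * X.φ b * g⁻¹ * (g * X.φ b * g⁻¹) = g * (X.φ b * X.φ b) * g⁻¹ by group, u2]; group⟩
      have hlj : 4 ≤ lab j := by
        by_contra hlt
        exact X.label_small hb ⟨by omega, by omega⟩ hconj
      rcases h.1.2 with h3 | heq
      · omega
      · exact hab ((X.label_eq_of_conj hb hlj hconj).trans heq))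
  refine ⟨K, hK, hbK, hin _ (X.orderOf_phi (by omega)) fun g hg => ?_⟩
  obtain ⟨j, hj, e⟩ := X.mem_subS.1 hg
  have hconj : IsConj (X.φ j) (X.φ a) := (isConj_iff.2 ⟨g, e.symm⟩ : IsConj (X.φ a) (X.φ j)).symm
  have hlj : lab j = lab a := by
    refine X.label_eq_of_conj ?_ (by omega) hconj
    by_contra hlt
    have hj0 : lab j ≠ 0 := by
      refine X.label_iff.2 ?_
      obtain ⟨u1, u2⟩ := X.label_iff.1 (show lab a ≠ 0 by omega)
      rw [e]
      exact ⟨fun he => u1 (conj_eq_one_iff.1 he),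
        by rw [show g * X.φ a * g⁻¹ * (g * X.φ a * g⁻¹) = g * (X.φ a * X.φ a) * g⁻¹ by group, u2]; group⟩
    exact X.label_small (i := a) (by omega) ⟨by omega, by omega⟩ hconj.symm
  refine (hmem _).2 ⟨j, ?_, e⟩
  have h := all1_spec hall j
  simp only [hj, hlj, Bool.and_eq_true, Bool.not_true, Bool.false_or, beq_self_eq_true] at h
  exact h.2

/-- The normal subgroup of index four. -/
theorem exists_quarter (hO : Cfsg.oddCore G = ⊥) : Nonempty (Quarter X) := by
  have hp := Fact.mk Nat.prime_two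
  obtain ⟨l4, l5, -, -, d2, d43, d45⟩ := rep_lab_check
  obtain ⟨K1, hK1, h1not, h1in⟩ := X.exists_half (a := kx) (b := fin 2) (by simp) (by omega) (by omega)
  obtain ⟨K2, hK2, h2not, h2in⟩ := X.exists_half (a := fin 2) (b := kx) (by simp) (by omega) (by omega)
  have n1 : K1.Normal := Subgroup.normal_of_index_eq_two hK1
  have n2 : K2.Normal := Subgroup.normal_of_index_eq_two hK2
  set L := K1 ⊓ K2 with hL
  have hLn : L.Normal := Subgroup.normal_inf_normal K1 K2
  have hidx : L.index = 4 := by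
    have hrel : K2.relIndex K1 = 2 := by
      have hd := Subgroup.relIndex_dvd_index_of_normal K2 K1
      rw [hK2] at hd
      refine ((Nat.dvd_prime Nat.prime_two).1 hd).resolve_left fun h1 => ?_
      exact h2not (Subgroup.relIndex_eq_one.1 h1 h1in)
    rw [← Subgroup.relIndex_mul_index (show L ≤ K1 from inf_le_left), hK1, hL,
      Subgroup.inf_relIndex_left, hrel]
  have hsq : ∀ a : I, X.φ (sq0 a) ∈ L := fun a => by
    rw [sq0, X.map_mul]
    exact ⟨Subgroup.mul_self_mem_of_index_two hK1 _, Subgroup.mul_self_mem_of_index_two hK2 _⟩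
  have hsq' : ∀ a : I, isSq0 a = true → X.φ a ∈ L := fun a ha => by
    have h := all1_spec isSq0_check a
    simp only [ha, Bool.not_true, Bool.false_or] at h
    obtain ⟨s, -, hs⟩ := List.any_eq_true.1 h
    rw [beq_iff_eq, ← Fin.ext_iff] at hs
    exact hs ▸ hsq s
  have hD : ∀ i, inD i = true → X.φ i ∈ L := by
    intro i hi
    have h := all1_spec D_square_check i
    simp only [hi, Bool.not_true, Bool.false_or] at h
    obtain ⟨a, ha⟩ := any1_spec h
    simp only [Bool.and_eq_true] at ha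
    have h1 := L.mul_mem (hsq' _ ha.1) (hsq' _ ha.2)
    rwa [X.map_mul, X.map_inv, mul_inv_cancel_left] at h1
  have hiff : ∀ i, X.φ i ∈ L ↔ inD i = true := by
    refine fun i => ⟨fun hi => ?_, hD i⟩
    by_contra hne
    have h := all1_spec coset_check i
    simp only [Bool.or_eq_true, hne, false_or] at h
    rcases h with (h | h) | h
    · have := L.mul_mem hi (L.inv_mem (hD _ h))
      rw [X.map_mul, X.map_inv, mul_inv_rev, inv_inv, mul_inv_cancel_left] at this
      exact h1not this.1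
    · have := L.mul_mem hi (L.inv_mem (hD _ h))
      rw [X.map_mul, X.map_inv, mul_inv_rev, inv_inv, mul_inv_cancel_left] at this
      exact h2not this.2
    · have := L.mul_mem hi (L.inv_mem (hD _ h))
      rw [X.map_mul, X.map_inv, mul_inv_rev, inv_inv, mul_inv_cancel_left, X.map_mul] at this
      refine h1not ?_
      have := K1.mul_mem this.1 (K1.inv_mem h1in)
      rwa [mul_inv_cancel_right] at this
  have hodd : Cfsg.oddCore ↥L = ⊥ := by
    have hc : (Cfsg.oddCore ↥L).Characteristic := by rw [Cfsg.oddCore]; infer_instance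
    have hmn : ((Cfsg.oddCore ↥L).map L.subtype).Normal := inferInstance
    have h := CfsgLib.Cores.le_oddCore (N := (Cfsg.oddCore ↥L).map L.subtype)
      (by rw [Subgroup.card_map_of_injective L.subtype_injective]
          exact CfsgLib.Cores.odd_card_oddCore)
    rw [hO, le_bot_iff, Subgroup.map_eq_bot_iff_of_injective _ L.subtype_injective] at h
    exact h
  have hsyl : ∃ S : Sylow 2 L, ∀ x : L, x ∈ (S : Subgroup L) ↔ ∃ i, inP i = true ∧ X.φ i = x := by
    obtain ⟨Q, hQ⟩ := X.exists_sylow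
    have hmem : ∀ g, g ∈ L ⊓ X.subS ↔ ∃ i, inP i = true ∧ X.φ i = g := by
      intro g
      constructor
      · rintro ⟨hgL, i, hi, rfl⟩
        refine ⟨i, ?_, rfl⟩
        have h := all1_spec P_check.1 i
        rw [beq_iff_eq] at h
        rw [h, hi, (hiff i).1 hgL]
        rfl
      · rintro ⟨i, hi, rfl⟩
        have h := all1_spec P_check.1 i
        rw [beq_iff_eq, hi] at h
        obtain ⟨h1, h2⟩ := Bool.and_eq_true_iff.1 h.symm
        exact ⟨(hiff i).2 h2, i, h1, rfl⟩
    have hcard : Nat.card ↥((L ⊓ X.subS).subgroupOf L) = 64 := by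
      rw [Nat.card_congr (Subgroup.subgroupOfEquivOfLe inf_le_left).toEquiv,
        X.card_image inP _ hmem, P_check.2.1]
    have hnd : ¬ 2 ∣ ((L ⊓ X.subS).subgroupOf L).index := by
      intro hdvd
      refine Q.not_dvd_index ?_
      have h1 := ((L ⊓ X.subS).subgroupOf L).card_mul_index
      have h2 := (Q : Subgroup G).card_mul_index
      have h3 := L.card_mul_index
      rw [hcard] at h1
      rw [hQ, X.card_subS] at h2
      rw [hidx] at h3
      rw [hQ]
      obtain ⟨c, hc⟩ := hdvd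
      exact ⟨c, by rw [hc] at h1; omega⟩
    let S := (IsPGroup.of_card (n := 6) (by rw [hcard]; norm_num) :
      IsPGroup 2 ↥((L ⊓ X.subS).subgroupOf L)).toSylow hnd
    refine ⟨S, fun x => ?_⟩
    exact hmem x
  exact ⟨⟨L, hLn, hidx, hiff, hodd, hsyl⟩⟩

end Ctr

end CfsgLib.InvChar.AutLinear
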