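import Cfsg.Agent.Lib.BaseThree.Triples

/-!
The centraliser of the involution is solvable.
-/

set_option autoImplicit false

namespace CfsgLib.InvChar.AutLinear

/-- A group with a normal subgroup of order 32 and the symmetric group of degree four as quotient
is solvable. -/
theorem isSolvable_of_quotient_perm_four {K : Type*} [Group K] [Finite K] (E : Subgroup K)
    [E.Normal] (h32 : Nat.card ↥E = 32) (e : (K ⧸ E) ≃* Equiv.Perm (Fin 4)) :
    Group.IsSolvable K := by
  have : Fact (Nat.Prime 2) := ⟨Nat.prime_two⟩
  have := (IsPGroup.of_card (p := 2) (n := 5) (by rw [h32]; norm_num) : IsPGroup 2 ↥E).isNilpotent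
  have : Group.IsSolvable ↥E := inferInstance
  have := CfsgLib.BaseThree.isSolvable_perm_fin_four
  have : Group.IsSolvable (K ⧸ E) :=
    Group.isSolvable_of_isSolvable_injective (f := e.toMonoidHom) e.injective
  exact Group.isSolvable_of_ker_le_range E.subtype (QuotientGroup.mk' E)
    (by rw [QuotientGroup.ker_mk', Subgroup.range_subtype])

end CfsgLib.InvChar.AutLinear
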